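import Cfsg.Agent.SPOR.B3.Cd
import Cfsg.Agent.SIG.FStar
import Cfsg.Agent.SPOR.FiP4

/-!
(S2914/S2915): application of S3368 (`T68`) and S3337 (`T37`).

Take `H₀ = cz z`, `Q₀ = Q.subgroupOf H₀` (`= μ.ker`, normal), `Z = zpowers z`.  `center H₀ = <z>` (a central element centralizes `Q`,
`cent`), also `center Q₀`.  `F*(H₀) = Q₀`: `Q₀` is a normal 3-subgroup with `C(Q₀) ≤ Q₀` and `O₃(H₀) = Q₀` (`o3`), so the layer and
the `O_p`, `p ≠ 3`, centralize `Q₀` and are trivial (search the library: `generalizedFittingSubgroup_eq`, `FStar`, ...).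
`H₀ ⧸ Q₀ ≃* Y` (`quotientKerEquivOfSurjective`) carries `pCore 2` to `pCore 2` (`map_piCore_equiv`, `pCore_eq_piCore`).
`Qᵢ = (h.cd.sub (U i)).subgroupOf H₀` (`es_sub`, `card_sub`, `FiP.isExtraspecial_congr`, `subgroupOfEquivOfLe`).  For `m ∈ H₀`:
`m (f c v) m⁻¹ (f c v)⁻¹ ∈ <z> ↔ ρ m v = v` and `m (f c v) m⁻¹ (f c v) ∈ <z> ↔ ρ m v = -v` (`act`, `mul`, `zp`).
`S` is a Sylow 3-subgroup containing the 3-group `closure {z, k z k⁻¹}`.
-/

set_option autoImplicit false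
open Subgroup Cfsg

namespace CL.B3

universe u

variable {H : Type u} {Y V : Type*} [Group H] [Finite H] [Group Y] [AddCommGroup V] [Module F3 V] {z : H}
  {Q : Subgroup H} {ω : V →ₗ[F3] V →ₗ[F3] F3} {f : F3 → V → H} {ρ : H → V →ₗ[F3] V} {μ : cz z →* Y}
  {U : Fin 3 → Submodule F3 V}

namespace Ap

omit [Finite H] in
theorem Qle (h : Cd z Q ω f ρ) : Q ≤ cz z := fun _ hq => mem_cz.2 (h.Qz hq)

omit [Finite H] in
theorem mem_center (h : Cd z Q ω f ρ) {m : cz z} : m ∈ center (cz z) ↔ (m : H) ∈ zpowers z := by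
  rw [mem_center_iff]
  refine ⟨fun k => h.cent fun q hq => (congrArg Subtype.val (k ⟨q, Qle h hq⟩)).symm, fun ⟨k, hk⟩ g => ?_⟩
  apply Subtype.ext
  rw [coe_mul, coe_mul, ← hk]
  exact ((show Commute (g : H) z from mem_cz.1 g.2).zpow_right k).eq

omit [Finite H] in
theorem zZ (h : Cd z Q ω f ρ) : zpowers z = (center (cz z)).map (cz z).subtype := by
  ext g
  constructor
  · intro hg
    exact ⟨⟨g, zpowers_le.2 (mem_cz.2 rfl) hg⟩, (mem_center h).2 hg, rfl⟩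
  · rintro ⟨m, hm, rfl⟩; exact (mem_center h).1 hm

omit [Finite H] in
theorem czZ : cz z = centralizer (zpowers z : Set H) := by
  rw [zpowers_eq_closure, centralizer_closure]

/-- the preimage of a subspace inside `C(z)` -/
def W (h : Cd z Q ω f ρ) (A : Submodule F3 V) : Subgroup (cz z) := (h.sub A).subgroupOf (cz z)

omit [Finite H] in
theorem mem_W (h : Cd z Q ω f ρ) {A : Submodule F3 V} {q : cz z} : q ∈ W h A ↔ ∃ c, ∃ v ∈ A, f c v = q := Iff.rfl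

omit [Finite H] in
theorem W_sup (h : Cd z Q ω f ρ) (A B : Submodule F3 V) : W h A ⊔ W h B = W h (A ⊔ B) := by
  have le : ∀ C, h.sub C ≤ cz z := fun C => (h.sub_le C).trans (Qle h)
  rw [W, W, W, ← subgroupOf_sup (le A) (le B)]
  congr 1
  refine le_antisymm (sup_le ?_ ?_) ?_
  · rintro _ ⟨c, v, hv, rfl⟩; exact ⟨c, v, Submodule.mem_sup_left hv, rfl⟩
  · rintro _ ⟨c, v, hv, rfl⟩; exact ⟨c, v, Submodule.mem_sup_right hv, rfl⟩
  · rintro _ ⟨c, v, hv, rfl⟩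
    obtain ⟨a, ha, b, hb, rfl⟩ := Submodule.mem_sup.1 hv
    have : f c (a + b) = f (c - 2 * ω a b) a * f 0 b := by rw [h.mul]; congr 1; ring
    rw [this]
    exact mul_mem_sup (h.f_mem_sub.2 ha) (h.f_mem_sub.2 hb)

theorem card_W (h : Cd z Q ω f ρ) (A : Submodule F3 V) : Nat.card (W h A) = 3 ^ (Module.finrank F3 A + 1) :=
  (Nat.card_congr (subgroupOfEquivOfLe ((h.sub_le A).trans (Qle h))).toEquiv).trans (h.card_sub A)

theorem es_W (h : Cd z Q ω f ρ) {A : Submodule F3 V} (hA : Module.finrank F3 A ≠ 0)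
    (nd : ∀ v ∈ A, (∀ w ∈ A, ω v w = 0) → v = 0) : IsExtraspecial 3 (W h A) :=
  haveI : Fact (Nat.Prime 3) := ⟨Nat.prime_three⟩
  FiP.isExtraspecial_congr (subgroupOfEquivOfLe ((h.sub_le A).trans (Qle h))).symm
    (h.es_sub (fun e => hA (by rw [e, finrank_bot])) nd)

omit [Finite H] in
theorem all1 (h : Cd z Q ω f ρ) (m : cz z) (A : Submodule F3 V) :
    (∀ q ∈ W h A, m * q * m⁻¹ * q⁻¹ ∈ center (cz z)) ↔ ∀ v ∈ A, ρ m v = v := by
  obtain ⟨δ, hδ⟩ := h.act m (mem_cz.1 m.2)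
  have key : ∀ c v, (m : H) * f c v * (m : H)⁻¹ * (f c v)⁻¹ ∈ zpowers z ↔ ρ m v = v := fun c v => by
    rw [hδ, h.inv, h.mul, h.zp, add_neg_eq_zero]
  constructor
  · intro k v hv
    exact (key 0 v).1 ((mem_center h).1 (k ⟨f 0 v, Qle h (h.mQ 0 v)⟩ ⟨0, v, hv, rfl⟩))
  · rintro k q ⟨c, v, hv, e⟩
    rw [mem_center h]
    simp only [coe_mul, coe_inv]
    exact (show f c v = (q : H) from e) ▸ (key c v).2 (k v hv)

omit [Finite H] in
theorem all2 (h : Cd z Q ω f ρ) (m : cz z) (A : Submodule F3 V) :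
    (∀ q ∈ W h A, m * q * m⁻¹ * q ∈ center (cz z)) ↔ ∀ v ∈ A, ρ m v = -v := by
  obtain ⟨δ, hδ⟩ := h.act m (mem_cz.1 m.2)
  have key : ∀ c v, (m : H) * f c v * (m : H)⁻¹ * f c v ∈ zpowers z ↔ ρ m v = -v := fun c v => by
    rw [hδ, h.mul, h.zp, add_eq_zero_iff_eq_neg]
  constructor
  · intro k v hv
    exact (key 0 v).1 ((mem_center h).1 (k ⟨f 0 v, Qle h (h.mQ 0 v)⟩ ⟨0, v, hv, rfl⟩))
  · rintro k q ⟨c, v, hv, e⟩
    rw [mem_center h]
    simp only [coe_mul, coe_inv]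
    exact (show f c v = (q : H) from e) ▸ (key c v).2 (k v hv)

omit [Finite H] in
theorem pz {x : H} (hx : x ^ 3 = 1) : IsPGroup 3 (zpowers x) := by
  rintro ⟨_, n, rfl⟩
  refine ⟨1, Subtype.ext ?_⟩
  change (x ^ n) ^ 3 ^ 1 = 1
  rw [← zpow_natCast, ← zpow_mul, mul_comm, zpow_mul, zpow_natCast, pow_one, hx, one_zpow]

theorem syl (z3 : z ^ 3 = 1) {k : H} (c : k * z * k⁻¹ * z = z * (k * z * k⁻¹)) (n : k * z * k⁻¹ ∉ zpowers z) :
    ∃ S : Sylow 3 H, zpowers z ≤ S ∧ ¬ IsWeaklyClosed (zpowers z) S := by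
  haveI : Fact (Nat.Prime 3) := ⟨Nat.prime_three⟩
  have p : IsPGroup 3 (zpowers z ⊔ zpowers (k * z * k⁻¹) : Subgroup H) := by
    refine (pz z3).to_sup_of_normal_left' (pz (by rw [conj_pow, z3]; simp)) ?_
    refine le_trans ?_ (centralizer_le_normalizer _)
    rw [← czZ, zpowers_le]; exact mem_cz.2 c
  obtain ⟨S, hS⟩ := p.exists_le_sylow
  refine ⟨S, le_sup_left.trans hS, fun w => n ?_⟩
  have := w.2 k (by rw [MonoidHom.map_zpowers]; exact le_sup_right.trans hS)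
  rw [MonoidHom.map_zpowers] at this
  exact this.le (mem_zpowers _)

omit [Finite H] in
theorem ker_eq (h : C6 z Q ω f ρ μ U) : μ.ker = W h.cd ⊤ := by
  ext m; rw [MonoidHom.mem_ker, h.μk, W, h.cd.sub_top, mem_subgroupOf]

theorem fstar (h : C6 z Q ω f ρ μ U) : μ.ker = generalizedFittingSubgroup (cz z) := by
  haveI : Fact (Nat.Prime 3) := ⟨Nat.prime_three⟩
  haveI := Finite.of_surjective μ h.μs
  have p : IsPGroup 3 μ.ker := fun q => ⟨1, Subtype.ext (Subtype.ext (h.cd.cube ((h.μk _).1 q.2)))⟩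
  rw [Comp.fstar_eq_pCore_of_centralizer_le p, ← comap_pCore h.μs p, h.o3, MonoidHom.comap_bot]
  intro m hm
  rw [MonoidHom.mem_ker, h.μk]
  refine zpowers_le.2 h.cd.zQ (h.cd.cent fun q hq => ?_)
  exact (congrArg Subtype.val (hm ⟨q, Qle h.cd hq⟩ ((h.μk _).2 hq))).symm

theorem es (h : C6 z Q ω f ρ μ U) : IsExtraspecial 3 μ.ker := by
  rw [ker_eq h]
  exact es_W h.cd (by rw [finrank_top, h.dimV]; omega) fun v _ k => h.cd.nd v fun w => k w trivial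

theorem card (h : C6 z Q ω f ρ μ U) : Nat.card μ.ker = 3 ^ 7 := by
  rw [ker_eq h, card_W, finrank_top, h.dimV]

omit [Finite H] in
theorem ZZ (h : C6 z Q ω f ρ μ U) : (center μ.ker).map μ.ker.subtype = center (cz z) := by
  ext m
  constructor
  · rintro ⟨q, hq, rfl⟩
    rw [mem_center h.cd]
    refine h.cd.cent fun r hr => ?_
    exact (congrArg (fun x : μ.ker => ((x : cz z) : H))
      (mem_center_iff.1 hq ⟨⟨r, Qle h.cd hr⟩, (h.μk _).2 hr⟩)).symm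
  · intro hm
    refine ⟨⟨m, (h.μk _).2 (zpowers_le.2 h.cd.zQ ((mem_center h.cd).1 hm))⟩, mem_center_iff.2 fun g => ?_, rfl⟩
    exact Subtype.ext (mem_center_iff.1 hm g)

/-- transport of `O₂` -/
noncomputable def e2 (hs : Function.Surjective μ) : pCore 2 (cz z ⧸ μ.ker) ≃* pCore 2 Y :=
  ((QuotientGroup.quotientKerEquivOfSurjective μ hs).subgroupMap _).trans
    (MulEquiv.subgroupCongr (map_pCore_equiv _))

omit [Finite H] in
theorem memP (hs : Function.Surjective μ) {x : cz z} :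
    x ∈ (pCore 2 (cz z ⧸ μ.ker)).comap (QuotientGroup.mk' μ.ker) ↔ μ x ∈ pCore 2 Y := by
  rw [← map_pCore_equiv (QuotientGroup.quotientKerEquivOfSurjective μ hs), mem_comap]
  exact (mem_map_iff_mem (QuotientGroup.quotientKerEquivOfSurjective μ hs).injective).symm

end Ap

open Ap

theorem C6.fi22 (T : T68.{u}) (h : C6 z Q ω f ρ μ U) (hc : Nat.card (pCore 2 Y) = 2 ^ 7) {k : H}
    (c : k * z * k⁻¹ * z = z * (k * z * k⁻¹)) (n : k * z * k⁻¹ ∉ zpowers z) :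
    Spor.IsoFi22 H ∨ Nonempty (H ≃* MulAut Spor.Fi22) := by
  obtain ⟨S, s1, s2⟩ := syl h.cd.z3 c n
  have le : ∀ i, W h.cd (U i) ≤ μ.ker := fun i => by
    rw [ker_eq h]; rintro q ⟨c, v, -, e⟩; exact ⟨c, v, trivial, e⟩
  have zl : ∀ i, center (cz z) ≤ W h.cd (U i) := fun i m hm => by
    obtain ⟨c, v, e⟩ := (h.cd.mem _).1 (zpowers_le.2 h.cd.zQ ((mem_center h.cd).1 hm))
    have : v = 0 := h.cd.zp.1 (e ▸ (mem_center h.cd).1 hm)
    exact ⟨c, v, this ▸ zero_mem _, e⟩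
  have ex : ∀ i, IsExtraspecial 3 (W h.cd (U i)) := fun i => es_W h.cd (by rw [h.dim]; omega) (h.nd i)
  have cd : ∀ i, Nat.card (W h.cd (U i)) = 27 := fun i => by rw [card_W, h.dim]; rfl
  have cm : ∀ i j, i ≠ j → ∀ a ∈ W h.cd (U i), ∀ b ∈ W h.cd (U j), a * b = b * a := by
    rintro i j e a ⟨c, v, hv, ea⟩ b ⟨c', w, hw, eb⟩
    apply Subtype.ext
    rw [coe_mul, coe_mul, ← show f c v = (a : H) from ea, ← show f c' w = (b : H) from eb]
    exact h.cd.comm_iff.2 (h.orth i j e v hv w hw)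
  have li : ∀ A ∈ [W h.cd (U 0), W h.cd (U 1), W h.cd (U 2)], ∃ i, A = W h.cd (U i) := by
    intro A hA
    simp only [List.mem_cons, List.not_mem_nil, or_false] at hA
    rcases hA with e | e | e
    exacts [⟨0, e⟩, ⟨1, e⟩, ⟨2, e⟩]
  refine (T (cz z) μ.ker (fstar h) (es h) (card h) (ZZ h) _ rfl ((Nat.card_congr (e2 h.μs).toEquiv).trans hc)
    (W h.cd (U 0)) (W h.cd (U 1)) (W h.cd (U 2)) ⟨le 0, le 1, le 2⟩ ⟨zl 0, zl 1, zl 2⟩ ⟨ex 0, ex 1, ex 2⟩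
    ⟨cd 0, cd 1, cd 2⟩ ⟨cm 0 1 (by decide), cm 0 2 (by decide), cm 1 2 (by decide)⟩
    (by rw [W_sup, W_sup, h.top, ker_eq h]) ?_ ?_ ?_ ?_ (zpowers z) (zZ h.cd) czZ S s1 s2).2
  · intro x hx A hA
    obtain ⟨i, rfl⟩ := li A hA
    rintro q ⟨c, v, hv, e⟩
    obtain ⟨δ, hδ⟩ := h.cd.act x (mem_cz.1 x.2)
    refine ⟨_, _, (h.o2 x ((memP h.μs).1 hx) i).1 v hv, (hδ c v).symm.trans ?_⟩
    rw [show f c v = (q : H) from e]; rfl
  · intro x hx A hA
    obtain ⟨i, rfl⟩ := li A hA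
    exact (all1 h.cd (x ^ 4) _).2 (h.o2 x ((memP h.μs).1 hx) i).2.1
  · intro x hx A hA
    obtain ⟨i, rfl⟩ := li A hA
    rw [all1, all1, all2]
    exact (h.o2 x ((memP h.μs).1 hx) i).2.2
  · intro A hA
    obtain ⟨i, rfl⟩ := li A hA
    obtain ⟨x, x1, x2, x3⟩ := h.inv i
    refine ⟨x, (memP h.μs).2 x1, (all2 h.cd _ _).2 x2, fun B hB ne => ?_⟩
    obtain ⟨j, rfl⟩ := li B hB
    exact (all1 h.cd _ _).2 (x3 j fun e => ne (e ▸ rfl))

theorem C6.e62 (T : T37.{u}) (h : C6 z Q ω f ρ μ U)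
    (hc : Nonempty (pCore 2 Y ≃* QuaternionGroup 2 × QuaternionGroup 2 × QuaternionGroup 2)) {k : H}
    (c : k * z * k⁻¹ * z = z * (k * z * k⁻¹)) (n : k * z * k⁻¹ ∉ zpowers z) :
    ∃ N : Subgroup H, N.Normal ∧
      (∃ (K : Type) (_ : Field K) (_ : Fintype K), Fintype.card K = 4 ∧
        Nonempty (N ≃* Cfsg.Lie.twistedE6 K 2)) ∧
      Subgroup.centralizer (N : Set H) = ⊥ ∧ N.index ∣ 6 := by
  obtain ⟨S, s1, s2⟩ := syl h.cd.z3 c n
  obtain ⟨e⟩ := hc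
  exact (T (cz z) μ.ker (fstar h) (es h) (card h) (ZZ h) ((e2 h.μs).trans e) (zpowers z) (zZ h.cd) czZ S s1 s2).2

end CL.B3
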