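import Cfsg.Agent.SPOR.B3.Defs


/-!
For S2914/S2915: linear algebra of an element `A` of order 3 of `Sp₈(3)`.

Write `N = A - 1`, `C = ker N`, `n = dim C`, `D = C ⊓ ker δ`.  Facts: `N³ = 0` (`A³ = 1`, char 3);
`ω (N w) c = 0` for `c ∈ C`, so `range N = C^⊥` (dimensions; `LinearMap.BilinForm.finrank_orthogonal`);
`range N² ≤ C ⊓ range N =: rad`, `dim range N = 8 - n`, `dim range N² = 8 - n - dim rad`, `range N² ≤ D`,
`range N² ⊥ C`; `n ≥ 3`.  A subspace `S` containing a subspace `S₀ ⊥ S` of codimension `≤ 1` is isotropic.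
Half case (`δ ≠ 0` on `C`): `dim D = n - 1`; `E ⊕ range N ≤ D^⊥`, of dimension `9 - n`, so `dim E ≤ 1`, `n ≤ 4`.
  `n = 3`: `dim range N² ≥ 2`, so `D = range N²`, `E ≤ range N`, `E = ⊥`.
  `n = 4`: `dim E = 1`; if `rad = C` then `C` is isotropic, else `range N² ≠ ⊥` and `E ⊕ range N² ⊥ D`.
  In both cases `k = 1` works (`N ≠ 0`).
Full case: `D = C`, `E ≤ C^⊥ = range N`.  `E ⊓ range N² = ⊥` (for `v = N (N w)` apply the hypothesis to `N w`:
  `ω (N w) (N (N w)) = 0`).  `dim E ≤ 2`: for independent `N w₁, N w₂, N w₃ ∈ E` the form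
  `(s₁,s₂,s₃) ↦ ω w (N w)`, `w = Σ sᵢ wᵢ`, has a nontrivial zero (a quadratic form in 3 variables over `F₃`;
  `decide` on the 6 coefficients, or Chevalley-Warning).  So `n ≤ 4`.
  `n = 3`: `dim rad = 3`, `dim range N² = 2`, `C` is isotropic, `dim E = 1`, `k = 2`.
  `n = 4`: `dim E = 2`, `E ⊕ range N² ≤ rad` gives `dim rad ≥ 3`, so `C` is isotropic.
-/

set_option autoImplicit false
open Subgroup Cfsg

namespace CL.B3

namespace Sd

open Module Submodule

variable {V W : Type*} [AddCommGroup V] [Module F3 V] [AddCommGroup W] [Module F3 W]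
  [Module.Finite F3 V] {ω : V →ₗ[F3] V →ₗ[F3] F3}

theorem rank_null (f : V →ₗ[F3] W) (M : Submodule F3 V) :
    finrank F3 (M.map f) + finrank F3 (LinearMap.ker f ⊓ M : Submodule F3 V) = finrank F3 M := by
  rw [← LinearMap.finrank_range_add_finrank_ker (f.domRestrict M), LinearMap.range_domRestrict,
    LinearMap.ker_domRestrict, ← finrank_map_subtype_eq M (comap _ _), map_comap_subtype, inf_comm]

omit [Module.Finite F3 V] in
theorem skew (alt : ∀ v, ω v v = 0) (v w : V) : ω v w = -ω w v := by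
  have := alt (v + w)
  simp only [map_add, LinearMap.add_apply, alt] at this
  linear_combination this

theorem iso (alt : ∀ v, ω v v = 0) {S S₀ : Submodule F3 V} (le : S₀ ≤ S)
    (h : ∀ v ∈ S₀, ∀ w ∈ S, ω v w = 0) (d : finrank F3 S ≤ finrank F3 S₀ + 1) :
    ∀ v ∈ S, ∀ w ∈ S, ω v w = 0 := fun v hv w hw => by
  by_cases m : v ∈ S₀
  · exact h v m w hw
  have l : S₀ ⊔ span F3 {v} ≤ S := sup_le le ((span_singleton_le_iff_mem _ _).2 hv)
  have := finrank_lt_finrank_of_lt (lt_of_le_of_ne (le_sup_left : S₀ ≤ S₀ ⊔ span F3 {v})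
    fun e => m (e ▸ mem_sup_right (mem_span_singleton_self v)))
  rw [← eq_of_le_of_finrank_le l (by omega)] at hw
  obtain ⟨s, hs, _, ht, rfl⟩ := mem_sup.1 hw
  obtain ⟨c, rfl⟩ := mem_span_singleton.1 ht
  rw [map_add, map_smul, alt, smul_zero, add_zero, skew alt, h s hs v hv, neg_zero]

theorem sum_le {A B C : Submodule F3 V} (h : A ⊓ B = ⊥) (hA : A ≤ C) (hB : B ≤ C) :
    finrank F3 A + finrank F3 B ≤ finrank F3 C := by
  rw [← finrank_sup_add_finrank_inf_eq, h, finrank_bot, add_zero]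
  exact finrank_mono (sup_le hA hB)

theorem quad : ∀ a b c d e f : F3, ∃ s t u : F3, ¬ (s = 0 ∧ t = 0 ∧ u = 0) ∧
    a * s * s + b * t * t + c * u * u + d * s * t + e * s * u + f * t * u = 0 := by decide +kernel

end Sd

open Sd Module Submodule in
theorem side {V : Type*} [AddCommGroup V] [Module F3 V] {ω : V →ₗ[F3] V →ₗ[F3] F3}
    (dim : Module.finrank F3 V = 8) (alt : ∀ v, ω v v = 0) (nd : ∀ v, (∀ w, ω v w = 0) → v = 0)
    {A : V →ₗ[F3] V} (inv : ∀ v w, ω (A v) (A w) = ω v w) (A3 : ∀ v, A (A (A v)) = v) (A1 : A ≠ 1)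
    {δ : V →ₗ[F3] F3} (hδ : ∀ v, δ ((A - 1) ((A - 1) v)) = 0) {D E : Submodule F3 V}
    (hD : ∀ v, v ∈ D ↔ A v = v ∧ δ v = 0) (hE : E ≤ D) (ho : ∀ v ∈ E, ∀ w ∈ D, ω v w = 0)
    (hd : Module.finrank F3 D ≤ Module.finrank F3 E + 2)
    (h : ((∃ c, A c = c ∧ δ c ≠ 0) ∧ ∀ w, A w - w ∈ E → A w = w) ∨
      ((∀ c, A c = c → δ c = 0) ∧ ∀ w, A w - w ∈ E → ω w (A w) = 0 → A w = w)) :
    (∀ v ∈ D, ∀ w ∈ D, ω v w = 0) ∧ Module.finrank F3 D = Module.finrank F3 E + 2 ∧
      (Module.finrank F3 E = 1 → ∃ k : ℕ, (A - 1) ^ k ≠ 0 ∧ ∀ w, ((A - 1) ^ k) w ∈ E → ((A - 1) ^ k) w = 0) := by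
  have : Module.Finite F3 V := Module.finite_of_finrank_pos (by omega)
  have hN : ∀ v, (A - 1) v = A v - v := fun _ => rfl
  have N0 : A - 1 ≠ 0 := sub_ne_zero.2 A1
  generalize A - 1 = N at *
  have N3 : ∀ v, N (N (N v)) = 0 := fun v => by
    have k : ∀ v : V, v + v + v = 0 := fun v => by
      rw [← one_smul F3 v, ← add_smul, ← add_smul, show (1 + 1 + 1 : F3) = 0 from rfl, zero_smul]
    simp only [hN, map_sub, A3]
    linear_combination (norm := abel1) k (A v) - k (A (A v))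
  have mC : ∀ {v}, v ∈ LinearMap.ker N ↔ A v = v := by simp [hN, sub_eq_zero]
  have NC : ∀ w, ∀ c ∈ LinearMap.ker N, ω (N w) c = 0 := fun w c hc => by
    rw [hN, map_sub, LinearMap.sub_apply, ← inv w c, mC.1 hc, sub_self]
  have rf : ω.IsRefl := fun v w e => by rw [skew alt, e, neg_zero]
  have orth : ∀ U : Submodule F3 V, finrank F3 (LinearMap.BilinForm.orthogonal ω U) = 8 - finrank F3 U :=
    fun U => dim ▸ LinearMap.BilinForm.finrank_orthogonal
      ((rf.nondegenerate_iff_separatingLeft).2 nd) U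
  have r1 := LinearMap.finrank_range_add_finrank_ker N
  have r2 := rank_null N (LinearMap.range N)
  have r3 := rank_null δ (LinearMap.ker N)
  have eD : D = LinearMap.ker δ ⊓ LinearMap.ker N := Submodule.ext fun v => by
    rw [hD, Submodule.mem_inf, mC, LinearMap.mem_ker, and_comm]
  have DC : D ≤ LinearMap.ker N := eD ▸ inf_le_right
  have MC : ∀ v ∈ LinearMap.range N, ∀ c ∈ LinearMap.ker N, ω v c = 0 := by
    rintro _ ⟨w, rfl⟩; exact NC w
  have eM : LinearMap.range N = LinearMap.BilinForm.orthogonal ω (LinearMap.ker N) :=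
    eq_of_le_of_finrank_le (fun v hv c hc => rf _ _ (MC v hv c hc)) (by rw [orth]; omega)
  have KM : (LinearMap.range N).map N ≤ LinearMap.range N := LinearMap.map_le_range
  have KD : (LinearMap.range N).map N ≤ D := by
    rintro _ ⟨_, ⟨w, rfl⟩, rfl⟩
    exact eD ▸ ⟨hδ w, N3 w⟩
  have l1 := finrank_mono (le_inf (KD.trans DC) KM)
  have l2 := finrank_mono (inf_le_left : LinearMap.ker N ⊓ LinearMap.range N ≤ _)
  have l3 := finrank_mono KD
  have l4 : finrank F3 ((LinearMap.ker N).map δ) ≤ 1 := (finrank_le _).trans_eq (finrank_self _)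
  have isoC : finrank F3 (LinearMap.ker N) ≤
      finrank F3 (LinearMap.ker N ⊓ LinearMap.range N : Submodule F3 V) + 1 →
      ∀ v ∈ D, ∀ w ∈ D, ω v w = 0 := fun e v hv w hw =>
    iso alt inf_le_left (fun v hv => MC v hv.2) e v (DC hv) w (DC hw)
  rw [← eD] at r3
  rw [dim] at r1
  rcases h with ⟨⟨c, c1, c2⟩, h⟩ | ⟨h0, h⟩
  · have l5 : finrank F3 ((LinearMap.ker N).map δ) ≠ 0 := fun e =>
      c2 ((finrank_eq_zero.1 e).le ⟨c, mC.2 c1, rfl⟩)
    have h' : ∀ w, N w ∈ E → N w = 0 := fun w hw => mC.2 (h w (hN w ▸ hw))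
    have EM : E ⊓ LinearMap.range N = ⊥ := eq_bot_iff.2 (by
      rintro _ ⟨h1, w, rfl⟩; exact h' w h1)
    have l6 := sum_le EM (C := LinearMap.BilinForm.orthogonal ω D) (fun v hv w hw => rf _ _ (ho v hv w hw))
      fun v hv w hw => rf _ _ (MC v hv w (DC hw))
    rw [orth] at l6
    have EK : E ⊓ (LinearMap.range N).map N = ⊥ := eq_bot_iff.2 (EM ▸ inf_le_inf_left _ KM)
    have l7 := sum_le EK hE KD
    refine ⟨?_, by omega, fun _ => ⟨1, by rwa [pow_one], by rwa [pow_one]⟩⟩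
    by_cases e : finrank F3 ((LinearMap.range N).map N) = 0
    · exact isoC (by omega)
    refine iso alt (sup_le hE KD) (fun v hv w hw => ?_) ?_
    · obtain ⟨a, ha, b, hb, rfl⟩ := mem_sup.1 hv
      rw [map_add, LinearMap.add_apply, ho a ha w hw, MC b (KM hb) w (DC hw), add_zero]
    · have := finrank_sup_add_finrank_inf_eq E ((LinearMap.range N).map N)
      rw [EK, finrank_bot] at this
      omega
  have l5 : finrank F3 ((LinearMap.ker N).map δ) = 0 := finrank_eq_zero.2 (eq_bot_iff.2 (by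
    rintro _ ⟨c, hc, rfl⟩; exact h0 c (mC.1 hc)))
  have eC : D = LinearMap.ker N := eq_of_le_of_finrank_le DC (by omega)
  have EM : E ≤ LinearMap.range N := eM ▸ fun v hv w hw => rf _ _ (ho v hv w (eC ▸ hw))
  have h' : ∀ w, N (N w) ∈ E → N (N w) = 0 := fun w hw => mC.2 (h _ (hN _ ▸ hw) (by
    rw [← sub_add_cancel (A (N w)) (N w), ← hN, map_add, alt, NC w _ (N3 w), add_zero]))
  have EK : E ⊓ (LinearMap.range N).map N = ⊥ := eq_bot_iff.2 (by
    rintro _ ⟨h1, _, ⟨w, rfl⟩, rfl⟩; exact h' w h1)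
  have l6 := sum_le EK (le_inf (hE.trans DC) EM) (le_inf (KD.trans DC) KM)
  have l7 : finrank F3 E ≤ 2 := by
    by_contra k
    obtain ⟨f, hf⟩ := exists_linearIndependent_of_le_finrank (R := F3) (M := E) (n := 3) (by omega)
    choose w hw using fun i => EM (f i).2
    obtain ⟨s, t, u, n0, e⟩ := quad (ω (w 0) (A (w 0))) (ω (w 1) (A (w 1))) (ω (w 2) (A (w 2)))
      (ω (w 0) (A (w 1)) + ω (w 1) (A (w 0))) (ω (w 0) (A (w 2)) + ω (w 2) (A (w 0)))
      (ω (w 1) (A (w 2)) + ω (w 2) (A (w 1)))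
    have e1 : N (s • w 0 + t • w 1 + u • w 2) = (s • f 0 + t • f 1 + u • f 2 : E) := by
      simp [hw]
    have e2 := mC.2 (h (s • w 0 + t • w 1 + u • w 2) (by rw [← hN, e1]; exact Subtype.mem _) (by
      simp only [map_add, map_smul, LinearMap.add_apply, LinearMap.smul_apply, smul_eq_mul]
      linear_combination e))
    rw [LinearMap.mem_ker, e1, ZeroMemClass.coe_eq_zero] at e2
    have := Fintype.linearIndependent_iff.1 hf ![s, t, u] (by simpa [Fin.sum_univ_three] using e2)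
    exact n0 ⟨this 0, this 1, this 2⟩
  refine ⟨isoC (by omega), by omega, fun e => ⟨2, fun z => ?_, fun w => by simpa [sq] using h' w⟩⟩
  have : finrank F3 ((LinearMap.range N).map N) = 0 := finrank_eq_zero.2 (eq_bot_iff.2 (by
    rintro _ ⟨_, ⟨w, rfl⟩, rfl⟩
    simpa [sq] using LinearMap.congr_fun z w))
  omega

end CL.B3
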