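import Cfsg.Agent.SPOR.B3.Cd
import Cfsg.Agent.SPOR.B3.Side

/-! For S2914/S2915: `<z>` is not weakly closed in `Q`. -/

set_option autoImplicit false
open Subgroup Cfsg

namespace CL.B3

namespace B1

variable {G V : Type*} [Group G] [AddCommGroup V] [Module F3 V] {z r : G} {Q : Subgroup G}
  {ω : V →ₗ[F3] V →ₗ[F3] F3} {f : F3 → V → G} {ρ : G → V →ₗ[F3] V}

theorem zp3 {y a : G} (y3 : y ^ 3 = 1) (ha : a ∈ zpowers y) : a = 1 ∨ a = y ∨ a = y * y := by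
  obtain ⟨k, rfl⟩ := mem_zpowers_iff.1 ha
  rw [zpow_eq_zpow_emod' k y3]
  rcases (by omega : k % (3 : ℕ) = 0 ∨ k % (3 : ℕ) = 1 ∨ k % (3 : ℕ) = 2) with e | e | e <;> rw [e]
  · exact .inl (zpow_zero y)
  · exact .inr (.inl (zpow_one y))
  · exact .inr (.inr (zpow_two y))

theorem sq_sq {y : G} (y3 : y ^ 3 = 1) : y * y * (y * y) = y := by
  rw [← mul_assoc, ← pow_three', y3, one_mul]

theorem zp_symm {y : G} (y3 : y ^ 3 = 1) (z1 : z ≠ 1) (h : z ∈ zpowers y) : y ∈ zpowers z := by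
  rcases zp3 y3 h with e | e | e
  · exact absurd e z1
  · exact e ▸ mem_zpowers z
  · rw [← sq_sq y3, ← e]; exact mul_mem (mem_zpowers z) (mem_zpowers z)

theorem c0 (h : Cd z Q ω f ρ) {H : Subgroup G} (hz : z ∉ H) {c : F3} (e : f c 0 ∈ H) : c = 0 := by
  rcases (by decide : ∀ c : F3, c = 0 ∨ c = 1 ∨ c + c = 1) c with k | k | k
  · exact k
  · exact absurd (h.fz ▸ k ▸ e) hz
  · have := mul_mem e e
    rw [h.mul, h.alt, mul_zero, add_zero, add_zero, k, h.fz] at this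
    exact absurd this hz

theorem le_one {U : Submodule F3 V} (hU : ∀ v ∈ U, ∀ w ∈ U, v ≠ 0 → ∃ c : F3, w = c • v) :
    Module.finrank F3 U ≤ 1 := by
  by_cases h : U = ⊥
  · rw [h, finrank_bot]; exact zero_le_one
  obtain ⟨v, hv, v0⟩ := U.ne_bot_iff.1 h
  exact finrank_le_one (⟨v, hv⟩ : U) fun w =>
    (hU v hv w w.2 v0).imp fun _ e => Subtype.ext e.symm

theorem fixv [Finite V] {B : Subgroup G} (hB : ∀ b ∈ B, b ^ 3 = 1) (a1 : ∀ v, ρ 1 v = v)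
    (am : ∀ a ∈ B, ∀ b ∈ B, ∀ v, ρ (a * b) v = ρ a (ρ b v)) {M : Submodule F3 V} (hM : M ≠ ⊥)
    (inv : ∀ b ∈ B, ∀ v ∈ M, ρ b v ∈ M) : ∃ u ∈ M, u ≠ 0 ∧ ∀ b ∈ B, ρ b u = u := by
  let _ : MulAction B M :=
    { smul := fun b m => ⟨ρ b m, inv b b.2 m m.2⟩
      one_smul := fun m => Subtype.ext (a1 m)
      mul_smul := fun a b m => Subtype.ext (am a a.2 b b.2 m) }
  have hp : IsPGroup 3 B := fun b => ⟨1, Subtype.ext (hB b b.2)⟩
  have h3 : 3 ∣ Nat.card M := by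
    rw [Module.natCard_eq_pow_finrank (K := F3), Nat.card_zmod]
    exact dvd_pow_self 3 fun e => hM (Submodule.finrank_eq_zero.1 e)
  obtain ⟨u, hu, n⟩ := hp.exists_fixed_point_of_prime_dvd_card_of_fixed_point M h3 (a := 0)
    fun b => Subtype.ext (map_zero (ρ b))
  exact ⟨u, u.2, fun e => n (Subtype.ext e.symm), fun b hb => congrArg Subtype.val (hu ⟨b, hb⟩)⟩

theorem factor [Finite V] (nd : ∀ v, (∀ w, ω v w = 0) → v = 0) {N : V →ₗ[F3] V} {δ : V →ₗ[F3] F3}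
    (h : ∀ c, N c = 0 → δ c = 0) : ∃ w, ∀ v, δ v = ω w (N v) := by
  obtain ⟨φ, e⟩ : δ ∈ LinearMap.range N.dualMap := by
    rw [LinearMap.range_dualMap_eq_dualAnnihilator_ker, Submodule.mem_dualAnnihilator]
    exact h
  obtain ⟨w, rfl⟩ := (LinearMap.injective_iff_surjective_of_finrank_eq_finrank
    (f := (ω : V →ₗ[F3] Module.Dual F3 V)) Subspace.dual_finrank_eq.symm).1
    ((injective_iff_map_eq_zero _).2 fun v e => nd v fun w => by rw [e]; rfl) φ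
  exact ⟨w, fun v => by rw [← e]; rfl⟩

variable [Finite G] {y r' : G} {Q' : Subgroup G} {f' : F3 → V → G} {ρ' : G → V →ₗ[F3] V}

theorem one (h : Lc z Q ω f ρ r) (h' : Lc y Q' ω f' ρ' r') (c : y * z = z * y) (yQ : y ∉ Q) (zQ : z ∉ Q')
    (W : ∀ k, k * y * k⁻¹ ∈ Q' → k * y * k⁻¹ ∈ zpowers y) :
    (∀ a ∈ Q ⊓ cz y, ∀ b ∈ Q ⊓ cz y, a * b = b * a) ∧
    Nat.card (Q ⊓ cz y : Subgroup G) = 27 * Nat.card (Q ⊓ cz y ⊓ Q' : Subgroup G) ∧
    Module.finrank F3 (h.cd.hat (Q ⊓ cz y)) = Module.finrank F3 (h.cd.hat (Q ⊓ cz y ⊓ Q')) + 2 ∧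
    (Module.finrank F3 (h.cd.hat (Q ⊓ cz y ⊓ Q')) = 1 → ∃ k : ℕ, (ρ y - 1) ^ k ≠ 0 ∧
      ∀ w, ((ρ y - 1) ^ k) w ∈ h.cd.hat (Q ⊓ cz y ⊓ Q') → ((ρ y - 1) ^ k) w = 0) := by
  have C := h.cd
  have C' := h'.cd
  have := C.finite
  obtain ⟨δ, hδ⟩ := C.act' c
  have hD : ∀ v, v ∈ C.hat (Q ⊓ cz y) ↔ ρ y v = v ∧ δ v = 0 := fun v =>
    ⟨fun ⟨e, k⟩ => by
      have := C.inj ((hδ e v).symm.trans (mul_inv_eq_of_eq_mul (mem_cz.1 k.2).symm))
      exact ⟨this.2, by simpa using this.1⟩,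
    fun k => ⟨0, C.mQ .., mem_cz.2 (eq_mul_of_mul_inv_eq (by rw [hδ, k.1, k.2, add_zero])).symm⟩⟩
  have h3 : ∀ v, δ v + δ (ρ y v) + δ (ρ y (ρ y v)) = 0 ∧ ρ y (ρ y (ρ y v)) = v := fun v => by
    have : y * (y * (y * f 0 v * y⁻¹) * y⁻¹) * y⁻¹ = y ^ 3 * f 0 v * (y ^ 3)⁻¹ := by
      rw [pow_three]; group
    rw [hδ, hδ, hδ, C'.z3, one_mul, inv_one, mul_one, zero_add] at this
    exact C.inj this
  have key : ∀ w, f (-δ w - 2 * ω w (ρ y w)) (w - ρ y w) ∈ Q' → ρ y w = w := fun w k => by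
    have e : f 0 w * (y * (f 0 w)⁻¹ * y⁻¹) = f (-δ w - 2 * ω w (ρ y w)) (w - ρ y w) := by
      rw [C.inv, hδ, C.mul]
      simp only [map_neg, sub_eq_add_neg, neg_zero, zero_add, mul_neg]
    have k1 : f 0 w * y * (f 0 w)⁻¹ ∈ Q' := by
      have := mul_mem (e ▸ k) C'.zQ
      rwa [mul_assoc, inv_mul_cancel_right, ← mul_assoc] at this
    rcases zp3 C'.z3 (W _ k1) with k2 | k2 | k2
    · exact absurd (by simpa using k2) C'.z1
    · exact C.ρ_fix c (eq_mul_of_mul_inv_eq k2).symm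
    · refine absurd ?_ yQ
      have := C.mQ (-δ w - 2 * ω w (ρ y w)) (w - ρ y w)
      rwa [← e, ← mul_assoc, ← mul_assoc, k2, mul_inv_cancel_right] at this
  have c1 := C.card_of_mem (B := Q ⊓ cz y) inf_le_left ⟨C.zQ, mem_cz.2 c.symm⟩
  have c2 := C.card_of_not_mem (B := Q ⊓ cz y ⊓ Q') (inf_le_left.trans inf_le_left) fun k => zQ k.2
  have hs := side h.dim C.alt C.nd (C.ρ_inv c) (fun v => (h3 v).2) (δ := δ)
    (fun e => yQ (C.ker y c fun v => by rw [e]; rfl))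
    (fun v => by
      have := (h3 v).1
      simp only [LinearMap.sub_apply, Module.End.one_apply, map_sub]
      revert this
      generalize δ v = a, δ (ρ y v) = b, δ (ρ y (ρ y v)) = c
      revert a b c; decide)
    hD (E := C.hat (Q ⊓ cz y ⊓ Q')) (fun v ⟨e, k⟩ => ⟨e, k.1⟩)
    (fun v ⟨e, k⟩ w ⟨e', k'⟩ => by
      have := mul_mem k.2 (C'.nrm (mem_cz.1 k'.2) (inv_mem k.2))
      rw [← mul_assoc, ← mul_assoc, C.conjQ, C.inv, C.mul, add_neg_cancel] at this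
      simpa [C.alt] using c0 C zQ this)
    (by
      have := h'.g1 (Q ⊓ cz y) fun b hb => ⟨mem_cz.1 hb.2, C.cube hb.1⟩
      rw [c1, c2, show 27 = 3 ^ 3 from rfl, ← pow_add, Nat.pow_le_pow_iff_right (by decide)] at this
      omega)
    (by
      by_cases hc : ∃ c, ρ y c = c ∧ δ c ≠ 0
      · refine .inl ⟨hc, fun w hw => ?_⟩
        obtain ⟨a, a1, a2⟩ := hc
        obtain ⟨e, k⟩ := neg_mem hw
        obtain ⟨s, hs⟩ : ∃ s, s * δ a = -δ w - 2 * ω w (ρ y w) - e := ⟨_, div_mul_cancel₀ _ a2⟩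
        have a3 : ω a (ρ y w) = -ω w a := by rw [← C.skew, ← C.ρ_inv c a w, a1]
        have := key (w + s • a) (by
          refine (congrArg₂ f ?_ ?_).symm ▸ (k.2 : f e _ ∈ Q')
          · simp only [map_add, map_smul, a1, LinearMap.add_apply, LinearMap.smul_apply, smul_eq_mul, a3,
              C.alt]
            linear_combination -hs
          · rw [map_add, map_smul, a1]; abel)
        rwa [map_add, map_smul, a1, add_left_inj] at this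
      refine .inr ⟨fun a a1 => by_contra fun a2 => hc ⟨a, a1, a2⟩, fun w hw h0 => key w ?_⟩
      obtain ⟨w0, hw0⟩ := factor C.nd (N := ρ y - 1) (δ := δ) fun a a1 =>
        by_contra fun a2 => hc ⟨a, sub_eq_zero.1 a1, a2⟩
      obtain ⟨r1, r2, rz, rf⟩ : ∃ r1 : G, r1 * r1 = 1 ∧ r1 * z = z * r1 ∧
          ∀ c v, r1 * f c v * r1⁻¹ = f (c + ω w0 v) (-v) := by
        refine ⟨f 0 w0 * r * (f 0 w0)⁻¹, by rw [conj_mul, h.r2, mul_one, mul_inv_cancel], ?_, fun c v => ?_⟩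
        · have q : Commute (f 0 w0) z := C.Qz (C.mQ ..)
          exact (q.mul_left h.rz).mul_left q.inv_left
        · have : f 0 w0 * r * (f 0 w0)⁻¹ * f c v * (f 0 w0 * r * (f 0 w0)⁻¹)⁻¹ =
              f 0 w0 * (r * ((f 0 w0)⁻¹ * f c v * (f 0 w0)⁻¹⁻¹) * r⁻¹) * (f 0 w0)⁻¹ := by group
          rw [this, C.inv 0 w0, C.conjQ, h.rf, ← C.inv, C.conjQ]
          congr 1
          simp only [map_neg, LinearMap.neg_apply]
          exact (by decide : ∀ c a : F3, c + -a + -a = c + a) _ _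
      have ry : r1 * y = y * r1 := by
        have k : (r1 * y)⁻¹ * (y * r1) ∈ zpowers z := C.cent fun q hq => by
          obtain ⟨a, v, rfl⟩ := (C.mem q).1 hq
          have : y * (r1 * f a v * r1⁻¹) * y⁻¹ = r1 * (y * f a v * y⁻¹) * r1⁻¹ := by
            rw [rf, hδ, hδ, rf, map_neg, map_neg, hw0 v]
            congr 1
            simp only [LinearMap.sub_apply, Module.End.one_apply, map_sub]
            exact (by decide : ∀ a b d : F3, a + b + -(d - b) = a + (d - b) + d) _ _ _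
          calc _ = (r1 * y)⁻¹ * (y * (r1 * f a v * r1⁻¹) * y⁻¹) * (y * r1) := by group
            _ = _ := by rw [this]; group
        obtain ⟨ζ, e⟩ : ∃ ζ, ζ = (r1 * y)⁻¹ * (y * r1) := ⟨_, rfl⟩
        rw [← e] at k
        have z1 : ζ ^ 3 = 1 := C.cube (zpowers_le.2 C.zQ k)
        have z2 : r1 * ζ = ζ * r1 := (mem_cz.1 (zpowers_le.2 (mem_cz.2 rz.symm) k)).symm
        have ri : r1⁻¹ = r1 := inv_eq_of_mul_eq_one_left r2
        have z3 : ζ * ζ = 1 := by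
          calc ζ * ζ = ζ * (r1 * ζ * r1⁻¹) := by rw [z2, mul_inv_cancel_right]
            _ = y⁻¹ * r1⁻¹ * y * (r1 * r1) * y⁻¹ * r1⁻¹ * y * (r1 * r1⁻¹) := by rw [e]; group
            _ = y⁻¹ * (r1⁻¹ * r1⁻¹) * y := by rw [r2]; group
            _ = 1 := by rw [ri, r2, mul_one, inv_mul_cancel]
        rw [pow_three, z3, mul_one, e] at z1
        exact inv_mul_eq_one.1 z1
      obtain ⟨e, k⟩ := neg_mem hw
      have k1 := mul_mem k.2 (C'.nrm ry k.2)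
      rw [rf, C.mul, add_neg_cancel] at k1
      have k2 := c0 C zQ k1
      refine (congrArg₂ f ?_ ?_).symm ▸ (k.2 : f e _ ∈ Q')
      · rw [h0, hw0 w]
        simp only [map_neg, LinearMap.neg_apply, C.alt, neg_neg] at k2
        exact (by decide : ∀ e b : F3, e + (e + -b) + 2 * 0 = 0 → -b - 2 * 0 = e) _ _ k2
      · abel)
  refine ⟨fun a ha b hb => ?_, by rw [c1, c2, hs.2.1]; ring, hs.2⟩
  obtain ⟨a, v, rfl⟩ := (C.mem a).1 ha.1
  obtain ⟨b, w, rfl⟩ := (C.mem b).1 hb.1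
  exact C.comm_iff.2 (hs.1 v ⟨a, ha⟩ w ⟨b, hb⟩)

theorem two (h : Lc z Q ω f ρ r) (h' : Lc y Q' ω f' ρ' r') (c : y * z = z * y) (yQ : y ∉ Q) (zQ : z ∉ Q')
    (W : ∀ k, k * z * k⁻¹ ∈ Q → k * z * k⁻¹ ∈ zpowers z)
    (W' : ∀ k, k * y * k⁻¹ ∈ Q' → k * y * k⁻¹ ∈ zpowers y) : False := by
  have C := h.cd
  have C' := h'.cd
  have := C.finite
  obtain ⟨-, -, d1, d2⟩ := one h h' c yQ zQ W'
  obtain ⟨ab, cd, -⟩ := one h' h c.symm zQ yQ W
  have F := h.g2 (Q' ⊓ cz z) (fun b hb => ⟨mem_cz.1 hb.2, C'.cube hb.1⟩)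
    (fun a ha b hb => by rw [ab a ha b hb, mul_inv_cancel_right, mul_inv_cancel]; exact one_mem _) cd
  have hE : ∀ v ∈ C.hat (Q ⊓ cz y ⊓ Q'), ∀ b ∈ Q' ⊓ cz z, ρ b v = v := fun v ⟨e, k⟩ b hb =>
    C.ρ_fix (mem_cz.1 hb.2) (ab b hb _ ⟨k.2, mem_cz.2 (C.Qz k.1.1)⟩)
  have h1 := le_one fun v hv w hw => F v w (hE v hv) (hE w hw)
  by_cases h0 : C.hat (Q ⊓ cz y ⊓ Q') = ⊥
  · have hD : ∀ v ∈ C.hat (Q ⊓ cz y), ∀ b ∈ Q' ⊓ cz z, ρ b v = v := fun v ⟨e, k⟩ b hb => by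
      obtain ⟨δ, hδ⟩ := C.act b (mem_cz.1 hb.2)
      have k1 := mul_mem hb.1 (C'.nrm (mem_cz.1 k.2) (inv_mem hb.1))
      rw [← mul_assoc, ← mul_assoc, hδ, C.inv, C.mul] at k1
      have : ρ b v + -v ∈ C.hat (Q ⊓ cz y ⊓ Q') := ⟨_, ⟨C.mQ .., mem_cz.2 (C'.Qz k1)⟩, k1⟩
      rwa [h0, Submodule.mem_bot, add_neg_eq_zero] at this
    have := le_one fun v hv w hw => F v w (hD v hv) (hD w hw)
    omega
  obtain ⟨k, k1, k2⟩ := d2 (le_antisymm h1 (Nat.pos_of_ne_zero fun e => h0 (Submodule.finrank_eq_zero.1 e)))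
  obtain ⟨v, hv, v0⟩ := (Submodule.ne_bot_iff _).1 h0
  obtain ⟨_, ⟨w, rfl⟩, u0, hu⟩ := fixv (B := Q' ⊓ cz z) (fun b hb => C'.cube hb.1) C.ρ_one
    (fun a ha b hb => C.ρ_mul (mem_cz.1 ha.2) (mem_cz.1 hb.2)) (M := LinearMap.range ((ρ y - 1) ^ k))
    (fun e => k1 (LinearMap.range_eq_bot.1 e)) (by
      rintro b hb _ ⟨w, rfl⟩
      have : Commute (ρ b) (ρ y) := LinearMap.ext fun v => by
        rw [Module.End.mul_apply, Module.End.mul_apply, ← C.ρ_mul (mem_cz.1 hb.2) c,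
          ← C.ρ_mul c (mem_cz.1 hb.2), C'.Qz hb.1]
      exact ⟨ρ b w, (LinearMap.congr_fun ((this.sub_right (Commute.one_right _)).pow_right k).eq w).symm⟩)
  obtain ⟨s, e⟩ := F v _ (hE v hv) hu v0
  exact u0 (k2 w (e ▸ Submodule.smul_mem _ s hv))

end B1

variable {G V : Type*} [Group G] [Finite G] [AddCommGroup V] [Module F3 V] {z r : G} {Q : Subgroup G}
  {ω : V →ₗ[F3] V →ₗ[F3] F3} {f : F3 → V → G} {ρ : G → V →ₗ[F3] V}

open B1 in
theorem Lc.b1 (h : Lc z Q ω f ρ r) {g : G} (c : g * z * g⁻¹ * z = z * (g * z * g⁻¹))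
    (n : g * z * g⁻¹ ∉ zpowers z) : ∃ k : G, k * z * k⁻¹ ∈ Q ∧ k * z * k⁻¹ ∉ zpowers z := by
  by_contra hn
  have W : ∀ k, k * z * k⁻¹ ∈ Q → k * z * k⁻¹ ∈ zpowers z := fun k hk =>
    by_contra fun e => hn ⟨k, hk, e⟩
  have W' : ∀ k, k * z * k⁻¹ ∈ Q.map (MulAut.conj g).toMonoidHom → k * z * k⁻¹ ∈ zpowers (g * z * g⁻¹) := by
    rintro k ⟨q, hq, e⟩
    change g * q * g⁻¹ = _ at e
    have e' : g⁻¹ * k * z * (g⁻¹ * k)⁻¹ = q := by
      calc _ = g⁻¹ * (k * z * k⁻¹) * g := by group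
        _ = q := by rw [← e]; group
    obtain ⟨m, hm⟩ := mem_zpowers_iff.1 (W _ (e' ▸ hq))
    exact mem_zpowers_iff.2 ⟨m, by rw [conj_zpow, hm, e', e]⟩
  refine two h (h.conj g) c (fun e => n (W g e)) (fun e => n (zp_symm (h.conj g).cd.z3 h.cd.z1 ?_)) W
    fun k hk => ?_
  · simpa using W' 1 (by simpa using e)
  · have e : k * (g * z * g⁻¹) * k⁻¹ = k * g * z * (k * g)⁻¹ := by group
    rw [e] at hk ⊢
    exact W' _ hk

end CL.B3
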