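import Cfsg.Agent.SPOR.B3.B1

/-! For S2914/S2915: a conjugate of `z` inside `Q`. -/

set_option autoImplicit false
open Subgroup Cfsg

namespace CL.B3

namespace B2

open B1 Module

variable {G V : Type*} [Group G] [AddCommGroup V] [Module F3 V] {z y r r' : G} {Q Q' : Subgroup G}
  {ω : V →ₗ[F3] V →ₗ[F3] F3} {f f' : F3 → V → G} {ρ ρ' : G → V →ₗ[F3] V}

theorem exists_v (h : Cd z Q ω f ρ) (hQ : y ∈ Q) (n : y ∉ zpowers z) :
    ∃ c v w, f c v = y ∧ ω w v = 1 := by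
  obtain ⟨c, v, rfl⟩ := (h.mem y).1 hQ
  obtain ⟨w, hw⟩ : ∃ w, ω v w ≠ 0 := by
    by_contra k
    exact n (h.zp.2 (h.nd v fun w => by_contra fun e => k ⟨w, e⟩))
  exact ⟨c, v, (-(ω v w)⁻¹) • w, rfl, by
    rw [map_smul, LinearMap.smul_apply, h.skew w, smul_eq_mul, neg_mul_neg, inv_mul_cancel₀ hw]⟩

theorem exists_k (h : Cd z Q ω f ρ) (hQ : y ∈ Q) (n : y ∉ zpowers z) {d : G} (d2 : d * d = 1)
    (dz : d * z = z * d) (dy : d * y = y * d) :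
    ∃ k, k ^ 3 = 1 ∧ k * d = d * k ∧ k * z = z * k ∧ k * y * k⁻¹ = z * y := by
  obtain ⟨c, v, w, rfl, hw⟩ := exists_v h hQ n
  have e := h.ρ_fix dz dy
  refine ⟨f 0 (-(w + ρ d w)), h.cube (h.mQ ..), (h.fix_inv dz d2 ?_ 0).symm, h.Qz (h.mQ ..), ?_⟩
  · rw [map_neg, map_add, ← h.ρ_mul dz dz, d2, h.ρ_one, add_comm]
  · have : ω (ρ d w) v = 1 := by rw [← hw, ← h.ρ_inv dz w v, e]
    rw [h.conjQ, ← h.fz, h.mul]
    simp only [map_neg, map_add, map_zero, LinearMap.neg_apply, LinearMap.add_apply, LinearMap.zero_apply,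
      hw, this, zero_add]
    rw [(by decide : ∀ c : F3, c + -(1 + 1) = 1 + c + 2 * 0)]

variable [Finite G]

theorem card_D (h : Cd z Q ω f ρ) (dim : finrank F3 V = 8) (hQ : y ∈ Q) (n : y ∉ zpowers z) :
    Nat.card (Q ⊓ cz y : Subgroup G) = 3 ^ 8 := by
  have := h.finite
  obtain ⟨c, v, w, rfl, hw⟩ := exists_v h hQ n
  have e : Q ⊓ cz (f c v) = h.sub (LinearMap.ker (ω.flip v)) := by
    ext g
    constructor
    · rintro ⟨k1, k2⟩
      obtain ⟨a, u, rfl⟩ := (h.mem g).1 k1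
      exact h.f_mem_sub.2 (h.comm_iff.1 (mem_cz.1 k2))
    · rintro ⟨a, u, hu, rfl⟩
      exact ⟨h.mQ .., mem_cz.2 (h.comm_iff.2 hu)⟩
  have k := (ω.flip v).finrank_range_add_finrank_ker
  rw [LinearMap.range_eq_top.2 fun a => ⟨a • w, by simp [hw]⟩, finrank_top, finrank_self, dim] at k
  rw [e, h.card_sub, show finrank F3 (LinearMap.ker (ω.flip v)) = 7 by omega]

theorem perp (h : Cd z Q ω f ρ) {U W : Submodule F3 V} (ho : ∀ u ∈ U, ∀ w ∈ W, ω u w = 0) :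
    finrank F3 U + finrank F3 W ≤ finrank F3 V := by
  have := h.finite
  have hr : LinearMap.IsRefl ω := fun v w e => by rw [h.skew, e, neg_zero]
  have k := LinearMap.BilinForm.finrank_add_finrank_orthogonal (B := ω) hr U
  rw [show U ⊓ LinearMap.BilinForm.orthogonal ω ⊤ = ⊥ from eq_bot_iff.2 fun v hv =>
    h.nd v fun w => hr _ _ (hv.2 w trivial), finrank_bot, add_zero] at k
  rw [← k]
  exact Nat.add_le_add_left (Submodule.finrank_mono (t := LinearMap.BilinForm.orthogonal ω U)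
    fun w hw u hu => ho u hu w hw) _

theorem mem (h : Lc z Q ω f ρ r) (h' : Lc y Q' ω f' ρ' r') (hQ : y ∈ Q) (n : y ∉ zpowers z) : z ∈ Q' := by
  by_contra zQ
  have C := h.cd
  have c0' := card_D C h.dim hQ n
  have c1 := C.card_of_mem (B := Q ⊓ cz y) inf_le_left ⟨C.zQ, mem_cz.2 (C.Qz hQ).symm⟩
  have c2 := C.card_of_not_mem (B := Q ⊓ cz y ⊓ Q') (inf_le_left.trans inf_le_left) fun k => zQ k.2
  have c3 := h'.g1 (Q ⊓ cz y) fun b hb => ⟨mem_cz.1 hb.2, C.cube hb.1⟩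
  have c4 := perp C (U := C.hat (Q ⊓ cz y ⊓ Q')) (W := C.hat (Q ⊓ cz y)) fun v ⟨e, k⟩ w ⟨e', k'⟩ => by
    have := mul_mem k.2 (h'.cd.nrm (mem_cz.1 k'.2) (inv_mem k.2))
    rw [← mul_assoc, ← mul_assoc, C.conjQ, C.inv, C.mul, add_neg_cancel] at this
    simpa [C.alt] using c0 C zQ this
  rw [c0', c2, show 27 = 3 ^ 3 from rfl, ← pow_add, Nat.pow_le_pow_iff_right (by decide)] at c3
  rw [c0', Nat.pow_right_inj (by decide)] at c1
  have := h.dim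
  omega

end B2

open B1 B2

variable {G V : Type*} [Group G] [Finite G] [AddCommGroup V] [Module F3 V] {z r : G} {Q : Subgroup G}
  {ω : V →ₗ[F3] V →ₗ[F3] F3} {f : F3 → V → G} {ρ : G → V →ₗ[F3] V}

theorem Lc.b2 (h : Lc z Q ω f ρ r) {g : G} (hQ : g * z * g⁻¹ ∈ Q) (n : g * z * g⁻¹ ∉ zpowers z) :
    z ∈ Q.map (MulAut.conj g).toMonoidHom ∧ ∃ B : Subgroup G, (∀ b ∈ B, b * z = z * b ∧ b ^ 3 = 1) ∧
      (∀ a ∈ B, ∀ b ∈ B, a * b * a⁻¹ * b⁻¹ ∈ Q) ∧ Nat.card B = 27 * Nat.card (B ⊓ Q : Subgroup G) ∧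
      ∀ b ∈ B, b * (g * z * g⁻¹) = g * z * g⁻¹ * b := by
  have h' := h.conj g
  generalize g * z * g⁻¹ = y at *
  generalize Q.map (MulAut.conj g).toMonoidHom = Q' at *
  have C := h.cd
  have C' := h'.cd
  have zQ := mem h h' hQ n
  have n' : z ∉ zpowers y := fun e => n (zp_symm C'.z3 C.z1 e)
  have hB : ∀ b ∈ Q' ⊓ cz z, b * z = z * b ∧ b ^ 3 = 1 := fun b hb => ⟨mem_cz.1 hb.2, C'.cube hb.1⟩
  refine ⟨zQ, Q' ⊓ cz z, hB, fun a ha b hb => zpowers_le.2 hQ (C'.comm_mem ha.1 hb.1),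
    le_antisymm (h.g1 _ hB) ?_, fun b hb => C'.Qz hb.1⟩
  have c1 := C.card_of_mem (B := Q' ⊓ cz z ⊓ Q) inf_le_right ⟨⟨zQ, mem_cz.2 rfl⟩, C.zQ⟩
  have c2 := perp C (U := C.hat (Q' ⊓ cz z ⊓ Q)) (W := C.hat (Q' ⊓ cz z ⊓ Q)) fun v ⟨e, k⟩ w ⟨e', k'⟩ => by
    have := C'.comm_mem k.1.1 k'.1.1
    rw [C.conjQ, C.inv, C.mul, add_neg_cancel] at this
    simpa [C.alt] using c0 C n' this
  rw [card_D C' h.dim zQ n', c1, show 27 = 3 ^ 3 from rfl, ← pow_add, Nat.pow_le_pow_iff_right (by decide)]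
  have := h.dim
  omega

theorem Cd.b3 (h : Cd z Q ω f ρ) {g : G} (hQ : g * z * g⁻¹ ∈ Q) (n : g * z * g⁻¹ ∉ zpowers z)
    (hz : z ∈ Q.map (MulAut.conj g).toMonoidHom) {d : G} (d2 : d * d = 1) (dz : d * z = z * d)
    (dy : d * (g * z * g⁻¹) = g * z * g⁻¹ * d) :
    (∃ k, k * d = d * k ∧ k * z * k⁻¹ * z = z * (k * z * k⁻¹) ∧ k * z * k⁻¹ ∉ zpowers z) ∧
      ∃ w ∈ L3 d, w * z * w⁻¹ = z⁻¹ := by
  have h' := h.conj g
  generalize g * z * g⁻¹ = y at *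
  have c := h.Qz hQ
  obtain ⟨a, a3, ad, az, ay⟩ := exists_k h hQ n d2 dz dy
  obtain ⟨b, b3, bd, by', bz⟩ := exists_k h' hz (fun e => n (zp_symm h'.z3 h.z1 e)) d2 dy dz
  have ma : a ∈ L3 d := mem_L3 (k := 1) a3 ad
  have mb : b ∈ L3 d := mem_L3 (k := 1) b3 bd
  refine ⟨⟨b, bd, by rw [bz, ← mul_assoc, c], fun e => n ?_⟩, (a * b⁻¹ * a) * (a * b⁻¹ * a),
    mul_mem (mul_mem (mul_mem ma (inv_mem mb)) ma) (mul_mem (mul_mem ma (inv_mem mb)) ma), ?_⟩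
  · rwa [bz, mul_mem_cancel_right (mem_zpowers z)] at e
  have e1 : MulAut.conj a z = z := mul_inv_eq_of_eq_mul az
  have e2 : MulAut.conj a y = z * y := ay
  have e3 : (MulAut.conj b)⁻¹ y = y := by
    rw [MulAut.inv_apply, MulEquiv.symm_apply_eq]; exact (mul_inv_eq_of_eq_mul by').symm
  have e4 : (MulAut.conj b)⁻¹ z = y⁻¹ * z := by
    rw [MulAut.inv_apply, MulEquiv.symm_apply_eq, map_mul, map_inv, MulAut.conj_apply, MulAut.conj_apply, bz,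
      mul_inv_eq_of_eq_mul by', inv_mul_cancel_left]
  have e5 : MulAut.conj (a * b⁻¹ * a) z = y⁻¹ := by
    rw [map_mul, map_mul, map_inv, MulAut.mul_apply, MulAut.mul_apply, e1, e4, map_mul, map_inv, e1, e2, ← c,
      inv_mul_eq_iff_eq_mul, c, mul_inv_cancel_right]
  have e6 : MulAut.conj (a * b⁻¹ * a) y = z := by
    rw [map_mul, map_mul, map_inv, MulAut.mul_apply, MulAut.mul_apply, e2, map_mul, e3, e4,
      mul_assoc, ← c, inv_mul_cancel_left, e1]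
  change MulAut.conj _ z = _
  rw [map_mul, MulAut.mul_apply, e5, map_inv, e6]

end CL.B3
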