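import Cfsg.Agent.SPOR.B3.Defs
import Cfsg.Agent.PLOC.ESForm
import Cfsg.Agent.SOLV.MinNormal

/-!
Basic properties of Heisenberg coordinates.
-/

set_option autoImplicit false
open Subgroup Cfsg

namespace CL.B3

variable {G V : Type*} [Group G] [AddCommGroup V] [Module F3 V] {z r : G} {Q : Subgroup G}
  {ω : V →ₗ[F3] V →ₗ[F3] F3} {f : F3 → V → G} {ρ : G → V →ₗ[F3] V}

/-- two involutions differing by an element of order 3 are conjugate -/
theorem conj_of_cube {q s : G} (q3 : q ^ 3 = 1) (s2 : s * s = 1) (h : q * s * (q * s) = 1) :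
    q⁻¹ * s * q⁻¹⁻¹ = q * s := by
  have e : s * q * s = q⁻¹ := eq_inv_of_mul_eq_one_right (by simpa [mul_assoc] using h)
  have k : q⁻¹ * q⁻¹ = q := by
    rw [← mul_inv_rev, inv_eq_iff_mul_eq_one, ← pow_three', q3]
  calc q⁻¹ * s * q⁻¹⁻¹ = q⁻¹ * (s * q * s) * s := by
        rw [inv_inv]; simp only [mul_assoc]; rw [s2, mul_one]
    _ = q * s := by rw [e, k]

theorem mem_powers_iff_mem_zpowers' {z x : G} (z3 : z ^ 3 = 1) : x ∈ Submonoid.powers z ↔ x ∈ zpowers z :=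
  (isOfFinOrder_iff_pow_eq_one.2 ⟨3, by norm_num, z3⟩).mem_powers_iff_mem_zpowers

theorem zp_cases {z x : G} (z3 : z ^ 3 = 1) (hx : x ∈ zpowers z) : x = 1 ∨ x = z ∨ x = z⁻¹ := by
  obtain ⟨n, rfl⟩ := (Submonoid.mem_powers_iff _ _).1 ((mem_powers_iff_mem_zpowers' z3).2 hx)
  rw [pow_eq_pow_mod n z3]
  have : n % 3 = 0 ∨ n % 3 = 1 ∨ n % 3 = 2 := by omega
  rcases this with e | e | e <;> rw [e]
  · exact .inl (pow_zero z)
  · exact .inr (.inl (pow_one z))
  · exact .inr (.inr (eq_inv_of_mul_eq_one_left (by rw [← pow_succ, z3])))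

theorem mem_zp_of {z x : G} (z3 : z ^ 3 = 1) (hx : x ∈ zpowers z) (x1 : x ≠ 1) : z ∈ zpowers x := by
  rcases zp_cases z3 hx with e | e | e
  · exact absurd e x1
  · exact e ▸ mem_zpowers x
  · rw [e]; simp

namespace Cd
variable (h : Cd z Q ω f ρ)
include h

theorem mQ (c : F3) (v : V) : f c v ∈ Q := (h.mem _).2 ⟨c, v, rfl⟩

theorem skew (v w : V) : ω v w = -ω w v := by
  have := h.alt (v + w)
  simp only [map_add, LinearMap.add_apply, h.alt] at this
  linear_combination this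

theorem one : f 0 0 = 1 := by
  have := h.mul 0 0 0 0
  simpa using this

theorem inv (c : F3) (v : V) : (f c v)⁻¹ = f (-c) (-v) := by
  refine inv_eq_of_mul_eq_one_right ?_
  rw [h.mul]; simpa [h.alt] using h.one

theorem cube {q : G} (hq : q ∈ Q) : q ^ 3 = 1 := by
  obtain ⟨c, v, rfl⟩ := (h.mem q).1 hq
  have t : ∀ c : F3, c + c + c = 0 := by decide
  have e : v + v + v = 0 := by
    rw [← one_smul F3 v, ← add_smul, ← add_smul, t, zero_smul]
  rw [pow_three', h.mul, h.mul, e]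
  simpa [h.alt, t] using h.one

theorem zQ : z ∈ Q := h.fz ▸ h.mQ 1 0

theorem z3 : z ^ 3 = 1 := h.cube h.zQ

theorem z1 : z ≠ 1 := by
  intro e
  exact absurd (h.inj (h.fz.trans (e.trans h.one.symm))).1 (by decide)

theorem zpow (c : F3) : f c 0 = z ^ c.val := by
  have t : ∀ c : F3, c = 0 ∨ c = 1 ∨ c = 2 := by decide
  rcases t c with rfl | rfl | rfl
  · exact h.one.trans (pow_zero z).symm
  · exact h.fz.trans (pow_one z).symm
  · have := h.mul 1 0 1 0
    rw [h.fz] at this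
    rw [show (2 : F3).val = 2 from rfl, pow_two, this]
    simp [one_add_one_eq_two]

theorem zp {c : F3} {v : V} : f c v ∈ zpowers z ↔ v = 0 := by
  refine ⟨fun e => ?_, fun e => by rw [e, h.zpow]; exact npow_mem_zpowers ..⟩
  obtain ⟨n, e⟩ := (Submonoid.mem_powers_iff _ _).1 ((mem_powers_iff_mem_zpowers' h.z3).2 e)
  have k : ∀ n : ℕ, z ^ n = f n 0 := fun n => by
    induction n with
    | zero => simpa using h.one.symm
    | succ n ih => rw [pow_succ, ih, ← h.fz, h.mul]; simp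
  exact (h.inj ((k n).symm.trans e)).2.symm

theorem comm_iff {c e : F3} {v w : V} : f c v * f e w = f e w * f c v ↔ ω v w = 0 := by
  rw [h.mul, h.mul, h.skew w v]
  have t : ∀ a : F3, 2 * a = 2 * -a → a = 0 := by decide
  refine ⟨fun k => t _ ?_, fun k => by rw [k, add_comm c, add_comm v, neg_zero]⟩
  linear_combination (h.inj k).1

theorem conjQ (e : F3) (w : V) (c : F3) (v : V) : f e w * f c v * (f e w)⁻¹ = f (c + ω w v) v := by
  rw [h.inv, h.mul, h.mul]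
  congr 1
  · simp only [map_neg, map_add, LinearMap.add_apply, h.alt, h.skew v w]
    have t : (3 : F3) = 0 := rfl
    linear_combination (ω w v) * t
  · abel

theorem Qz {q : G} (hq : q ∈ Q) : q * z = z * q := by
  obtain ⟨c, v, rfl⟩ := (h.mem q).1 hq
  rw [← h.fz, h.comm_iff, map_zero]

theorem comm_mem {a b : G} (ha : a ∈ Q) (hb : b ∈ Q) : a * b * a⁻¹ * b⁻¹ ∈ zpowers z := by
  obtain ⟨c, v, rfl⟩ := (h.mem a).1 ha
  obtain ⟨e, w, rfl⟩ := (h.mem b).1 hb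
  rw [h.conjQ, h.inv, h.mul, h.zp, add_neg_cancel]

theorem act_add {m : G} {A : V →ₗ[F3] V} {δ : V → F3}
    (k : ∀ c v, m * f c v * m⁻¹ = f (c + δ v) (A v)) (v w : V) :
    δ (v + w) = δ v + δ w ∧ ω (A v) (A w) = ω v w := by
  have a : ∀ v w, 2 * ω v w + δ (v + w) = δ v + δ w + 2 * ω (A v) (A w) := fun v w => by
    have : m * (f 0 v * f 0 w) * m⁻¹ = m * f 0 v * m⁻¹ * (m * f 0 w * m⁻¹) := by group
    rw [h.mul, k, k, k, h.mul] at this
    linear_combination (h.inj this).1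
  have b := a w v
  rw [add_comm w v, h.skew w v, h.skew (A w) (A v)] at b
  have t : (3 : F3) = 0 := rfl
  have c := a v w
  exact ⟨by linear_combination -c - b + (δ (v + w) - δ v - δ w) * t, by
    linear_combination b - c + (ω v w - ω (A v) (A w)) * t⟩

theorem ρ_inv {m : G} (hm : m * z = z * m) (v w : V) : ω (ρ m v) (ρ m w) = ω v w := by
  obtain ⟨δ, k⟩ := h.act m hm
  exact (h.act_add k v w).2

theorem act' {m : G} (hm : m * z = z * m) :
    ∃ δ : V →ₗ[F3] F3, ∀ c v, m * f c v * m⁻¹ = f (c + δ v) (ρ m v) := by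
  obtain ⟨δ, k⟩ := h.act m hm
  exact ⟨(AddMonoidHom.mk' δ fun v w => (h.act_add k v w).1).toZModLinearMap 3, k⟩

theorem ρ_mul {m n : G} (hm : m * z = z * m) (hn : n * z = z * n) (v : V) :
    ρ (m * n) v = ρ m (ρ n v) := by
  obtain ⟨δ, k⟩ := h.act m hm
  obtain ⟨ε, l⟩ := h.act n hn
  obtain ⟨η, o⟩ := h.act (m * n) (by rw [mul_assoc, hn, ← mul_assoc, hm, mul_assoc])
  refine (h.inj (c := 0 + η v) (e := 0 + ε v + δ (ρ n v)) ?_).2
  rw [← o, ← k, ← l]; group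

theorem ρ_Q {q : G} (hq : q ∈ Q) (v : V) : ρ q v = v := by
  obtain ⟨δ, k⟩ := h.act q (h.Qz hq)
  obtain ⟨c, w, rfl⟩ := (h.mem q).1 hq
  exact (h.inj ((k 0 v).symm.trans (h.conjQ ..))).2

theorem ρ_one (v : V) : ρ 1 v = v := h.ρ_Q (one_mem _) v

theorem nrm {m q : G} (hm : m * z = z * m) (hq : q ∈ Q) : m * q * m⁻¹ ∈ Q := by
  obtain ⟨δ, k⟩ := h.act m hm
  obtain ⟨c, w, rfl⟩ := (h.mem q).1 hq
  exact k c w ▸ h.mQ ..

/-- an element commuting with `f c v` fixes `v` -/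
theorem ρ_fix {m : G} (hm : m * z = z * m) {c : F3} {v : V} (e : m * f c v = f c v * m) :
    ρ m v = v := by
  obtain ⟨δ, k⟩ := h.act m hm
  exact (h.inj ((k c v).symm.trans (by rw [e, mul_inv_cancel_right]))).2

/-- an involution fixing `v` commutes with `f c v` -/
theorem fix_inv {d : G} (hd : d * z = z * d) (d2 : d * d = 1) {v : V} (e : ρ d v = v) (c : F3) :
    d * f c v = f c v * d := by
  obtain ⟨δ, k⟩ := h.act d hd
  have l : d * (d * f c v * d⁻¹) * d⁻¹ = f c v := by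
    calc _ = d * d * f c v * (d * d)⁻¹ := by group
      _ = _ := by rw [d2]; simp
  rw [k, e, k, e] at l
  have t : ∀ c a : F3, c + a + a = c → c + a = c := by decide
  have := k c v
  rw [e, t _ _ (h.inj l).1] at this
  exact mul_inv_eq_iff_eq_mul.1 this

theorem cent {g : G} (hg : ∀ q ∈ Q, g * q = q * g) : g ∈ zpowers z := by
  have gz := hg z h.zQ
  obtain ⟨c, v, rfl⟩ := (h.mem g).1 (h.ker g gz fun v => h.ρ_fix gz (hg _ (h.mQ 0 v)))
  exact h.zp.2 (h.nd v fun w => h.comm_iff.1 (hg _ (h.mQ 0 w)))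

theorem finite [Finite G] : Finite V :=
  Finite.of_injective (f 0) fun _ _ e => (h.inj e).2

theorem shift {q : G} (hq : q ∈ Q) : Cd z Q ω (fun c v => q * f c v * q⁻¹) ρ := by
  have qz := h.Qz hq
  refine ⟨h.alt, h.nd, fun c v e w => by rw [← h.mul]; group, fun e => h.inj (by simpa using e),
    fun g => ⟨fun hg => ?_, fun ⟨c, v, e⟩ => e ▸ h.nrm qz (h.mQ ..)⟩, by
      rw [h.fz, qz, mul_inv_cancel_right], fun m hm => ?_, h.ker⟩
  · obtain ⟨c, v, e⟩ := (h.mem _).1 (mul_mem (mul_mem (inv_mem hq) hg) hq)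
    exact ⟨c, v, by rw [e]; group⟩
  · have c1 : Commute q z := qz
    have c2 : Commute m z := hm
    obtain ⟨δ, k⟩ := h.act (q⁻¹ * m * q) ((c1.inv_left.mul_left c2).mul_left c1)
    refine ⟨δ, fun c v => ?_⟩
    have e : ρ (q⁻¹ * m * q) v = ρ m v := by
      rw [h.ρ_mul (c1.inv_left.mul_left c2) c1, h.ρ_mul c1.inv_left c2, h.ρ_Q hq, h.ρ_Q (inv_mem hq)]
    rw [← e, ← k]; group

theorem conj (g : G) : Cd (g * z * g⁻¹) (Q.map (MulAut.conj g).toMonoidHom) ω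
    (fun c v => g * f c v * g⁻¹) (fun m => ρ (g⁻¹ * m * g)) := by
  have cz : ∀ m, m * (g * z * g⁻¹) = g * z * g⁻¹ * m → g⁻¹ * m * g * z = z * (g⁻¹ * m * g) := fun m hm => by
    calc _ = g⁻¹ * (m * (g * z * g⁻¹)) * g := by group
      _ = _ := by rw [hm]; group
  refine ⟨h.alt, h.nd, fun c v e w => by rw [← h.mul]; group, fun e => h.inj (by simpa using e),
    fun x => ⟨fun ⟨y, hy, e⟩ => ?_, fun ⟨c, v, e⟩ => ⟨_, h.mQ c v, e⟩⟩, by rw [h.fz], fun m hm => ?_,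
    fun m hm k => ⟨_, h.ker _ (cz m hm) k, by simp [mul_assoc]⟩⟩
  · obtain ⟨c, v, rfl⟩ := (h.mem y).1 hy
    exact ⟨c, v, e⟩
  · obtain ⟨δ, k⟩ := h.act _ (cz m hm)
    exact ⟨δ, fun c v => by rw [← k]; group⟩

/-- the preimage of a subspace -/
def sub (U : Submodule F3 V) : Subgroup G where
  carrier := {g | ∃ c, ∃ v ∈ U, f c v = g}
  mul_mem' := by
    rintro _ _ ⟨c, v, hv, rfl⟩ ⟨e, w, hw, rfl⟩
    exact ⟨_, _, add_mem hv hw, (h.mul ..).symm⟩
  one_mem' := ⟨0, 0, zero_mem _, h.one⟩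
  inv_mem' := by
    rintro _ ⟨c, v, hv, rfl⟩
    exact ⟨_, _, neg_mem hv, (h.inv ..).symm⟩

theorem mem_sub {U : Submodule F3 V} {g : G} : g ∈ h.sub U ↔ ∃ c, ∃ v ∈ U, f c v = g := Iff.rfl

theorem f_mem_sub {U : Submodule F3 V} {c : F3} {v : V} : f c v ∈ h.sub U ↔ v ∈ U :=
  ⟨fun ⟨_, _, hw, e⟩ => (h.inj e).2 ▸ hw, fun hv => ⟨c, v, hv, rfl⟩⟩

theorem sub_le (U : Submodule F3 V) : h.sub U ≤ Q := fun _ ⟨_, _, _, e⟩ => e ▸ h.mQ ..

theorem sub_top : h.sub ⊤ = Q := by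
  exact le_antisymm (h.sub_le _) fun g hg => let ⟨c, v, e⟩ := (h.mem g).1 hg; ⟨c, v, trivial, e⟩

theorem card_sub [Finite G] (U : Submodule F3 V) :
    Nat.card (h.sub U) = 3 ^ (Module.finrank F3 U + 1) := by
  have := h.finite
  have e : F3 × U ≃ h.sub U := Equiv.ofBijective (fun x => ⟨f x.1 x.2, x.1, x.2, x.2.2, rfl⟩)
    ⟨fun x y e => Prod.ext (h.inj (congrArg Subtype.val e)).1 (Subtype.ext (h.inj (congrArg Subtype.val e)).2),
      fun ⟨_, c, v, hv, e⟩ => ⟨(c, ⟨v, hv⟩), Subtype.ext e⟩⟩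
  rw [← Nat.card_congr e, Nat.card_prod, Module.natCard_eq_pow_finrank (K := F3) (V := U), pow_succ']
  simp

/-- the image in `V` of a subgroup -/
def hat (B : Subgroup G) : Submodule F3 V where
  carrier := {v | ∃ c, f c v ∈ B}
  add_mem' := fun ⟨_, a⟩ ⟨_, b⟩ => ⟨_, h.mul .. ▸ mul_mem a b⟩
  zero_mem' := ⟨0, h.one ▸ one_mem B⟩
  smul_mem' := by
    rintro a v ⟨c, k⟩
    have t : ∀ c : F3, c = 0 ∨ c = 1 ∨ c = -1 := by decide
    rcases t a with rfl | rfl | rfl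
    · exact ⟨0, by rw [zero_smul, h.one]; exact one_mem B⟩
    · exact ⟨c, by rwa [one_smul]⟩
    · exact ⟨-c, by rw [neg_one_smul, ← h.inv]; exact inv_mem k⟩

theorem mem_hat {B : Subgroup G} {v : V} : v ∈ h.hat B ↔ ∃ c, f c v ∈ B := Iff.rfl

theorem card_of_mem [Finite G] {B : Subgroup G} (hB : B ≤ Q) (hz : z ∈ B) :
    Nat.card B = 3 ^ (Module.finrank F3 (h.hat B) + 1) := by
  rw [← h.card_sub]
  congr 2
  refine le_antisymm (fun g hg => ?_) ?_
  · obtain ⟨c, v, rfl⟩ := (h.mem g).1 (hB hg)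
    exact h.f_mem_sub.2 ⟨c, hg⟩
  · rintro _ ⟨c, v, ⟨e, k⟩, rfl⟩
    have := mul_mem (zpowers_le.2 hz (h.zp (c := c - e).2 rfl)) k
    rw [h.mul] at this
    simpa using this

theorem card_of_not_mem [Finite G] {B : Subgroup G} (hB : B ≤ Q) (hz : z ∉ B) :
    Nat.card B = 3 ^ Module.finrank F3 (h.hat B) := by
  have := h.finite
  have u : ∀ {c e v}, f c v ∈ B → f e v ∈ B → c = e := fun {c e v} a b => by
    have := mul_mem a (inv_mem b)
    rw [h.inv, h.mul, map_neg, h.alt, add_neg_cancel] at this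
    have t : ∀ c e : F3, c = e ∨ c + -e + 2 * -0 = 1 ∨ -(c + -e + 2 * -0) = 1 := by decide
    rcases t c e with k | k | k
    · exact k
    · exact absurd (by rwa [k, h.fz] at this) hz
    · have := inv_mem this
      exact absurd (by rwa [h.inv, k, neg_zero, h.fz] at this) hz
  have e : h.hat B ≃ B := Equiv.ofBijective (fun x => ⟨f x.2.choose x, x.2.choose_spec⟩)
    ⟨fun x y e => Subtype.ext (h.inj (congrArg Subtype.val e)).2, fun ⟨g, hg⟩ => by
      obtain ⟨c, v, rfl⟩ := (h.mem g).1 (hB hg)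
      have m : v ∈ h.hat B := ⟨c, hg⟩
      exact ⟨⟨v, m⟩, Subtype.ext (congrArg (f · v) (u m.choose_spec hg))⟩⟩
  rw [← Nat.card_congr e, Module.natCard_eq_pow_finrank (K := F3) (V := h.hat B)]
  simp

theorem es_sub [Finite G] {U : Submodule F3 V} (hU : U ≠ ⊥)
    (nd : ∀ v ∈ U, (∀ w ∈ U, ω v w = 0) → v = 0) : IsExtraspecial 3 (h.sub U) := by
  have := Fact.mk Nat.prime_three
  have m : z ∈ h.sub U := h.fz ▸ h.f_mem_sub.2 (zero_mem U)
  have zp : ∀ x : h.sub U, (x : G) ∈ zpowers z → x ∈ zpowers (⟨z, m⟩ : h.sub U) := fun x ⟨k, e⟩ =>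
    ⟨k, Subtype.ext e⟩
  have cen : (⟨z, m⟩ : h.sub U) ∈ center (h.sub U) :=
    mem_center_iff.2 fun q => Subtype.ext (h.Qz (h.sub_le _ q.2))
  refine ES.ZData.isExtraspecial (z := ⟨z, m⟩) ⟨orderOf_eq_prime (Subtype.ext h.z3)
    (mt (congrArg Subtype.val) h.z1), cen, fun x y => zp _ (h.comm_mem (h.sub_le _ x.2) (h.sub_le _ y.2)),
    fun x => zp _ (by rw [coe_pow, h.cube (h.sub_le _ x.2)]; exact one_mem _)⟩
    (le_antisymm (fun x hx => zp _ ?_) (zpowers_le.2 cen)) fun k => hU ?_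
  · obtain ⟨_, c, v, hv, rfl⟩ := x
    exact h.zp.2 (nd v hv fun w hw => h.comm_iff.1 (congrArg Subtype.val
      (mem_center_iff.1 hx ⟨f 0 w, h.f_mem_sub.2 hw⟩)).symm)
  · exact eq_bot_iff.2 fun v hv => nd v hv fun w hw => h.comm_iff.1 (congrArg Subtype.val
      (k.1.1 ⟨f 0 v, h.f_mem_sub.2 hv⟩ ⟨f 0 w, h.f_mem_sub.2 hw⟩))

theorem isPGroup : IsPGroup 3 Q := fun q => ⟨1, Subtype.ext (h.cube q.2)⟩

theorem center_sylow {S : Subgroup G} (hS : Q ≤ S) {c : G} (hc : ∀ s ∈ S, c * s = s * c) :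
    c ∈ zpowers z := h.cent fun q hq => hc q (hS hq)

theorem exists_sylow [Finite G] : ∃ S : Sylow 3 G, Q ≤ S ∧ (S : Subgroup G) ≤ cz z := by
  have := Fact.mk Nat.prime_three
  obtain ⟨S, hS⟩ := h.isPGroup.exists_le_sylow
  refine ⟨S, hS, fun s hs => mem_cz.2 ?_⟩
  have : Nontrivial S := ⟨⟨⟨z, hS h.zQ⟩, 1, mt (congrArg Subtype.val) h.z1⟩⟩
  have := S.isPGroup'.center_nontrivial
  obtain ⟨c, c1⟩ := exists_ne (1 : center S)
  have k : ∀ s ∈ (S : Subgroup G), (c.1 : G) * s = s * c.1 := fun s hs =>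
    congrArg Subtype.val (mem_center_iff.1 c.2 ⟨s, hs⟩).symm
  obtain ⟨n, e⟩ := mem_zp_of h.z3 (h.center_sylow hS k) fun e => c1 (Subtype.ext (Subtype.ext e))
  exact e ▸ (Commute.zpow_left (k s hs) n).symm

theorem mem_normal [Finite G] (O : Subgroup G) (hO : O.Normal) (h3 : 3 ∣ Nat.card O) : z ∈ O := by
  have := Fact.mk Nat.prime_three
  obtain ⟨S, hS, -⟩ := h.exists_sylow
  obtain ⟨x, hx⟩ := exists_prime_orderOf_dvd_card' 3 h3
  have o : orderOf (x : G) = 3 := (orderOf_coe x).trans hx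
  obtain ⟨P, hP⟩ := (IsPGroup.of_card (p := 3) (n := 1) (G := zpowers (x : G))
    (by rw [Nat.card_zpowers, o, pow_one])).exists_le_sylow
  obtain ⟨g, rfl⟩ := MulAction.exists_smul_eq G P S
  have m : g * x * g⁻¹ ∈ ((g • P : Sylow 3 G) : Subgroup G) := ⟨x, hP (mem_zpowers _), rfl⟩
  have := (g • P).isPGroup'.isNilpotent
  have n : O.subgroupOf ((g • P : Sylow 3 G) : Subgroup G) ≠ ⊥ := fun e => by
    have : (⟨_, m⟩ : ((g • P : Sylow 3 G) : Subgroup G)) ∈ O.subgroupOf _ := hO.conj_mem _ x.2 g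
    rw [e] at this
    have : g * x * g⁻¹ = 1 := congrArg Subtype.val (mem_bot.1 this)
    rw [show (x : G) = 1 by simpa using this, orderOf_one] at o
    omega
  obtain ⟨⟨c, c1, c2⟩, cn⟩ := ne_bot_iff_exists_ne_one.1 (inf_center_ne_bot_of_isNilpotent _ n)
  exact zpowers_le.2 (show (c : G) ∈ O from c1) (mem_zp_of h.z3 (h.center_sylow hS fun s hs =>
    congrArg Subtype.val (mem_center_iff.1 c2 ⟨s, hs⟩).symm) fun e => cn (Subtype.ext (Subtype.ext e)))

theorem exists_conj [Finite G] (S : Sylow 3 G) (hz : z ∈ S) {g : G} (hg : g * z * g⁻¹ ∈ S)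
    (hn : g * z * g⁻¹ ∉ zpowers z) :
    ∃ k : G, k * z * k⁻¹ * z = z * (k * z * k⁻¹) ∧ k * z * k⁻¹ ∉ zpowers z := by
  have := Fact.mk Nat.prime_three
  obtain ⟨P, -, hP⟩ := h.exists_sylow
  obtain ⟨k, rfl⟩ := MulAction.exists_smul_eq G P S
  have c : ∀ s ∈ k • P, k * z * k⁻¹ * s = s * (k * z * k⁻¹) := by
    rintro _ ⟨s, hs, rfl⟩
    have := mem_cz.1 (hP hs)
    calc _ = k * (z * s) * k⁻¹ := by simp [mul_assoc]
      _ = _ := by rw [← this]; simp [mul_assoc]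
  by_cases e : k * z * k⁻¹ ∈ zpowers z
  · obtain ⟨n, e⟩ := mem_zp_of h.z3 e (by simpa using h.z1)
    refine ⟨g, ?_, hn⟩
    have := Commute.zpow_left (c _ hg) n
    simp only [] at e
    rw [e] at this
    exact this.symm
  · exact ⟨k, c z hz, e⟩

theorem frat [Finite G] (L : Subgroup G) [L.Normal] (h1 : cz z ≤ L) {w : G} (hw : w ∈ L)
    (e : w * z * w⁻¹ = z⁻¹) : L = ⊤ := by
  have := Fact.mk Nat.prime_three
  obtain ⟨S, hS, hz⟩ := h.exists_sylow
  rw [← S.normalizer_sup_eq_top' (hz.trans h1)]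
  refine (sup_eq_right.2 fun n hn => ?_).symm
  have : n * z * n⁻¹ ∈ zpowers z := h.center_sylow hS fun s hs => by
    have := mem_cz.1 (hz ((mem_normalizer_iff''.1 hn s).1 hs))
    calc _ = n * (z * (n⁻¹ * s * n)) * n⁻¹ := by group
      _ = _ := by rw [← this]; group
  rcases zp_cases h.z3 this with k | k | k
  · exact absurd (by simpa using k) h.z1
  · exact h1 (mem_cz.2 (mul_inv_eq_iff_eq_mul.1 k))
  · refine (mul_mem_cancel_left (inv_mem hw)).1 (h1 (mem_cz.2 ?_))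
    calc _ = w⁻¹ * (n * z * n⁻¹) * n := by group
      _ = _ := by rw [k, ← e]; group

end Cd

theorem Lc.conj (h : Lc z Q ω f ρ r) (g : G) : Lc (g * z * g⁻¹) (Q.map (MulAut.conj g).toMonoidHom) ω
    (fun c v => g * f c v * g⁻¹) (fun m => ρ (g⁻¹ * m * g)) (g * r * g⁻¹) := by
  have key : ∀ B : Subgroup G, (∀ b ∈ B, b * (g * z * g⁻¹) = g * z * g⁻¹ * b ∧ b ^ 3 = 1) →
      (∀ b ∈ B.comap (MulAut.conj g).toMonoidHom, b * z = z * b ∧ b ^ 3 = 1) ∧
      Nat.card (B.comap (MulAut.conj g).toMonoidHom) = Nat.card B ∧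
      Nat.card (B.comap (MulAut.conj g).toMonoidHom ⊓ Q : Subgroup G) =
        Nat.card (B ⊓ Q.map (MulAut.conj g).toMonoidHom : Subgroup G) := fun B hB => by
    have cm : ∀ K : Subgroup G, Nat.card (K.comap (MulAut.conj g).toMonoidHom) = Nat.card K := fun K => by
      conv_rhs => rw [← map_comap_eq_self_of_surjective (f := (MulAut.conj g).toMonoidHom)
        (MulAut.conj g).surjective K]
      exact (card_map_of_injective (MulAut.conj g).injective).symm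
    refine ⟨fun b hb => ⟨(MulAut.conj g).injective ?_, (MulAut.conj g).injective ?_⟩, cm B, ?_⟩
    · rw [map_mul, map_mul]; exact (hB _ hb).1
    · rw [map_pow, map_one]; exact (hB _ hb).2
    · rw [← cm (B ⊓ _), comap_inf, comap_map_eq_self_of_injective (MulAut.conj g).injective]
  refine ⟨h.cd.conj g, h.dim, ?_, ?_, fun c v => by rw [← h.rf]; group, fun B hB => ?_,
    fun B hB hc hk v w hv hw => ?_⟩
  · calc _ = g * (r * z) * g⁻¹ := by group
      _ = _ := by rw [h.rz]; group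
  · calc _ = g * (r * r) * g⁻¹ := by group
      _ = _ := by rw [h.r2]; group
  · obtain ⟨a, b, c⟩ := key B hB
    rw [← b, ← c]; exact h.g1 _ a
  · obtain ⟨a, b, c⟩ := key B hB
    refine h.g2 _ a (fun x hx y hy => ?_) (by rw [b, c, hk]) v w
      (fun x hx => by simpa [mul_assoc] using hv _ hx) fun x hx => by simpa [mul_assoc] using hw _ hx
    obtain ⟨q, hq, e⟩ := hc _ hx _ hy
    rwa [← (MulAut.conj g).injective (e.trans (by simp [mul_assoc] : _ = MulAut.conj g (x * y * x⁻¹ * y⁻¹)))]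

end CL.B3
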