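import Mathlib
import Cfsg.Agent.SOLV.Core
import Cfsg.Prelude.Def_Local
import Cfsg.Prelude.Def_Transfer
import Cfsg.Prelude.Def_CaseTheorems
import Cfsg.Prelude.Def_Classical
import Cfsg.Prelude.Def_LieTwisted
import Cfsg.Prelude.Def_Spor_Fi22
import Cfsg.Prelude.Def_Spor_Fi23
import Cfsg.Prelude.Def_Spor_B

/-!
Definitions for the 3-local recognition of `Fi₂₃` and of the Baby Monster (S2914, S2915).

`z` has order 3, `M = C(z)`, `Q = F*(M) = 3^{1+8}` with Heisenberg coordinates `f` (`Cd`),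
`X = M/Q` acts faithfully on `V = Q/<z>` by `σ` (`Lin`), `R = O₂(X) = 2^{1+6}`, `T = X/R` (`TF`).
-/

set_option autoImplicit false
open Subgroup Cfsg

namespace CL.B3

universe u

abbrev F3 : Type := ZMod 3

/-- the centralizer of an element -/
abbrev cz {G : Type*} [Group G] (z : G) : Subgroup G := centralizer ({z} : Set G)

theorem mem_cz {G : Type*} [Group G] {z g : G} : g ∈ cz z ↔ g * z = z * g :=
  mem_centralizer_singleton_iff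

/-- the subgroup generated by the 3-elements of `C(d)` -/
def L3 {G : Type*} [Group G] (d : G) : Subgroup G :=
  closure {g | (∃ k : ℕ, g ^ 3 ^ k = 1) ∧ g * d = d * g}

theorem mem_L3 {G : Type*} [Group G] {d g : G} {k : ℕ} (h : g ^ 3 ^ k = 1) (c : g * d = d * g) :
    g ∈ L3 d := subset_closure ⟨⟨k, h⟩, c⟩

theorem L3_le {G : Type*} [Group G] (d : G) : L3 d ≤ cz d :=
  (closure_le _).2 fun _ h => mem_cz.2 h.2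

/-- `<d>` inside `C(d)` -/
abbrev zd {G : Type*} [Group G] (d : G) : Subgroup (cz d) := (zpowers d).subgroupOf (cz d)

instance zd_normal {G : Type*} [Group G] (d : G) : (zd d).Normal := ⟨fun a ha g => by
  obtain ⟨k, hk⟩ := mem_zpowers_iff.1 (mem_subgroupOf.1 ha)
  have c : Commute (g : G) a := hk ▸ (show Commute (g : G) d from mem_cz.1 g.2).zpow_right k
  have : g * a * g⁻¹ = a := Subtype.ext (by simpa using c.mul_inv_cancel)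
  rwa [this]⟩

/-- `C(d)/<d>` -/
abbrev Yq {G : Type*} [Group G] (d : G) : Type _ := cz d ⧸ zd d

/-- the projection `C(d) → C(d)/<d>` -/
abbrev pr {G : Type*} [Group G] (d : G) : cz d →* Yq d := QuotientGroup.mk' (zd d)

theorem pr_eq_one {G : Type*} [Group G] {d : G} {g : cz d} : pr d g = 1 ↔ (g : G) ∈ zpowers d :=
  (QuotientGroup.eq_one_iff g).trans mem_subgroupOf

/-- elementary abelian of order 27 -/
structure E27 {T : Type*} [Group T] (J : Subgroup T) : Prop where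
  card : Nat.card J = 27
  exp : ∀ a ∈ J, a ^ 3 = 1
  comm : ∀ a ∈ J, ∀ b ∈ J, a * b = b * a

/-- a frame in the top group: `<x,y,u> = 3^{1+2}` with centre `<x>`, `t` an involution -/
structure Fr {T : Type*} [Group T] (J : Subgroup T) (x y u t : T) : Prop where
  xJ : x ∈ J
  yJ : y ∈ J
  x1 : x ≠ 1
  yu : y * u = x * (u * y)
  xu : x * u = u * x
  t2 : t * t = 1
  tx : t * x = x * t
  ty : t * y * t = y⁻¹
  tJ : ∀ j ∈ J, t * j * t ∈ J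
  t3 : t ∈ L3 t

/-- what is used about the top group -/
structure TF (T : Type*) [Group T] (P : T → T → Prop) : Prop where
  exp : ∀ B : Subgroup T, (∀ b ∈ B, b ^ 3 = 1) → Nat.card B ≤ 27
  fr : ∀ J : Subgroup T, E27 J → ∃ x y u t, Fr J x y u t ∧ P x t

/-- the case `Fi₂₃` -/
def P23 {T : Type*} [Group T] (x t : T) : Prop :=
  (∀ g, g * x = x * g) ∧ cz t ≤ L3 t ∧ 8 ∣ Nat.card (cz t) ∧ ¬ 16 ∣ Nat.card (cz t)

/-- the case `B` -/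
def PB {T : Type*} [Group T] (_x t : T) : Prop := 64 ∣ Nat.card (cz t)

/-- the self-centralizing normal subgroup `R = 2^{1+6}` with centre `{1, ζ}` -/
structure Ex {X : Type*} [Group X] (R : Subgroup X) (ζ : X) : Prop where
  nR : R.Normal
  cR : Nat.card R = 128
  sc : ∀ g, (∀ a ∈ R, g * a = a * g) → g ∈ R
  zR : ζ ∈ R
  z1 : ζ ≠ 1
  z2 : ζ * ζ = 1
  zc : ∀ g, g * ζ = ζ * g
  com : ∀ a ∈ R, ∀ b ∈ R, a * b = b * a ∨ a * b = ζ * (b * a)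
  sq : ∀ a ∈ R, a * a = 1 ∨ a * a = ζ
  cen : ∀ a ∈ R, (∀ b ∈ R, a * b = b * a) → a = 1 ∨ a = ζ

section
variable {V : Type*} [AddCommGroup V] [Module F3 V]

/-- a faithful symplectic representation of dimension 8 -/
structure Lin {X : Type*} [Group X] (ω : V →ₗ[F3] V →ₗ[F3] F3) (σ : X →* V →ₗ[F3] V) : Prop where
  dim : Module.finrank F3 V = 8
  alt : ∀ v, ω v v = 0
  nd : ∀ v, (∀ w, ω v w = 0) → v = 0
  inv : ∀ g v w, ω (σ g v) (σ g w) = ω v w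
  faith : ∀ g, (∀ v, σ g v = v) → g = 1

/-- a frame of `R = Q₈ ∘ Q₈ ∘ Q₈` adapted to `J`; `α` lifts `x` and `τ` lifts `t` -/
structure Fm {X : Type*} [Group X] (R : Subgroup X) (ζ : X) (J : Subgroup X) (α τ : X)
    (i j : Fin 3 → X) : Prop where
  αJ : α ∈ J
  iR : ∀ k, i k ∈ R
  jR : ∀ k, j k ∈ R
  ii : ∀ k, i k * i k = ζ
  jj : ∀ k, j k * j k = ζ
  ij : ∀ k, i k * j k = ζ * (j k * i k)
  cii : ∀ k l, i k * i l = i l * i k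
  cjj : ∀ k l, j k * j l = j l * j k
  cij : ∀ k l, k ≠ l → i k * j l = j l * i k
  gen : ∀ a ∈ R, ∃ e a0 b0 a1 b1 a2 b2 : Fin 2, a = ζ ^ e.val * (i 0 ^ a0.val * j 0 ^ b0.val) *
    (i 1 ^ a1.val * j 1 ^ b1.val) * (i 2 ^ a2.val * j 2 ^ b2.val)
  αi : ∀ k, α * i k * α⁻¹ = j k
  αj : ∀ k, α * j k * α⁻¹ = i k * j k
  τα : τ * α = α * τ
  ττ : τ * τ = 1 ∨ τ * τ = ζ
  τ0 : τ * i 0 * τ⁻¹ = i 0
  τ1 : τ * i 1 * τ⁻¹ = i 2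
  τ2 : τ * i 2 * τ⁻¹ = i 1
  τJ : ∀ g ∈ J, τ * g * τ⁻¹ ∈ J
  uJ : ∀ k, ∃ w ∈ J, w * i k * w⁻¹ = j k ∧ ∀ l, l ≠ k → w * i l = i l * w ∧ w * j l = j l * w

/-- common eigenspace of two elements -/
def Eg {X : Type*} [Group X] (σ : X →* V →ₗ[F3] V) (a b : X) (ε δ : F3) : Submodule F3 V where
  carrier := {v | σ a v = ε • v ∧ σ b v = δ • v}
  add_mem' := fun h k => ⟨by rw [map_add, h.1, k.1, smul_add], by rw [map_add, h.2, k.2, smul_add]⟩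
  zero_mem' := ⟨by simp, by simp⟩
  smul_mem' := fun c _ h => ⟨by rw [map_smul, h.1, smul_comm], by rw [map_smul, h.2, smul_comm]⟩

theorem mem_Eg {X : Type*} [Group X] {σ : X →* V →ₗ[F3] V} {a b : X} {ε δ : F3} {v : V} :
    v ∈ Eg σ a b ε δ ↔ σ a v = ε • v ∧ σ b v = δ • v := Iff.rfl

/-- the four eigenspaces of the four-group `<a, b>` -/
def Ev {X : Type*} [Group X] (σ : X →* V →ₗ[F3] V) (a b : X) : Fin 4 → Submodule F3 V :=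
  ![Eg σ a b 1 1, Eg σ a b 1 (-1), Eg σ a b (-1) 1, Eg σ a b (-1) (-1)]

/-- the decomposition of `V` under `a = i₁ i₂`, `b = j₁ j₂` and the reflection `d` in `Ev 0` -/
structure Ei {X : Type*} [Group X] (ω : V →ₗ[F3] V →ₗ[F3] F3) (σ : X →* V →ₗ[F3] V) (ζ τ a b d : X) :
    Prop where
  neg : ∀ v, σ ζ v = -v
  dτ : d = τ ∨ d = ζ * τ
  dim : ∀ k, Module.finrank F3 (Ev σ a b k) = 2
  orth : ∀ k l, k ≠ l → ∀ v ∈ Ev σ a b k, ∀ w ∈ Ev σ a b l, ω v w = 0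
  nd : ∀ k, ∀ v ∈ Ev σ a b k, (∀ w ∈ Ev σ a b k, ω v w = 0) → v = 0
  dec : ∀ v, ∃ c : Fin 4 → V, (∀ k, c k ∈ Ev σ a b k) ∧ v = c 0 + c 1 + c 2 + c 3
  d0 : ∀ v ∈ Ev σ a b 0, σ d v = -v
  dk : ∀ k, k ≠ 0 → ∀ v ∈ Ev σ a b k, σ d v = v

/-- the structure of `C_X(d)` acting on the fixed space `U 0 ⊕ U 1 ⊕ U 2` of `d` -/
structure Dc {X : Type*} [Group X] (ω : V →ₗ[F3] V →ₗ[F3] F3) (σ : X →* V →ₗ[F3] V) (d : X)
    (U : Fin 3 → Submodule F3 V) : Prop where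
  d2 : d * d = 1
  d1 : d ≠ 1
  dim : ∀ k, Module.finrank F3 (U k) = 2
  orth : ∀ k l, k ≠ l → ∀ v ∈ U k, ∀ w ∈ U l, ω v w = 0
  nd : ∀ k, ∀ v ∈ U k, (∀ w ∈ U k, ω v w = 0) → v = 0
  fix : ∀ v, σ d v = v ↔ v ∈ U 0 ⊔ U 1 ⊔ U 2
  ker : ∀ g, g * d = d * g → (∀ v, σ d v = v → σ g v = v) → g = 1 ∨ g = d
  o3 : pCore 3 (Yq d) = ⊥
  o2 : ∀ g : cz d, pr d g ∈ pCore 2 (Yq d) → ∀ k, (∀ v ∈ U k, σ g v ∈ U k) ∧
    (∀ v ∈ U k, σ (g ^ 4 : cz d) v = v) ∧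
    ((∀ v ∈ U k, σ (g ^ 2 : cz d) v = v) → (∀ v ∈ U k, σ g v = v) ∨ ∀ v ∈ U k, σ g v = -v)
  inv : ∀ k, ∃ g : cz d, pr d g ∈ pCore 2 (Yq d) ∧ (∀ v ∈ U k, σ g v = -v) ∧
    ∀ l, l ≠ k → ∀ v ∈ U l, σ g v = v
  gen : d ∈ L3 d
  nwc : ∃ g, g * d * g⁻¹ ≠ d ∧ g * d * g⁻¹ * d = d * (g * d * g⁻¹)

/-- the extra conclusion in the case `Fi₂₃` -/
def D23 {X : Type*} [Group X] (d : X) : Prop := Nat.card (pCore 2 (Yq d)) = 2 ^ 7 ∧ cz d ≤ L3 d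

/-- the extra conclusion in the case `B` -/
def DB {X : Type*} [Group X] (d : X) : Prop :=
  Nonempty (pCore 2 (Yq d) ≃* QuaternionGroup 2 × QuaternionGroup 2 × QuaternionGroup 2)

/-- Heisenberg coordinates on `Q = F*(C(z))`; `ρ m` is meaningful for `m` commuting with `z` -/
structure Cd {G : Type*} [Group G] (z : G) (Q : Subgroup G) (ω : V →ₗ[F3] V →ₗ[F3] F3)
    (f : F3 → V → G) (ρ : G → V →ₗ[F3] V) : Prop where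
  alt : ∀ v, ω v v = 0
  nd : ∀ v, (∀ w, ω v w = 0) → v = 0
  mul : ∀ c v e w, f c v * f e w = f (c + e + 2 * ω v w) (v + w)
  inj : ∀ {c v e w}, f c v = f e w → c = e ∧ v = w
  mem : ∀ g, g ∈ Q ↔ ∃ c v, f c v = g
  fz : f 1 0 = z
  act : ∀ m, m * z = z * m → ∃ δ : V → F3, ∀ c v, m * f c v * m⁻¹ = f (c + δ v) (ρ m v)
  ker : ∀ m, m * z = z * m → (∀ v, ρ m v = v) → m ∈ Q

/-- the local data used in the fusion analysis -/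
structure Lc {G : Type*} [Group G] (z : G) (Q : Subgroup G) (ω : V →ₗ[F3] V →ₗ[F3] F3)
    (f : F3 → V → G) (ρ : G → V →ₗ[F3] V) (r : G) : Prop where
  cd : Cd z Q ω f ρ
  dim : Module.finrank F3 V = 8
  rz : r * z = z * r
  r2 : r * r = 1
  rf : ∀ c v, r * f c v * r⁻¹ = f c (-v)
  g1 : ∀ B : Subgroup G, (∀ b ∈ B, b * z = z * b ∧ b ^ 3 = 1) →
    Nat.card B ≤ 27 * Nat.card (B ⊓ Q : Subgroup G)
  g2 : ∀ B : Subgroup G, (∀ b ∈ B, b * z = z * b ∧ b ^ 3 = 1) →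
    (∀ a ∈ B, ∀ b ∈ B, a * b * a⁻¹ * b⁻¹ ∈ Q) → Nat.card B = 27 * Nat.card (B ⊓ Q : Subgroup G) →
    ∀ v w, (∀ b ∈ B, ρ b v = v) → (∀ b ∈ B, ρ b w = w) → v ≠ 0 → ∃ c : F3, w = c • v

/-- the whole set-up -/
structure St {G X T : Type*} [Group G] [Group X] [Group T] (z : G) (Q : Subgroup G)
    (ω : V →ₗ[F3] V →ₗ[F3] F3) (f : F3 → V → G) (ρ : G → V →ₗ[F3] V) (r : G) (p : cz z →* X)
    (σ : X →* V →ₗ[F3] V) (R : Subgroup X) (ζ : X) (π : X →* T) (P : T → T → Prop) : Prop where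
  cd : Cd z Q ω f ρ
  rz : r * z = z * r
  r2 : r * r = 1
  rf : ∀ c v, r * f c v * r⁻¹ = f c (-v)
  lin : Lin ω σ
  ex : Ex R ζ
  ps : Function.Surjective p
  pρ : ∀ m : cz z, σ (p m) = ρ m
  πs : Function.Surjective π
  πk : ∀ g, π g = 1 ↔ g ∈ R
  tf : TF T P

/-- the data in `C(d)/<d>`: `Q = 3^{1+6}`, `C(z)/Q ≅ Y` -/
structure C6 {H Y : Type*} [Group H] [Group Y] (z : H) (Q : Subgroup H)
    (ω : V →ₗ[F3] V →ₗ[F3] F3) (f : F3 → V → H) (ρ : H → V →ₗ[F3] V) (μ : cz z →* Y)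
    (U : Fin 3 → Submodule F3 V) : Prop where
  cd : Cd z Q ω f ρ
  dimV : Module.finrank F3 V = 6
  μs : Function.Surjective μ
  μk : ∀ m, μ m = 1 ↔ (m : H) ∈ Q
  dim : ∀ k, Module.finrank F3 (U k) = 2
  orth : ∀ k l, k ≠ l → ∀ v ∈ U k, ∀ w ∈ U l, ω v w = 0
  nd : ∀ k, ∀ v ∈ U k, (∀ w ∈ U k, ω v w = 0) → v = 0
  top : U 0 ⊔ U 1 ⊔ U 2 = ⊤
  o3 : pCore 3 Y = ⊥
  o2 : ∀ g : cz z, μ g ∈ pCore 2 Y → ∀ k, (∀ v ∈ U k, ρ g v ∈ U k) ∧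
    (∀ v ∈ U k, ρ (g ^ 4 : cz z) v = v) ∧
    ((∀ v ∈ U k, ρ (g ^ 2 : cz z) v = v) → (∀ v ∈ U k, ρ g v = v) ∨ ∀ v ∈ U k, ρ g v = -v)
  inv : ∀ k, ∃ g : cz z, μ g ∈ pCore 2 Y ∧ (∀ v ∈ U k, ρ g v = -v) ∧
    ∀ l, l ≠ k → ∀ v ∈ U l, ρ g v = v

end

/-- the statement of S3368 -/
def T68 : Prop := ∀ {G : Type u} [Group G] [Finite G]
    (H : Subgroup G) (Q : Subgroup H) (_hQF : Q = Cfsg.generalizedFittingSubgroup H) [_hQn : Q.Normal]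
    (_hQex : Cfsg.IsExtraspecial 3 Q) (_hQcard : Nat.card Q = 3 ^ 7)
    (_hZZ : (Subgroup.center Q).map Q.subtype = Subgroup.center H)
    (P : Subgroup H) (_hP : P = (Cfsg.pCore 2 (H ⧸ Q)).comap (QuotientGroup.mk' Q))
    (_hPcard : Nat.card (Cfsg.pCore 2 (H ⧸ Q)) = 2 ^ 7)
    (Q₁ Q₂ Q₃ : Subgroup H) (_hle : Q₁ ≤ Q ∧ Q₂ ≤ Q ∧ Q₃ ≤ Q)
    (_hZle : Subgroup.center H ≤ Q₁ ∧ Subgroup.center H ≤ Q₂ ∧ Subgroup.center H ≤ Q₃)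
    (_hex : Cfsg.IsExtraspecial 3 Q₁ ∧ Cfsg.IsExtraspecial 3 Q₂ ∧ Cfsg.IsExtraspecial 3 Q₃)
    (_hcard : Nat.card Q₁ = 27 ∧ Nat.card Q₂ = 27 ∧ Nat.card Q₃ = 27)
    (_hcomm : (∀ a ∈ Q₁, ∀ b ∈ Q₂, a * b = b * a) ∧ (∀ a ∈ Q₁, ∀ b ∈ Q₃, a * b = b * a) ∧
      (∀ a ∈ Q₂, ∀ b ∈ Q₃, a * b = b * a))
    (_hprod : Q₁ ⊔ Q₂ ⊔ Q₃ = Q)
    (_hnorm : ∀ x ∈ P, ∀ Qᵢ ∈ [Q₁, Q₂, Q₃], ∀ q ∈ Qᵢ, x * q * x⁻¹ ∈ Qᵢ)
    (_hexp4 : ∀ x ∈ P, ∀ Qᵢ ∈ [Q₁, Q₂, Q₃], ∀ q ∈ Qᵢ, x ^ 4 * q * (x ^ 4)⁻¹ * q⁻¹ ∈ Subgroup.center H)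
    (_hinv : ∀ x ∈ P, ∀ Qᵢ ∈ [Q₁, Q₂, Q₃], (∀ q ∈ Qᵢ, x ^ 2 * q * (x ^ 2)⁻¹ * q⁻¹ ∈ Subgroup.center H) →
      (∀ q ∈ Qᵢ, x * q * x⁻¹ * q⁻¹ ∈ Subgroup.center H) ∨ (∀ q ∈ Qᵢ, x * q * x⁻¹ * q ∈ Subgroup.center H))
    (_hcent : ∀ Qᵢ ∈ [Q₁, Q₂, Q₃], ∃ x ∈ P, (∀ q ∈ Qᵢ, x * q * x⁻¹ * q ∈ Subgroup.center H) ∧
      ∀ Qⱼ ∈ [Q₁, Q₂, Q₃], Qⱼ ≠ Qᵢ → ∀ q ∈ Qⱼ, x * q * x⁻¹ * q⁻¹ ∈ Subgroup.center H)
    (Z : Subgroup G) (_hZ : Z = (Subgroup.center H).map H.subtype)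
    (_hHC : H = Subgroup.centralizer (Z : Set G))
    (S : Sylow 3 G) (_hZS : Z ≤ S) (_hnwc : ¬ Cfsg.IsWeaklyClosed Z S),
    ¬ Cfsg.IsWeaklyClosed Z ((Cfsg.pCore 3 H).map H.subtype) ∧
    (Cfsg.Spor.IsoFi22 G ∨ Nonempty (G ≃* MulAut Cfsg.Spor.Fi22))

/-- the statement of S3337 -/
def T37 : Prop := ∀ {G : Type u} [Group G] [Finite G]
    (H : Subgroup G) (Q : Subgroup H) (_hQF : Q = Cfsg.generalizedFittingSubgroup H) [_hQn : Q.Normal]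
    (_hQex : Cfsg.IsExtraspecial 3 Q) (_hQcard : Nat.card Q = 3 ^ 7)
    (_hZZ : (Subgroup.center Q).map Q.subtype = Subgroup.center H)
    (_eO : Cfsg.pCore 2 (H ⧸ Q) ≃* QuaternionGroup 2 × QuaternionGroup 2 × QuaternionGroup 2)
    (Z : Subgroup G) (_hZ : Z = (Subgroup.center H).map H.subtype)
    (_hHC : H = Subgroup.centralizer (Z : Set G))
    (S : Sylow 3 G) (_hZS : Z ≤ S) (_hnwc : ¬ Cfsg.IsWeaklyClosed Z S),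
    ¬ Cfsg.IsWeaklyClosed Z ((Cfsg.pCore 3 H).map H.subtype) ∧
    ∃ N : Subgroup G, N.Normal ∧
      (∃ (K : Type) (_ : Field K) (_ : Fintype K), Fintype.card K = 4 ∧
        Nonempty (N ≃* Cfsg.Lie.twistedE6 K 2)) ∧
      Subgroup.centralizer (N : Set G) = ⊥ ∧ N.index ∣ 6

end CL.B3
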