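import Cfsg.Agent.SPOR.B3.Defs


/-!
(S2914/S2915): `2^{1+6}` acting faithfully on `F₃^8`.

`Ex.irr`: `R` acts on `End U` by conjugation `φ ↦ σ b ∘ φ ∘ σ b⁻¹`; for `a ∈ R` the restriction of `σ a` to `U`
is a nonzero common eigenvector with character `χ a b = ±1` (`com`, `ζ = -1` on `U`), and `χ a = χ a'` forces
`a⁻¹ a' ∈ {1, ζ}` (`cen`).  Eigenvectors for different characters are independent (`linearIndependent` of
eigenvectors; cf. `E8.li` in `Ln/E87`, or induction on a minimal relation), so `64 ≤ (dim U)²`.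
`neg`: `U = ker (σ ζ + 1)` is invariant and contains `σ ζ v - v`; it is nonzero by `faith`.
`fix4`: for `a = ζ` the space is `⊥`; else take `b ∈ R` with `a b = ζ b a`: `σ b` maps `U` injectively into the
`-1` eigenspace of `σ a`, which meets `U` trivially, so `2 dim U ≤ 8`.
-/

set_option autoImplicit false
open Subgroup Cfsg

namespace CL.B3

variable {X V : Type*} [Group X] [AddCommGroup V] [Module F3 V] {ω : V →ₗ[F3] V →ₗ[F3] F3}
  {σ : X →* V →ₗ[F3] V} {R : Subgroup X} {ζ : X}

namespace Irr

theorem li {W ι κ : Type*} [AddCommGroup W] [Module F3 W] (T : κ → W →ₗ[F3] W) (v : ι → W) (e : ι → κ → F3)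
    (h0 : ∀ i, v i ≠ 0) (hT : ∀ i k, T k (v i) = e i k • v i) (hd : ∀ i j, i ≠ j → ∃ k, e i k ≠ e j k) :
    LinearIndependent F3 v := by
  classical
  refine linearIndependent_iff'.2 fun s => ?_
  induction s using Finset.induction_on with
  | empty => simp
  | insert j s hj ih =>
    intro g hg
    have k1 : ∀ i ∈ s, g i = 0 := fun i hi => by
      obtain ⟨k, hk⟩ := hd i j fun e => hj (e ▸ hi)
      have h1 := congrArg (fun w => T k w - e j k • w) hg
      simp only [map_sum, map_smul, hT, Finset.smul_sum, ← Finset.sum_sub_distrib, smul_smul, ← sub_smul,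
        map_zero, smul_zero, sub_zero] at h1
      rw [Finset.sum_insert hj, mul_comm, sub_self, zero_smul, zero_add] at h1
      have := ih _ h1 i hi
      rw [mul_comm (e j k), ← mul_sub] at this
      exact (mul_eq_zero.1 this).resolve_right (sub_ne_zero.2 hk)
    intro i hi
    rcases Finset.mem_insert.1 hi with rfl | hi
    · rw [Finset.sum_insert hj, Finset.sum_eq_zero (fun l hl => by rw [k1 l hl, zero_smul]), add_zero] at hg
      exact (smul_eq_zero.1 hg).resolve_right (h0 _)
    · exact k1 i hi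

theorem z3 {v : V} (h : v = -v) : v = 0 := by
  have h3 : (3 : F3) • v = 0 := by rw [show (3 : F3) = 0 from rfl, zero_smul]
  have : (3 : F3) • v = v + v + v := by rw [show (3 : F3) = 1 + 1 + 1 from rfl, add_smul, add_smul, one_smul]
  rw [this] at h3
  have h2 : v + v = 0 := by nth_rewrite 1 [h]; exact neg_add_cancel v
  rwa [h2, zero_add] at h3

theorem app (σ : X →* V →ₗ[F3] V) (x y : X) (v : V) : σ (x * y) v = σ x (σ y v) := by
  rw [map_mul]; rfl

theorem app1 (σ : X →* V →ₗ[F3] V) (v : V) : σ 1 v = v := by rw [map_one]; rfl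

theorem inj (σ : X →* V →ₗ[F3] V) (x : X) : Function.Injective (σ x) := fun v w h => by
  rw [← app1 σ v, ← app1 σ w, ← inv_mul_cancel x, app, app, h]

end Irr

open Irr

theorem Ex.irr (E : Ex R ζ) [Module.Finite F3 V] {U : Submodule F3 V} (hU : U ≠ ⊥)
    (hi : ∀ a ∈ R, ∀ v ∈ U, σ a v ∈ U) (hz : ∀ v ∈ U, σ ζ v = -v) : 8 ≤ Module.finrank F3 U := by
  classical
  haveI : Finite R := Nat.finite_of_card_ne_zero (by rw [E.cR]; omega)
  let ρ : R → U →ₗ[F3] U := fun a => (σ a).restrict (hi a a.2)
  have hρ : ∀ (a : R) (v : U), (ρ a v : V) = σ a v := fun _ _ => rfl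
  let Z : Subgroup R := (zpowers ζ).subgroupOf R
  have cZ : Nat.card Z = 2 := by
    rw [Nat.card_congr (subgroupOfEquivOfLe (zpowers_le.2 E.zR)).toEquiv, Nat.card_zpowers]
    exact orderOf_eq_prime (by rw [pow_two, E.z2]) E.z1
  have cq : Nat.card (R ⧸ Z) = 64 := by
    have := card_eq_card_quotient_mul_card_subgroup Z
    rw [E.cR, cZ] at this; omega
  obtain ⟨u, uU, u0⟩ := Submodule.exists_mem_ne_zero_of_ne_bot hU
  have l := li (fun b : R => LinearMap.mulLeftRight F3 (ρ b, ρ b⁻¹)) (fun q : R ⧸ Z => ρ q.out)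
    (fun q b => if (q.out : X) * b = b * q.out then 1 else -1) (fun q e => u0 ?_) (fun q b => ?_) fun q q' ne => ?_
  · haveI := Fintype.ofFinite (R ⧸ Z)
    have := l.fintype_card_le_finrank
    rw [← Nat.card_eq_fintype_card, cq, Module.finrank_linearMap] at this
    by_contra h
    nlinarith
  · apply inj σ (q.out : X)
    rw [map_zero, ← hρ q.out ⟨u, uU⟩, e]; rfl
  · generalize q.out = a
    ext v
    have : ((LinearMap.mulLeftRight F3 (ρ b, ρ b⁻¹) (ρ a)) v : V) = σ ((b : X) * a * (b : X)⁻¹) v := by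
      rw [app, app]; rfl
    rw [this]
    split_ifs with c
    · rw [← c, mul_inv_cancel_right, one_smul, hρ]
    · have k := (E.com b b.2 a a.2).resolve_left fun e => c e.symm
      rw [k, ← mul_assoc, mul_inv_cancel_right, app, hz _ (hi a a.2 _ v.2), neg_smul, one_smul]; rfl
  · by_contra! h
    apply ne
    rw [← q.out_eq', ← q'.out_eq', QuotientGroup.eq, mem_subgroupOf]
    generalize q.out = a at h
    generalize q'.out = a' at h
    have : ∀ b ∈ R, ((a⁻¹ * a' : R) : X) * b = b * (a⁻¹ * a' : R) := fun b hb => by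
      have h1 := h ⟨b, hb⟩
      have ne1 : (1 : F3) ≠ -1 := by decide
      simp only [coe_mul, coe_inv]
      by_cases c : (a : X) * b = b * a <;> by_cases c' : (a' : X) * b = b * a' <;>
        simp only [c, c', if_true, if_false] at h1
      · exact ((show Commute (a : X) b from c).inv_left.mul_left c').eq
      · exact absurd h1 ne1
      · exact absurd h1.symm ne1
      · have k := (E.com a a.2 b hb).resolve_left c
        have k' := (E.com a' a'.2 b hb).resolve_left c'
        rw [mul_assoc, k', inv_mul_eq_iff_eq_mul, ← mul_assoc (a : X), k]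
        simp only [mul_assoc, mul_inv_cancel_left]
    rcases E.cen _ (a⁻¹ * a').2 this with e | e <;> rw [e]
    exacts [one_mem _, mem_zpowers _]

theorem Lin.neg (L : Lin ω σ) (E : Ex R ζ) (v : V) : σ ζ v = -v := by
  haveI : Module.Finite F3 V := Module.finite_of_finrank_pos (by rw [L.dim]; omega)
  have m : ∀ w, w ∈ LinearMap.ker (σ ζ + LinearMap.id) ↔ σ ζ w = -w := fun w => by
    rw [LinearMap.mem_ker, LinearMap.add_apply, LinearMap.id_apply, add_eq_zero_iff_eq_neg]
  have h8 := E.irr (σ := σ) (U := LinearMap.ker (σ ζ + LinearMap.id)) (fun e => E.z1 (L.faith _ fun w => ?_))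
    (fun a _ w hw => ?_) fun w hw => (m w).1 hw
  · have := Submodule.eq_top_of_finrank_eq (le_antisymm (Submodule.finrank_le _) (L.dim ▸ h8))
    exact (m v).1 (this ▸ Submodule.mem_top)
  · have : σ ζ w - w ∈ LinearMap.ker (σ ζ + LinearMap.id) := by
      rw [m, map_sub, ← app, E.z2, app1, neg_sub]
    rw [e, Submodule.mem_bot] at this
    exact sub_eq_zero.1 this
  · rw [m] at hw ⊢
    rw [← app, ← E.zc, app, hw, map_neg]

theorem Lin.fix4 (L : Lin ω σ) (E : Ex R ζ) {a : X} (ha : a ∈ R) (a1 : a ≠ 1) {U : Submodule F3 V}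
    (hU : ∀ v ∈ U, σ a v = v) : Module.finrank F3 U ≤ 4 := by
  haveI : Module.Finite F3 V := Module.finite_of_finrank_pos (by rw [L.dim]; omega)
  by_cases c : ∀ b ∈ R, a * b = b * a
  · obtain rfl := (E.cen a ha c).resolve_left a1
    have : U = ⊥ := (Submodule.eq_bot_iff _).2 fun v hv => z3 ((hU v hv).symm.trans (L.neg E v))
    rw [this, finrank_bot]; omega
  · push Not at c
    obtain ⟨b, hb, c⟩ := c
    have k := (E.com a ha b hb).resolve_left c
    have dj : Disjoint U (U.map (σ b)) := by
      rw [Submodule.disjoint_def]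
      rintro _ h1 ⟨v, hv, rfl⟩
      have := hU _ h1
      rw [← app, k, app, app, hU v hv, L.neg E] at this
      exact z3 this.symm
    have h1 := Submodule.finrank_add_finrank_le_of_disjoint dj
    rw [← (Submodule.equivMapOfInjective _ (inj σ b) U).finrank_eq, L.dim] at h1
    omega

end CL.B3
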