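import Cfsg.Agent.SPOR.B3.Defs
import Cfsg.Agent.SPOR.B3.Irr
import Cfsg.Agent.SPOR.B3.Side

/-!
For S2914/S2915: the eigenspaces of `a = i₁ i₂`, `b = j₁ j₂` and the reflection `d = ± τ`.

Proof.  `σ ζ = -1` (`Lin.neg`); `a² = b² = 1`, `a b = b a`.  `dec`: `c = (1 ± a)(1 ± b) v` (`4 = 1` in `F₃`).
`orth`: `ω v w = ω (a v) (a w) = -ω v w`.  `nd`: `dec` + `orth` + `L.nd`.  `dim`: `i₁` commutes with `a` and
anticommutes with `b`, `j₁` the other way round, so `σ i₁, σ j₁, σ (i₁ j₁)` map `Ev 0` isomorphically onto `Ev 1, 2, 3`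
and `8 = 4 dim (Ev 0)` (direct sum; e.g. a linear equivalence `V ≃ Ev 0 × Ev 0 × Ev 0 × Ev 0`, or halve twice).
`τ` commutes with `i₀, j₀` (`τ0`, `τα`, `αi`), `τ j₁ τ⁻¹ = j₂`, `τ j₂ τ⁻¹ = j₁`, so it commutes with `a, b`.
On the plane `Ev 0` take `e ≠ 0`: `e, i₀ e` is a basis (`i₀² = -1` has no eigenvalue in `F₃`),
`τ e = p e + q i₀ e`, so `τ = p + q i₀` on `Ev 0`; commuting with `j₀` gives `q = 0`; `p = ± 1`.  Choose
`d ∈ {τ, ζ τ}` with `d = -1` on `Ev 0`.  For `v ∈ Ev 0`: `i₂ v = -i₁ v` (`i₂ = i₁⁻¹ a`), so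
`d i₁ v = i₂ d v = i₁ v`; likewise `d j₁ v = j₁ v` and `d i₁ j₁ v = i₂ j₂ d v = -i₂ j₂ v = i₁ j₁ v`
(`i₂ j₂ v = i₂ (-j₁ v) = -j₁ i₂ v = j₁ i₁ v = -i₁ j₁ v`).

`Fm.fix1`: let `wₖ ∈ J` be as in `uJ`, `F₀ = Fix w₀`, `F₁ = F₀ ⊓ Fix w₁`, `F₂ = F₁ ⊓ Fix w₂`.  `σ iₖ` maps
`Fₖ` into `Fₖ₋₁` (`F₋₁ = V`) and `Fₖ ⊓ iₖ Fₖ = ⊥`: such a vector is fixed by `wₖ` and `iₖ wₖ iₖ⁻¹`, so by
`wₖ iₖ wₖ⁻¹ iₖ⁻¹ = jₖ iₖ⁻¹`, whose square is `ζ`.  Hence `dim F₂ ≤ 1`.
-/

set_option autoImplicit false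
open Subgroup Cfsg

namespace CL.B3

variable {X V : Type*} [Group X] [AddCommGroup V] [Module F3 V] {ω : V →ₗ[F3] V →ₗ[F3] F3}
  {σ : X →* V →ₗ[F3] V} {R J : Subgroup X} {ζ α τ : X} {i j : Fin 3 → X}

set_option linter.unusedSimpArgs false

namespace EiA

open Module Submodule

theorem three (v : V) : v + v + v = 0 := by
  rw [← one_smul F3 v, ← add_smul, ← add_smul, show (1 + 1 + 1 : F3) = 0 from rfl, zero_smul]

theorem eq_zero {v : V} (h : v = -v) : v = 0 := by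
  linear_combination (norm := abel1) three v - h

theorem app (g h : X) (v : V) : σ (g * h) v = σ g (σ h v) := by rw [map_mul]; rfl

theorem cm {g h g' h' : X} (e : g * h = h' * g') (v : V) : σ g (σ h v) = σ h' (σ g' v) := by
  rw [← app, e, app]

theorem inj (g : X) : Function.Injective (σ g) := Function.LeftInverse.injective (g := σ g⁻¹) fun v => by
  rw [← app, inv_mul_cancel, map_one]; rfl

theorem m0 {a b : X} {v : V} : v ∈ Ev σ a b 0 ↔ σ a v = v ∧ σ b v = v := by simp [Ev, mem_Eg]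
theorem m1 {a b : X} {v : V} : v ∈ Ev σ a b 1 ↔ σ a v = v ∧ σ b v = -v := by simp [Ev, mem_Eg]
theorem m2 {a b : X} {v : V} : v ∈ Ev σ a b 2 ↔ σ a v = -v ∧ σ b v = v := by simp [Ev, mem_Eg]
theorem m3 {a b : X} {v : V} : v ∈ Ev σ a b 3 ↔ σ a v = -v ∧ σ b v = -v := by simp [Ev, mem_Eg]

theorem four (k : Fin 4) : k = 0 ∨ k = 1 ∨ k = 2 ∨ k = 3 := by revert k; decide

theorem dec {a b : X} (aa : ∀ v, σ a (σ a v) = v) (bb : ∀ v, σ b (σ b v) = v)
    (ab : ∀ v, σ b (σ a v) = σ a (σ b v)) (v : V) :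
    ∃ c : Fin 4 → V, (∀ k, c k ∈ Ev σ a b k) ∧ v = c 0 + c 1 + c 2 + c 3 := by
  refine ⟨![v + σ a v + σ b v + σ a (σ b v), v + σ a v - σ b v - σ a (σ b v),
    v - σ a v + σ b v - σ a (σ b v), v - σ a v - σ b v + σ a (σ b v)], fun k => ?_, ?_⟩
  · obtain rfl | rfl | rfl | rfl := four k
    all_goals
      simp only [m0, m1, m2, m3, Matrix.cons_val, map_add, map_sub, aa, ab, bb]
      constructor <;> abel
  · simp only [Matrix.cons_val]
    linear_combination (norm := abel1) -three v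

theorem orth (L : Lin ω σ) {a b : X} (k l : Fin 4) (h : k ≠ l) :
    ∀ v ∈ Ev σ a b k, ∀ w ∈ Ev σ a b l, ω v w = 0 := fun v hv w hw => by
  have h1 := L.inv a v w
  have h2 := L.inv b v w
  have z : ∀ x : F3, -x = x → x = 0 := by decide
  obtain rfl | rfl | rfl | rfl := four k <;> obtain rfl | rfl | rfl | rfl := four l <;>
    first | exact absurd rfl h | skip
  all_goals
    simp only [m0, m1, m2, m3] at hv hw
    simp only [hv, hw, map_neg, LinearMap.neg_apply, neg_neg] at h1 h2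
    first | exact z _ h1 | exact z _ h2

theorem map_eq {g : X} (gg : ∀ v, σ g (σ g v) = -v) {U U' : Submodule F3 V}
    (h : ∀ v ∈ U, σ g v ∈ U') (h' : ∀ v ∈ U', σ g v ∈ U) : finrank F3 U' = finrank F3 U := by
  rw [show U' = U.map (σ g) from le_antisymm (fun v hv => ⟨_, neg_mem (h' v hv), by
    rw [map_neg, gg, neg_neg]⟩) (by rintro _ ⟨v, hv, rfl⟩; exact h v hv)]
  exact (equivMapOfInjective _ (inj g) U).finrank_eq.symm

theorem plane {U : Submodule F3 V} (d : finrank F3 U = 2) {I J T : V →ₗ[F3] V}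
    (II : ∀ v, I (I v) = -v) (JJ : ∀ v, J (J v) = -v) (JI : ∀ v, J (I v) = -I (J v))
    (TI : ∀ v, T (I v) = I (T v)) (TJ : ∀ v, T (J v) = J (T v)) (hI : ∀ v ∈ U, I v ∈ U)
    (hJ : ∀ v ∈ U, J v ∈ U) (hT : ∀ v ∈ U, T v ∈ U) (T0 : Function.Injective T) :
    (∀ v ∈ U, T v = v) ∨ ∀ v ∈ U, T v = -v := by
  have : Module.Finite F3 U := Module.finite_of_finrank_pos (by omega)
  obtain ⟨e, he, e0⟩ := (Submodule.ne_bot_iff U).1 fun h => by rw [h, finrank_bot] at d; omega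
  have li : LinearIndependent F3 ![e, I e] := LinearIndependent.pair_iff.2 fun p q h => by
    have h1 := congrArg I h
    simp only [map_add, map_smul, II, map_zero] at h1
    have h2 : (p * p + q * q) • e = 0 := by
      linear_combination (norm := module) p • h - q • h1
    exact (by decide : ∀ p q : F3, p * p + q * q = 0 → p = 0 ∧ q = 0) p q
      ((smul_eq_zero.1 h2).resolve_right e0)
  have sp : span F3 {e, I e} = U := eq_of_le_of_finrank_le (span_le.2 (by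
    rintro _ (rfl | rfl); exacts [he, hI e he])) (by
      have := finrank_span_eq_card li
      rw [Matrix.range_cons, Matrix.range_cons, Matrix.range_empty, Set.union_empty] at this
      exact (d.trans this.symm).le)
  obtain ⟨p, q, h⟩ := mem_span_pair.1 (sp.ge (hT e he))
  have k : ∀ v ∈ U, T v = p • v + q • I v := fun v hv => by
    obtain ⟨s, t, rfl⟩ := mem_span_pair.1 (sp.ge hv)
    simp only [map_add, map_smul, TI, ← h]
    module
  have h1 := k _ (hJ e he)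
  rw [TJ, ← h, map_add, map_smul, map_smul, JI] at h1
  have h2 : q • I (J e) = 0 := eq_zero (by linear_combination (norm := module) -h1)
  obtain rfl : q = 0 := (smul_eq_zero.1 h2).resolve_right fun z => e0 (by
    have := congrArg (J ∘ I) z
    simpa [II, JJ] using this)
  rcases (by decide : ∀ p : F3, p = 0 ∨ p = 1 ∨ p = -1) p with rfl | rfl | rfl
  · exact absurd (T0 (by simp [← h])) e0
  · exact .inl fun v hv => by simp [k v hv]
  · exact .inr fun v hv => by simp [k v hv]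

end EiA

open EiA Module Submodule in
theorem exists_ei (L : Lin ω σ) (E : Ex R ζ) (F : Fm R ζ J α τ i j) :
    ∃ d, Ei ω σ ζ τ (i 1 * i 2) (j 1 * j 2) d := by
  have : Module.Finite F3 V := Module.finite_of_finrank_pos (by rw [L.dim]; norm_num)
  have neg := L.neg E
  have II : ∀ k v, σ (i k) (σ (i k) v) = -v := fun k v => by rw [← app, F.ii, neg]
  have JJ : ∀ k v, σ (j k) (σ (j k) v) = -v := fun k v => by rw [← app, F.jj, neg]
  have JI : ∀ k v, σ (j k) (σ (i k) v) = -σ (i k) (σ (j k) v) := fun k v => by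
    rw [← app (i k), F.ij, app, neg, app, neg_neg]
  have i10 := cm (σ := σ) (F.cii 1 0)
  have i20 := cm (σ := σ) (F.cii 2 0)
  have i21 := cm (σ := σ) (F.cii 2 1)
  have j10 := cm (σ := σ) (F.cjj 1 0)
  have j20 := cm (σ := σ) (F.cjj 2 0)
  have j21 := cm (σ := σ) (F.cjj 2 1)
  have a01 := cm (σ := σ) (F.cij 0 1 (by decide)).symm
  have a02 := cm (σ := σ) (F.cij 0 2 (by decide)).symm
  have a12 := cm (σ := σ) (F.cij 1 2 (by decide)).symm
  have a10 := cm (σ := σ) (F.cij 1 0 (by decide))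
  have a20 := cm (σ := σ) (F.cij 2 0 (by decide))
  have a21 := cm (σ := σ) (F.cij 2 1 (by decide))
  have dc := dec (σ := σ) (a := i 1 * i 2) (b := j 1 * j 2)
    (fun v => by simp only [app, i21, II, map_neg, neg_neg])
    (fun v => by simp only [app, j21, JJ, map_neg, neg_neg])
    (fun v => by simp only [app, a12, a21, JI, map_neg, neg_neg])
  have aI : ∀ v, σ (i 1 * i 2) (σ (i 1) v) = σ (i 1) (σ (i 1 * i 2) v) := fun v => by
    simp only [app, i21]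
  have bI : ∀ v, σ (j 1 * j 2) (σ (i 1) v) = -σ (i 1) (σ (j 1 * j 2) v) := fun v => by
    simp only [app, a12, JI]
  have aJ : ∀ v, σ (i 1 * i 2) (σ (j 1) v) = -σ (j 1) (σ (i 1 * i 2) v) := fun v => by
    simp only [app, a21, JI, neg_neg]
  have bJ : ∀ v, σ (j 1 * j 2) (σ (j 1) v) = σ (j 1) (σ (j 1 * j 2) v) := fun v => by
    simp only [app, j21]
  have e01 : ∀ v ∈ Ev σ (i 1 * i 2) (j 1 * j 2) 0, σ (i 1) v ∈ Ev σ (i 1 * i 2) (j 1 * j 2) 1 :=
    fun v hv => by simp only [m0, m1, aI, bI] at hv ⊢; simp only [hv, map_neg, neg_neg, and_self]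
  have e10 : ∀ v ∈ Ev σ (i 1 * i 2) (j 1 * j 2) 1, σ (i 1) v ∈ Ev σ (i 1 * i 2) (j 1 * j 2) 0 :=
    fun v hv => by simp only [m0, m1, aI, bI] at hv ⊢; simp only [hv, map_neg, neg_neg, and_self]
  have e02 : ∀ v ∈ Ev σ (i 1 * i 2) (j 1 * j 2) 0, σ (j 1) v ∈ Ev σ (i 1 * i 2) (j 1 * j 2) 2 :=
    fun v hv => by simp only [m0, m2, aJ, bJ] at hv ⊢; simp only [hv, map_neg, neg_neg, and_self]
  have e20 : ∀ v ∈ Ev σ (i 1 * i 2) (j 1 * j 2) 2, σ (j 1) v ∈ Ev σ (i 1 * i 2) (j 1 * j 2) 0 :=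
    fun v hv => by simp only [m0, m2, aJ, bJ] at hv ⊢; simp only [hv, map_neg, neg_neg, and_self]
  have e23 : ∀ v ∈ Ev σ (i 1 * i 2) (j 1 * j 2) 2, σ (i 1) v ∈ Ev σ (i 1 * i 2) (j 1 * j 2) 3 :=
    fun v hv => by simp only [m2, m3, aI, bI] at hv ⊢; simp only [hv, map_neg, neg_neg, and_self]
  have e32 : ∀ v ∈ Ev σ (i 1 * i 2) (j 1 * j 2) 3, σ (i 1) v ∈ Ev σ (i 1 * i 2) (j 1 * j 2) 2 :=
    fun v hv => by simp only [m2, m3, aI, bI] at hv ⊢; simp only [hv, map_neg, neg_neg, and_self]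
  have d1 := map_eq (II 1) e01 e10
  have d2 := map_eq (JJ 1) e02 e20
  have d3 := map_eq (II 1) e23 e32
  have d0 : finrank F3 (Ev σ (i 1 * i 2) (j 1 * j 2) 0) = 2 := by
    generalize i 1 * i 2 = a at *
    generalize j 1 * j 2 = b at *
    have s1 := finrank_sup_add_finrank_inf_eq (Ev σ a b 0) (Ev σ a b 1)
    have s2 := finrank_sup_add_finrank_inf_eq (Ev σ a b 2) (Ev σ a b 3)
    have s3 := finrank_sup_add_finrank_inf_eq (Ev σ a b 0 ⊔ Ev σ a b 1) (Ev σ a b 2 ⊔ Ev σ a b 3)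
    rw [show Ev σ a b 0 ⊓ Ev σ a b 1 = ⊥ from eq_bot_iff.2 fun v hv =>
      eq_zero ((m0.1 hv.1).2.symm.trans (m1.1 hv.2).2), finrank_bot] at s1
    rw [show Ev σ a b 2 ⊓ Ev σ a b 3 = ⊥ from eq_bot_iff.2 fun v hv =>
      eq_zero ((m2.1 hv.1).2.symm.trans (m3.1 hv.2).2), finrank_bot] at s2
    rw [show (Ev σ a b 0 ⊔ Ev σ a b 1) ⊓ (Ev σ a b 2 ⊔ Ev σ a b 3) = ⊥ from eq_bot_iff.2 fun v hv => by
      obtain ⟨x, hx, y, hy, e⟩ := Submodule.mem_sup.1 hv.1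
      obtain ⟨x', hx', y', hy', e'⟩ := Submodule.mem_sup.1 hv.2
      refine eq_zero ((show σ a v = v by rw [← e, map_add, (m0.1 hx).1, (m1.1 hy).1]).symm.trans ?_)
      rw [← e', map_add, (m2.1 hx').1, (m3.1 hy').1, neg_add], finrank_bot,
      show (Ev σ a b 0 ⊔ Ev σ a b 1) ⊔ (Ev σ a b 2 ⊔ Ev σ a b 3) = ⊤ from eq_top_iff.2 fun v _ => by
        obtain ⟨c, h, rfl⟩ := dc v
        rw [add_assoc]
        exact add_mem_sup (add_mem_sup (h 0) (h 1)) (add_mem_sup (h 2) (h 3)),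
      finrank_top, L.dim] at s3
    omega
  have τj : ∀ k l, τ * i k * τ⁻¹ = i l → τ * j k = j l * τ := fun k l e => by
    rw [← F.αi, ← F.αi, ← e]
    calc _ = τ * α * i k * τ⁻¹ * (α⁻¹ * (α * τ) * α⁻¹) := by group
      _ = _ := by rw [F.τα]; nth_rw 2 [← F.τα]; group
  have key : ∀ d, (d = τ ∨ d = ζ * τ) → (∀ v ∈ Ev σ (i 1 * i 2) (j 1 * j 2) 0, σ d v = -v) →
      (∀ v, σ d (σ (i 1) v) = σ (i 2) (σ d v)) → (∀ v, σ d (σ (j 1) v) = σ (j 2) (σ d v)) →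
      Ei ω σ ζ τ (i 1 * i 2) (j 1 * j 2) d := fun d h1 h2 h3 h4 => by
    have k : ∀ v ∈ Ev σ (i 1 * i 2) (j 1 * j 2) 0, σ (i 2) v = -σ (i 1) v ∧ σ (j 2) v = -σ (j 1) v :=
      fun v hv => ⟨by rw [← congrArg (σ (i 1)) (m0.1 hv).1, app, II, neg_neg],
        by rw [← congrArg (σ (j 1)) (m0.1 hv).2, app, JJ, neg_neg]⟩
    refine ⟨neg, h1, fun k => ?_, orth L, fun k v hv h => L.nd v fun w => ?_, dc, h2,
      fun l hl v hv => neg_injective ?_⟩
    · obtain rfl | rfl | rfl | rfl := four k <;> omega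
    · obtain ⟨c, hc, rfl⟩ := dc w
      have : ∀ l, ω v (c l) = 0 := fun l => by
        rcases eq_or_ne k l with rfl | e
        exacts [h _ (hc k), orth L k l e v hv _ (hc l)]
      simp [this]
    · rw [← map_neg]
      obtain rfl | rfl | rfl | rfl := four l
      · exact absurd rfl hl
      · rw [← II 1, h3, h2 _ (e10 v hv), map_neg, (k _ (e10 v hv)).1, neg_neg]
      · rw [← JJ 1, h4, h2 _ (e20 v hv), map_neg, (k _ (e20 v hv)).2, neg_neg]
      · have m := e20 _ (e32 v hv)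
        rw [← II 1, ← neg_neg (σ (i 1) v), ← JJ 1 (σ (i 1) v)]
        generalize σ (j 1) (σ (i 1) v) = u at m
        simp only [map_neg, h3, h4, h2 u m, (k u m).2, a21, (k u m).1, JI, neg_neg]
  have t0 := cm (σ := σ) (mul_inv_eq_iff_eq_mul.1 F.τ0)
  have t1 := cm (σ := σ) (mul_inv_eq_iff_eq_mul.1 F.τ1)
  have t2 := cm (σ := σ) (mul_inv_eq_iff_eq_mul.1 F.τ2)
  have u0 := cm (σ := σ) (τj _ _ F.τ0)
  have u1 := cm (σ := σ) (τj _ _ F.τ1)
  have u2 := cm (σ := σ) (τj _ _ F.τ2)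
  rcases plane d0 (II 0) (JJ 0) (JI 0) t0 u0
    (fun v hv => by
      simp only [m0, app] at hv ⊢; simp only [i10, i20, a01, a02, hv, and_self])
    (fun v hv => by
      simp only [m0, app] at hv ⊢; simp only [j10, j20, a10, a20, hv, and_self])
    (fun v hv => by
      simp only [m0, app] at hv ⊢
      rw [← i21, ← j21, ← t2, ← t1, ← u2, ← u1, hv.1, hv.2]
      exact ⟨rfl, rfl⟩) (inj τ) with h | h
  · exact ⟨_, key _ (.inr rfl) (fun v hv => by rw [app, neg, h v hv])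
      (fun v => by simp only [app, neg, t1, map_neg]) fun v => by simp only [app, neg, u1, map_neg]⟩
  · exact ⟨_, key _ (.inl rfl) h t1 u1⟩

open EiA Module Submodule in
theorem Fm.fix1 (F : Fm R ζ J α τ i j) (L : Lin ω σ) (E : Ex R ζ) {v w : V}
    (hv : ∀ g ∈ J, σ g v = v) (hw : ∀ g ∈ J, σ g w = w) (v0 : v ≠ 0) : ∃ c : F3, w = c • v := by
  have : Module.Finite F3 V := Module.finite_of_finrank_pos (by rw [L.dim]; norm_num)
  have neg := L.neg E
  choose u uJ h1 h2 using F.uJ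
  have st : ∀ k, ∀ U : Submodule F3 V, (∀ v ∈ U, σ (i k) v ∈ U) →
      2 * finrank F3 (U ⊓ LinearMap.eqLocus (σ (u k)) LinearMap.id : Submodule F3 V) ≤
        finrank F3 U := fun k U hU => by
    have := Sd.sum_le (A := U ⊓ LinearMap.eqLocus (σ (u k)) LinearMap.id) (B := (U ⊓
      LinearMap.eqLocus (σ (u k)) LinearMap.id).map (σ (i k))) (C := U) (eq_bot_iff.2 (by
        rintro _ ⟨⟨-, h3⟩, x, ⟨-, h4⟩, rfl⟩
        have h5 : σ (j k) x = σ (i k) x := by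
          rw [← show σ (u k) (σ (i k) x) = σ (i k) x from h3, cm (mul_inv_eq_iff_eq_mul.1 (h1 k)),
            show σ (u k) x = x from h4]
        have h6 := cm (σ := σ) (F.ij k) x
        rw [h5, ← app, F.ii, neg, neg, app, ← h5, ← app, F.jj, neg] at h6
        have h7 : x = 0 := eq_zero (neg_injective h6)
        rw [h7, map_zero]
        exact zero_mem _)) inf_le_left (by rintro _ ⟨x, hx, rfl⟩; exact hU x hx.1)
    rw [← (Submodule.equivMapOfInjective _ (inj (i k)) _).finrank_eq] at this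
    omega
  have c : ∀ k l, l ≠ k → ∀ v, σ (u k) v = v → σ (u k) (σ (i l) v) = σ (i l) v := fun k l h v e => by
    rw [cm (h2 k l h).1, e]
  have s0 := st 0 ⊤ fun _ _ => trivial
  have s1 := st 1 (⊤ ⊓ LinearMap.eqLocus (σ (u 0)) LinearMap.id) fun v hv =>
    ⟨trivial, c 0 1 (by decide) v hv.2⟩
  have s2 := st 2 (⊤ ⊓ LinearMap.eqLocus (σ (u 0)) LinearMap.id ⊓
    LinearMap.eqLocus (σ (u 1)) LinearMap.id) fun v hv =>
      ⟨⟨trivial, c 0 2 (by decide) v hv.1.2⟩, c 1 2 (by decide) v hv.2⟩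
  rw [finrank_top, L.dim] at s0
  obtain ⟨e, he⟩ := finrank_le_one_iff.1 (show finrank F3 (⊤ ⊓ LinearMap.eqLocus (σ (u 0)) LinearMap.id ⊓
    LinearMap.eqLocus (σ (u 1)) LinearMap.id ⊓ LinearMap.eqLocus (σ (u 2)) LinearMap.id :
      Submodule F3 V) ≤ 1 by omega)
  obtain ⟨p, hp⟩ := he ⟨v, ⟨⟨trivial, hv _ (uJ 0)⟩, hv _ (uJ 1)⟩, hv _ (uJ 2)⟩
  obtain ⟨q, hq⟩ := he ⟨w, ⟨⟨trivial, hw _ (uJ 0)⟩, hw _ (uJ 1)⟩, hw _ (uJ 2)⟩
  obtain rfl : p • (e : V) = v := congrArg Subtype.val hp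
  obtain rfl : q • (e : V) = w := congrArg Subtype.val hq
  have p0 : p ≠ 0 := fun z => v0 (by rw [z, zero_smul])
  exact ⟨q * p⁻¹, by rw [smul_smul, mul_assoc, inv_mul_cancel₀ p0, mul_one]⟩

end CL.B3
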