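import Cfsg.Agent.SPOR.B3.FmA

/-!
For S2914/S2915: the frame `R = R₀ R₁ R₂` (`Rₖ ≅ Q₈`) adapted to `J ≅ 3^3`.
Extra files `SPOR/B3/Fm<Name>.lean` are fine.

Proof.  `α, β ∈ J` are the lifts of `x, y`, `γ` any lift of `u`.  `W = R/<ζ>` is elementary abelian of order 64
(`com`, `sq`; e.g. `CL.ES.ZData 2 R ⟨ζ,_⟩`, `.V`, `.pr`, `.B`), `X` acts on `W` by conjugation, `R` trivially.
0. `g ∈ X` trivial on `W` lies in `R` (`LX.ES.exists_inner` and `sc`); an element of `J` in `R` is `1`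
   (`g^3 = 1 = g^4`).  If `g^3 = 1` and `g a g⁻¹ ∈ {a, ζ a}` then `g a g⁻¹ = a`.
1. For `g^3 = 1` put `s g = 1 + g + g²` on `W` (idempotent onto the fixed space).  With `A, B` the commuting
   actions of `α, β`: `s A + s B + s (B A) + s (B A²) = 1 + s A * s B` (char 2).  Let `W' = ker (s A) ≠ 0`
   (0), `Wₖ = W' ⊓ Fix (B A^k)`, `k = 0,1,2`.  On `W'`: `1 = s B + s (B A) + s (B A²)`, and `s (B A^k)` kills
   `Wₗ` for `l ≠ k` (there `B A^k = A^(k-l)`).  `γ` commutes with `A` and conjugates `B` to `A⁻¹ B` on `W`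
   (`yu`, `xu`), so it permutes the `Wₖ` cyclically: all are nonzero.  Take `0 ≠ wₖ ∈ Wₖ`: `wₖ, A wₖ` are
   independent, `A² wₖ = wₖ + A wₖ`, and the six vectors are independent (idempotents), hence a basis
   (`|W| = 64`).  So `W' = W`, `Wₖ = {0, wₖ, A wₖ, wₖ + A wₖ}`, `C_R(α) = {1, ζ}`.
2. `Wₖ ⊥ Wₗ` for the commutator form `B`: with `g = β α^k`, `B(a,b) = B(a, g b) = B(a, g² b)`, so
   `3 B(a,b) = B(a, s g b) = 0`.  Lift `wₖ` to `iₖ`, `jₖ = α iₖ α⁻¹`.  `iₖ, jₖ` do not commute (else `iₖ` is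
   central), `iₖ² = ζ` (else `iₖ, jₖ, α jₖ α⁻¹ = ± iₖ jₖ` are involutions and `iₖ, jₖ` commute).  Replacing `iₖ` by
   `ζ iₖ` if necessary, `α jₖ α⁻¹ = iₖ jₖ`.
3. `τ`: for a lift `τ₀` of `t`, `τ₀ α τ₀⁻¹ = c α`, `c ∈ R`, has order 3.  `a ↦ a α a⁻¹ α⁻¹` is a bijection of `W`,
   so `c α` is `R`-conjugate to `α` or `ζ α` (order 6): some `τ = a τ₀` commutes with `α`.  `τ² ∈ C_R(α)`.
   `τ` fixes `W₀` (`ty`), swaps `W₁, W₂`; it commutes with `A`, so on `W₀` it acts as a power of `A`, of order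
   dividing 2: trivially; `τ i₀ τ⁻¹ = ζ i₀` would give `τ j₀ τ⁻¹ = ζ j₀`, `τ (i₀ j₀) τ⁻¹ = i₀ j₀`, against
   `i₀ j₀ = α² i₀ α⁻²`.  Redefine `i₂ = τ i₁ τ⁻¹`.  `τJ`: `τ g τ⁻¹ = c g'`, `g' ∈ J` (`tJ`), `c ∈ C_R(α)`, order 3.
4. `uJ`: `g ∈ J` acts on `Wₖ` as `A^(m k)`; `g ↦ m` is an injective map `J → (Fin 3 → Fin 3)` (0), so
   bijective; take `m = eₖ` and use 0 for `w α⁻¹` resp. `w`.
-/

set_option autoImplicit false
open Subgroup Cfsg

namespace CL.B3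

namespace FmA

variable {X W : Type*} [Group X] [AddCommGroup W] {R J : Subgroup X} {ζ α β τ : X} {q : X → W}
  {ρ : X →* AddMonoid.End W}

theorem fix3 (E : Ex R ζ) {g a : X} (g3 : g ^ 3 = 1) (h : g * a * g⁻¹ = a ∨ g * a * g⁻¹ = ζ * a) :
    g * a * g⁻¹ = a := h.resolve_right fun e => E.z1 (by
  have k : ∀ b, g * (ζ * b) * g⁻¹ = ζ * (g * b * g⁻¹) := fun b => by
    rw [← mul_assoc, E.zc]; group
  have : g ^ 3 * a * (g ^ 3)⁻¹ = g * (g * (g * a * g⁻¹) * g⁻¹) * g⁻¹ := by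
    simp only [pow_succ, pow_zero]; group
  rw [g3, one_mul, e, k, e, ← mul_assoc ζ, E.z2, one_mul, e] at this
  simpa using this)

theorem one_of_cube (E : Ex R ζ) {c g : X} (hc : c = 1 ∨ c = ζ) (g3 : g ^ 3 = 1)
    (h : (c * g) ^ 3 = 1) : c = 1 := hc.resolve_right fun e => E.z1 (by
  rwa [e, Commute.mul_pow (E.zc g).symm, g3, mul_one, pow_succ, sq, E.z2, one_mul] at h)

/-- the data of the two commuting elements -/
structure Dt (R J : Subgroup X) (ζ α β : X) (q : X → W) (ρ : X →* AddMonoid.End W) : Prop where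
  E : Ex R ζ
  V : WW R ζ q ρ
  hJ : E27 J
  αJ : α ∈ J
  βJ : β ∈ J
  ex : ∀ k < 3, ∃ w ≠ 0, Wk (ρ α) (ρ β) k w

/-- good elements -/
structure Gd (R : Subgroup X) (ζ α β : X) (k : ℕ) (a : X) : Prop where
  mem : a ∈ R
  cm : β * α ^ k * a * (β * α ^ k)⁻¹ = a
  ne : ¬ (a = 1 ∨ a = ζ)

theorem WW.one (V : WW R ζ q ρ) : q 1 = 0 := by
  have := V.mul 1 (one_mem _) 1 (one_mem _)
  rwa [mul_one, V.two] at this

theorem WW.zero (V : WW R ζ q ρ) {a : X} (ha : a ∈ R) : q a = 0 ↔ a = 1 ∨ a = ζ := by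
  rw [← V.one, V.eq a ha 1 (one_mem _), mul_one]

theorem WW.cube (_ : WW R ζ q ρ) {g : X} (g3 : g ^ 3 = 1) (w : W) : ρ g (ρ g (ρ g w)) = w := by
  rw [← mul_app, ← mul_app, ← map_mul, ← map_mul, ← sq, ← pow_succ, g3, map_one]; rfl

theorem WW.triv (V : WW R ζ q ρ) (E : Ex R ζ) {r : X} (hr : r ∈ R) (w : W) : ρ r w = w := by
  obtain ⟨a, ha, rfl⟩ := V.surj w
  rw [V.act _ _ ha, V.eq _ (E.nR.conj_mem a ha r) _ ha, mul_inv_eq_iff_eq_mul, mul_inv_eq_iff_eq_mul,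
    mul_assoc]
  exact E.com r hr a ha

theorem WW.pow (V : WW R ζ q ρ) {a : X} (ha : a ∈ R) (n : ℕ) : q (a ^ n) = n • q a := by
  induction n with
  | zero => simp [V.one]
  | succ n ih => rw [pow_succ, V.mul _ (pow_mem ha n) _ ha, ih, succ_nsmul]

namespace Dt

variable (D : Dt R J ζ α β q ρ)
include D

theorem cj {a : X} (ha : a ∈ R) (g : X) : g * a * g⁻¹ ∈ R := D.E.nR.conj_mem a ha g

theorem A3 (w : W) : ρ α (ρ α (ρ α w)) = w := D.V.cube (D.hJ.exp _ D.αJ) w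

theorem AB (w : W) : ρ α (ρ β w) = ρ β (ρ α w) := by
  rw [← mul_app, ← map_mul, D.hJ.comm _ D.αJ _ D.βJ, map_mul, mul_app]

theorem all (w : W) : w + ρ α w + ρ α (ρ α w) = 0 := by
  choose f h0 h using fun k : Fin 3 => D.ex k k.2
  obtain ⟨a0, b0, a1, b1, a2, b2, rfl⟩ := span D.V.two D.A3 D.AB D.V.card h0 h w
  have k0 := ((h 0).comb D.AB a0 b0).1
  have k1 := ((h 1).comb D.AB a1 b1).1
  have k2 := ((h 2).comb D.AB a2 b2).1
  generalize a0.val • f 0 + b0.val • ρ α (f 0) = x at *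
  generalize a1.val • f 1 + b1.val • ρ α (f 1) = y at *
  generalize a2.val • f 2 + b2.val • ρ α (f 2) = z at *
  simp only [map_add]
  linear_combination (norm := abel1) k0 + k1 + k2

theorem cenα {a : X} (ha : a ∈ R) (c : α * a = a * α) : a = 1 ∨ a = ζ := by
  rw [← D.V.zero ha]
  by_contra h
  exact ne_A D.V.two h (D.all _) (by rw [D.V.act _ _ ha, c, mul_inv_cancel_right])

theorem wk {k : ℕ} {a : X} (ha : a ∈ R) :
    Wk (ρ α) (ρ β) k (q a) ↔ β * α ^ k * a * (β * α ^ k)⁻¹ = a := by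
  have e : ρ β ((ρ α ^ k) (q a)) = q (β * α ^ k * a * (β * α ^ k)⁻¹) := by
    rw [← D.V.act _ _ ha, map_mul, map_pow, mul_app]
  refine ⟨fun h => fix3 D.E (D.hJ.exp _ (mul_mem D.βJ (pow_mem D.αJ k))) ?_,
    fun h => ⟨D.all _, by rw [e, h]⟩⟩
  rw [← D.V.eq _ (D.cj ha _) _ ha, ← e, h.2]

theorem gd_cj {k : ℕ} {a g : X} (h : Gd R ζ α β k a) (hg : g ∈ J) : Gd R ζ α β k (g * a * g⁻¹) := by
  refine ⟨D.cj h.mem g, ?_, ?_⟩
  · have c := D.hJ.comm _ (mul_mem D.βJ (pow_mem D.αJ k)) g hg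
    have e := h.cm
    generalize β * α ^ k = s at c e ⊢
    calc _ = s * g * a * (s * g)⁻¹ := by group
      _ = g * (s * a * s⁻¹) * g⁻¹ := by rw [c]; group
      _ = _ := by rw [e]
  · rintro (e | e)
    · exact h.ne (.inl (by simpa using e))
    · exact h.ne (.inr ((MulAut.conj g).injective (e.trans (mul_inv_eq_iff_eq_mul.2 (D.E.zc g)).symm)))

theorem exists_gd {k : ℕ} (hk : k < 3) : ∃ a, Gd R ζ α β k a ∧
    α * (α * a * α⁻¹) * α⁻¹ = a * (α * a * α⁻¹) := by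
  obtain ⟨w, h0, h⟩ := D.ex k hk
  obtain ⟨a, ha, rfl⟩ := D.V.surj w
  have g : Gd R ζ α β k a := ⟨ha, (D.wk ha).1 h, mt (D.V.zero ha).2 h0⟩
  rcases (D.V.eq _ (D.cj (D.cj ha α) α) _ (mul_mem ha (D.cj ha α))).1 (by
    rw [D.V.mul _ ha _ (D.cj ha α), ← D.V.act _ _ (D.cj ha α), ← D.V.act _ _ ha]
    linear_combination (norm := abel1) h.1 - D.V.two (q a) - D.V.two (ρ α (q a))) with e | e
  · exact ⟨a, g, e⟩
  have k1 : ∀ g b : X, g * (ζ * b) * g⁻¹ = ζ * (g * b * g⁻¹) := fun g b => by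
    rw [← mul_assoc, D.E.zc]; group
  refine ⟨ζ * a, ⟨mul_mem D.E.zR ha, by rw [k1, g.cm], ?_⟩, ?_⟩
  · rintro (e | e)
    · exact g.ne (.inr (by rw [← mul_one ζ, ← e, ← mul_assoc, D.E.z2, one_mul]))
    · exact g.ne (.inl (by simpa using e))
  · rw [k1, k1, e, mul_assoc ζ a, ← mul_assoc a ζ, D.E.zc a, mul_assoc ζ a]

theorem three {k : ℕ} (hk : k < 3) {a b : X} (ha : Gd R ζ α β k a) (hb : Gd R ζ α β k b) :
    ∃ m : Fin 3, q b = q (α ^ m.val * a * (α ^ m.val)⁻¹) := by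
  obtain ⟨k, rfl⟩ : ∃ l : Fin 3, l.val = k := ⟨⟨k, hk⟩, rfl⟩
  choose f h0 h using fun k : Fin 3 => D.ex k k.2
  have h0' : ∀ l, Function.update f k (q a) l ≠ 0 := fun l => by
    rcases eq_or_ne l k with rfl | e
    exacts [by simpa using mt (D.V.zero ha.mem).1 ha.ne, by simpa [e] using h0 l]
  have h' : ∀ l : Fin 3, Wk (ρ α) (ρ β) l (Function.update f k (q a) l) := fun l => by
    rcases eq_or_ne l k with rfl | e
    exacts [by simpa using (D.wk ha.mem).2 ha.cm, by simpa [e] using h l]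
  obtain ⟨c, d, e⟩ : ∃ c d : Fin 2, q b = c.val • q a + d.val • ρ α (q a) := by
    obtain ⟨a0, b0, a1, b1, a2, b2, e⟩ := span D.V.two D.A3 D.AB D.V.card h0' h' (q b)
    have e' := congrArg (pj (ρ α) (ρ β) k) e
    rw [pj_self D.V.two ((D.wk hb.mem).2 hb.cm).2, map_add, map_add] at e'
    have s := fun l (a b : ℕ) => pj_self D.V.two ((h' l).comb D.AB a b).2
    have n := fun l (hl : k ≠ l) (a b : ℕ) => pj_ne D.A3 D.AB hl ((h' l).comb D.AB a b)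
    obtain rfl | rfl | rfl : k = 0 ∨ k = 1 ∨ k = 2 := (by decide : ∀ k : Fin 3, k = 0 ∨ k = 1 ∨ k = 2) k
    · exact ⟨a0, b0, by rw [e', s 0, n 1 (by decide), n 2 (by decide)]; simp⟩
    · exact ⟨a1, b1, by rw [e', s 1, n 0 (by decide), n 2 (by decide)]; simp⟩
    · exact ⟨a2, b2, by rw [e', s 2, n 0 (by decide), n 1 (by decide)]; simp⟩
  simp only [← D.V.act _ _ ha.mem, map_pow]
  fin_cases c <;> fin_cases d
  · exact absurd ((D.V.zero hb.mem).1 (by simpa using e)) hb.ne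
  · exact ⟨1, by simpa using e⟩
  · exact ⟨0, by simpa using e⟩
  · refine ⟨2, ?_⟩
    have e : q b = q a + ρ α (q a) := by simpa using e
    simp only [Fin.val_two, sq, mul_app]
    linear_combination (norm := abel1) e + D.all (q a) - D.V.two (ρ α (ρ α (q a)))

theorem orth {k l : Fin 3} (hk : k ≠ l) {a b : X} (ha : Gd R ζ α β k a) (hb : Gd R ζ α β l b) :
    a * b = b * a := by
  have h := pj_ne D.A3 D.AB hk ((D.wk hb.mem).2 hb.cm)
  have c := ha.cm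
  rw [pj_apply, ← mul_app, ← mul_app (ρ β), ← map_pow, ← map_mul] at h
  generalize β * α ^ k.val = g at h c
  have m1 := D.cj hb.mem g
  have m2 := D.cj m1 g
  rw [D.V.act _ _ hb.mem, D.V.act _ _ m1, ← D.V.mul _ hb.mem _ m1,
    ← D.V.mul _ (mul_mem hb.mem m1) _ m2, D.V.zero (mul_mem (mul_mem hb.mem m1) m2)] at h
  refine (D.E.com a ha.mem b hb.mem).resolve_right fun e => D.E.z1 ?_
  have k : ∀ b, a * b = ζ * (b * a) → a * (g * b * g⁻¹) = ζ * (g * b * g⁻¹ * a) := fun b e => by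
    conv_lhs => rw [← c, conj_mul, e, ← mul_assoc, D.E.zc, mul_assoc ζ, mul_assoc ζ, ← conj_mul, c]
  have e1 := k b e
  have e2 := k _ e1
  generalize g * (g * b * g⁻¹) * g⁻¹ = b2 at *
  generalize g * b * g⁻¹ = b1 at *
  have e3 : a * (b * b1 * b2) = ζ * (b * b1 * b2 * a) := by
    calc a * (b * b1 * b2) = a * b * b1 * b2 := by group
      _ = ζ * b * (a * b1) * b2 := by rw [e]; group
      _ = ζ * (b * ζ) * b1 * (a * b2) := by rw [e1]; group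
      _ = ζ * ζ * b * (b1 * ζ) * b2 * a := by rw [e2, D.E.zc b]; group
      _ = (b * ζ) * b1 * b2 * a := by rw [D.E.z2, D.E.zc b1]; group
      _ = _ := by rw [D.E.zc b]; group
  rcases h with h | h <;> rw [h] at e3
  · simpa using e3
  · rw [D.E.zc] at e3; simpa using e3

variable {i : Fin 3 → X} (hi : ∀ k : Fin 3, Gd R ζ α β k (i k))
include hi

theorem gen {a : X} (ha : a ∈ R) : ∃ e a0 b0 a1 b1 a2 b2 : Fin 2, a = ζ ^ e.val *
    (i 0 ^ a0.val * (α * i 0 * α⁻¹) ^ b0.val) * (i 1 ^ a1.val * (α * i 1 * α⁻¹) ^ b1.val) *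
    (i 2 ^ a2.val * (α * i 2 * α⁻¹) ^ b2.val) := by
  obtain ⟨a0, b0, a1, b1, a2, b2, e⟩ := span D.V.two D.A3 D.AB D.V.card (w := fun k => q (i k))
    (fun k => mt (D.V.zero (hi k).mem).1 (hi k).ne) (fun k => (D.wk (hi k).mem).2 (hi k).cm) (q a)
  have m : ∀ k (a b : ℕ), i k ^ a * (α * i k * α⁻¹) ^ b ∈ R := fun k a b =>
    mul_mem (pow_mem (hi k).mem a) (pow_mem (D.cj (hi k).mem α) b)
  have k : ∀ k (a b : ℕ), a • q (i k) + b • ρ α (q (i k)) = q (i k ^ a * (α * i k * α⁻¹) ^ b) :=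
    fun k a b => by
      rw [D.V.mul _ (pow_mem (hi k).mem a) _ (pow_mem (D.cj (hi k).mem α) b), D.V.pow (hi k).mem,
        D.V.pow (D.cj (hi k).mem α), D.V.act _ _ (hi k).mem]
  rw [k, k, k, ← D.V.mul _ (m _ _ _) _ (m _ _ _), ← D.V.mul _ (mul_mem (m _ _ _) (m _ _ _)) _ (m _ _ _),
    D.V.eq _ ha _ (mul_mem (mul_mem (m _ _ _) (m _ _ _)) (m _ _ _))] at e
  rcases e with e | e
  exacts [⟨0, a0, b0, a1, b1, a2, b2, by rw [e]; simp⟩,
    ⟨1, a0, b0, a1, b1, a2, b2, by rw [e]; simp [mul_assoc]⟩]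

theorem cm_all {g : X} (h1 : ∀ k, Commute g (i k)) (h2 : ∀ k, Commute g (α * i k * α⁻¹)) :
    ∀ a ∈ R, g * a = a * g := fun a ha => by
  obtain ⟨e, a0, b0, a1, b1, a2, b2, rfl⟩ := D.gen hi ha
  have k := fun k (a b : ℕ) => ((h1 k).pow_right a).mul_right ((h2 k).pow_right b)
  exact ((((show Commute g ζ from D.E.zc g).pow_right _).mul_right (k _ _ _)).mul_right
    (k _ _ _)).mul_right (k _ _ _)

theorem ij (k : Fin 3) : i k * (α * i k * α⁻¹) = ζ * (α * i k * α⁻¹ * i k) :=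
  (D.E.com _ (hi k).mem _ (D.cj (hi k).mem α)).resolve_left fun e =>
    (hi k).ne (D.E.cen _ (hi k).mem (D.cm_all hi (fun l => by
      rcases eq_or_ne k l with rfl | n
      exacts [rfl, D.orth n (hi k) (hi l)]) fun l => by
      rcases eq_or_ne k l with rfl | n
      exacts [e, D.orth n (hi k) (D.gd_cj (hi l) D.αJ)]))

theorem uJ [Finite X] (k : Fin 3) : ∃ w ∈ J, w * i k * w⁻¹ = α * i k * α⁻¹ ∧ ∀ l, l ≠ k →
    w * i l = i l * w ∧ w * (α * i l * α⁻¹) = α * i l * α⁻¹ * w := by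
  have cα : ∀ {g a : X}, g ∈ J → Commute g a → Commute g (α * a * α⁻¹) := fun hg c =>
    ((show Commute _ α from D.hJ.comm _ hg _ D.αJ).mul_right c).mul_right
      (show Commute _ α from D.hJ.comm _ hg _ D.αJ).inv_right
  have ex : ∀ g : J, ∀ k : Fin 3, ∃ m : Fin 3,
      g * i k * (g : X)⁻¹ = α ^ m.val * i k * (α ^ m.val)⁻¹ := fun g k => by
    obtain ⟨m, e⟩ := D.three k.2 (hi k) (D.gd_cj (hi k) g.2)
    have e' := congrArg (ρ (α ^ m.val)⁻¹) e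
    rw [D.V.act _ _ (D.cj (hi k).mem _), D.V.act _ _ (D.cj (hi k).mem _), D.V.eq _
      (D.cj (D.cj (hi k).mem _) _) _ (D.cj (D.cj (hi k).mem _) _)] at e'
    have := fix3 D.E (D.hJ.exp _ (mul_mem (inv_mem (pow_mem D.αJ m)) g.2)) (a := i k)
      (by simpa [mul_assoc] using e')
    refine ⟨m, ?_⟩
    conv_rhs => rw [← this]
    group
  choose m hm using ex
  have inj : Function.Injective m := fun g h e => by
    have c : ∀ k, Commute ((h : X)⁻¹ * g) (i k) := fun k => mul_inv_eq_iff_eq_mul.1 (by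
      have := hm g k
      rw [e, ← hm h k] at this
      calc _ = (h : X)⁻¹ * (g * i k * (g : X)⁻¹) * h := by group
        _ = _ := by rw [this]; group)
    have mJ := mul_mem (inv_mem h.2) g.2
    have mR := D.E.sc _ (D.cm_all hi c fun k => cα mJ (c k))
    have := one_of_cube D.E (D.cenα mR (D.hJ.comm _ D.αJ _ mJ)) (one_pow 3)
      (by rw [mul_one]; exact D.hJ.exp _ mJ)
    exact Subtype.ext (inv_mul_eq_one.1 this).symm
  obtain ⟨w, hw⟩ := (inj.bijective_of_nat_card_le (by simp [D.hJ.card])).2 (Pi.single k 1)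
  refine ⟨w, w.2, by simpa [hw] using hm w k, fun l hl => ?_⟩
  have c : Commute (w : X) (i l) := mul_inv_eq_iff_eq_mul.1 (by simpa [hw, hl] using hm w l)
  exact ⟨c, cα w.2 c⟩

end Dt

end FmA

open FmA in
theorem exists_fm {X T : Type*} [Group X] [Finite X] [Group T] {R : Subgroup X} {ζ : X} (E : Ex R ζ)
    {π : X →* T} (πs : Function.Surjective π) (πk : ∀ g, π g = 1 ↔ g ∈ R) {J : Subgroup X}
    (hJ : E27 J) {x y u t : T} (F : Fr (J.map π) x y u t) :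
    ∃ α τ i j, Fm R ζ J α τ i j ∧ π α = x ∧ π τ = t := by
  obtain ⟨W, _, q, ρ, V⟩ := exists_W E
  obtain ⟨α, αJ, rfl⟩ := F.xJ
  obtain ⟨β, βJ, rfl⟩ := F.yJ
  obtain ⟨γ, rfl⟩ := πs u
  obtain ⟨τ₀, rfl⟩ := πs t
  have α3 := hJ.exp α αJ
  have pe : ∀ {g h : X}, π g = π h → g * h⁻¹ ∈ R := fun e => (πk _).1 (by simp [e])
  have re : ∀ {g h : X}, π g = π h → ∀ w, ρ g w = ρ h w := fun {g h} e w => by
    rw [← V.triv E (pe e) (ρ h w), ← mul_app, ← map_mul, inv_mul_cancel_right]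
  have D : Dt R J ζ α β q ρ := by
    obtain ⟨v, hv⟩ : ∃ v, ρ α v ≠ v := by
      by_contra! h
      refine F.x1 ((πk α).2 (E.sc α fun a ha => mul_inv_eq_iff_eq_mul.1 (fix3 E α3 ?_)))
      rw [← V.eq _ (E.nR.conj_mem a ha α) _ ha, ← V.act _ _ ha, h]
    refine ⟨E, V, hJ, αJ, βJ, ex_all V.two (V.cube α3) (V.cube (hJ.exp β βJ)) (fun w => ?_)
      (C := ρ γ) (Function.LeftInverse.injective (g := ρ γ⁻¹) fun w => ?_) (fun w => ?_)
      (fun w => ?_) hv⟩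
    · rw [← mul_app, ← map_mul, hJ.comm _ αJ _ βJ, map_mul, mul_app]
    · rw [← mul_app, ← map_mul, inv_mul_cancel, map_one]; rfl
    · simpa only [map_mul, mul_app] using re (g := α * γ) (h := γ * α) (by simpa using F.xu) w
    · simpa only [map_mul, mul_app] using re (g := β * γ) (h := α * (γ * β)) (by simpa using F.yu) w
  have ti : (π τ₀)⁻¹ = π τ₀ := inv_eq_of_mul_eq_one_right F.t2
  obtain ⟨τ, hτ, τα⟩ : ∃ τ, π τ = π τ₀ ∧ τ * α * τ⁻¹ = α := by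
    have cR : τ₀ * α * τ₀⁻¹ * α⁻¹ ∈ R := pe (by simp [F.tx])
    have c3 : (τ₀ * α * τ₀⁻¹ * α⁻¹ * α) ^ 3 = 1 := by rw [inv_mul_cancel_right, conj_pow, α3]; simp
    obtain ⟨c, hc⟩ : ∃ c, τ₀ * α * τ₀⁻¹ * α⁻¹ = c := ⟨_, rfl⟩
    rw [hc] at cR c3
    have aR := D.cj cR α
    have m : α * c * α⁻¹ * c * (α * (α * c * α⁻¹)⁻¹ * α⁻¹) = 1 ∨
        α * c * α⁻¹ * c * (α * (α * c * α⁻¹)⁻¹ * α⁻¹) = ζ := by
      have qi : q (α * c * α⁻¹)⁻¹ = q (α * c * α⁻¹) := by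
        have := V.mul _ (inv_mem aR) _ aR
        rw [inv_mul_cancel, V.one] at this
        linear_combination (norm := abel1) -this - V.two (q (α * c * α⁻¹))
      rw [← V.zero (mul_mem (mul_mem aR cR) (D.cj (inv_mem aR) α)),
        V.mul _ (mul_mem aR cR) _ (D.cj (inv_mem aR) α), V.mul _ aR _ cR,
        ← V.act _ _ (inv_mem aR), qi, ← V.act _ _ cR]
      linear_combination (norm := abel1) D.all (q c)
    generalize α * c * α⁻¹ = a at aR m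
    have := one_of_cube E m α3 (by
      rw [show a * c * (α * a⁻¹ * α⁻¹) * α = a * (c * α) * a⁻¹ by group, conj_pow, c3]; simp)
    refine ⟨a * τ₀, by rw [map_mul, (πk a).2 aR, one_mul], ?_⟩
    calc _ = a * (τ₀ * α * τ₀⁻¹ * α⁻¹) * (α * a⁻¹ * α⁻¹) * α := by group
      _ = _ := by rw [hc, this, one_mul]
  rw [← hτ] at F ti ⊢
  have τα' : τ * α = α * τ := mul_inv_eq_iff_eq_mul.1 τα
  have lift : ∀ g ∈ J, ∀ h ∈ J, π (τ * g * τ⁻¹) = π h → τ * g * τ⁻¹ = h := fun g hg h hh e => by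
    have c1 : Commute α (τ * g * τ⁻¹) := by
      simpa only [τα] using (show Commute α g from hJ.comm _ αJ _ hg).conj τ
    exact mul_inv_eq_one.1 (one_of_cube E (D.cenα (pe e) (c1.mul_right
      (show Commute α h from hJ.comm _ αJ _ hh).inv_right)) (hJ.exp h hh) (by
        rw [inv_mul_cancel_right, conj_pow, hJ.exp g hg]; simp))
  have τβ : τ * β * τ⁻¹ = β⁻¹ := lift β βJ _ (inv_mem βJ) (by simp [ti, F.ty])
  have ττ := D.cenα ((πk (τ * τ)).1 (by simpa using F.t2))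
    ((show Commute α τ from τα'.symm).mul_right τα'.symm)
  have τ2 : ∀ a, τ * (τ * a * τ⁻¹) * τ⁻¹ = a := fun a => by
    rw [show τ * (τ * a * τ⁻¹) * τ⁻¹ = τ * τ * a * (τ * τ)⁻¹ by group]
    rcases ττ with e | e <;> rw [e]
    exacts [by simp, by rw [← E.zc, mul_inv_cancel_right]]
  have τj : ∀ a, τ * (α * a * α⁻¹) * τ⁻¹ = α * (τ * a * τ⁻¹) * α⁻¹ := fun a => by
    conv_rhs => rw [← τα]
    group
  have τg : ∀ {k l a}, β⁻¹ * α ^ k = (β * α ^ l)⁻¹ → Gd R ζ α β k a →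
      Gd R ζ α β l (τ * a * τ⁻¹) := fun {k l a} e h => ⟨D.cj h.mem τ, by
    have := congrArg (MulAut.conj τ) h.cm
    simp only [map_mul, map_inv, map_pow, MulAut.conj_apply, τα, τβ, e] at this
    conv_lhs => rw [← this]
    group, by
    rintro (e | e)
    · exact h.ne (.inl (by simpa using e))
    · exact h.ne (.inr ((MulAut.conj τ).injective (e.trans (mul_inv_eq_iff_eq_mul.2 (E.zc τ)).symm)))⟩
  obtain ⟨i0, g0, n0⟩ := D.exists_gd (k := 0) (by norm_num)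
  obtain ⟨i1, g1, n1⟩ := D.exists_gd (k := 1) (by norm_num)
  have g2 : Gd R ζ α β 2 (τ * i1 * τ⁻¹) := τg (by
    rw [eq_inv_iff_mul_eq_one, ← hJ.comm _ (pow_mem αJ 2) _ βJ, hJ.comm _ (inv_mem βJ) _ (pow_mem αJ 1)]
    calc _ = α ^ 1 * (β⁻¹ * (α ^ 2 * β)) := by group
      _ = 1 := by rw [hJ.comm _ (pow_mem αJ 2) _ βJ, inv_mul_cancel_left, ← pow_add, α3]) g1
  have hi : ∀ k : Fin 3, Gd R ζ α β k (![i0, i1, τ * i1 * τ⁻¹] k) := fun k => by
    fin_cases k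
    exacts [g0, g1, g2]
  have n : ∀ k : Fin 3, α * (α * ![i0, i1, τ * i1 * τ⁻¹] k * α⁻¹) * α⁻¹ =
      ![i0, i1, τ * i1 * τ⁻¹] k * (α * ![i0, i1, τ * i1 * τ⁻¹] k * α⁻¹) := fun k => by
    fin_cases k
    exacts [n0, n1, show α * (α * (τ * i1 * τ⁻¹) * α⁻¹) * α⁻¹ = τ * i1 * τ⁻¹ *
      (α * (τ * i1 * τ⁻¹) * α⁻¹) by rw [← τj, ← τj, n1, conj_mul]]
  have τ0 : τ * i0 * τ⁻¹ = i0 := by
    obtain ⟨m, e⟩ := D.three (by norm_num) g0 (τg (by simp) g0)
    have TA : ∀ w, ρ τ (ρ α w) = ρ α (ρ τ w) := fun w => by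
      rw [← mul_app, ← map_mul, τα', map_mul, mul_app]
    have TT : ρ τ (ρ τ (q i0)) = q i0 := by rw [V.act _ _ g0.mem, V.act _ _ (D.cj g0.mem τ), τ2]
    have nA := ne_A V.two (mt (V.zero g0.mem).1 g0.ne) (D.all (q i0))
    rw [← V.act _ _ g0.mem, ← V.act _ _ g0.mem, map_pow] at e
    have e0 : ρ τ (q i0) = q i0 := by
      fin_cases m
      · exact e
      · have e : ρ τ (q i0) = ρ α (q i0) := by simpa using e
        rw [e, TA, e] at TT
        exact absurd ((congrArg (ρ α) TT).symm.trans (D.A3 _)) nA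
      · have e : ρ τ (q i0) = ρ α (ρ α (q i0)) := by simpa [sq, mul_app] using e
        rw [e, TA, TA, e, D.A3] at TT
        exact absurd TT nA
    rw [V.act _ _ g0.mem, V.eq _ (D.cj g0.mem τ) _ g0.mem] at e0
    refine e0.resolve_right fun e => E.z1 ?_
    have k1 : ∀ b : X, α * (ζ * b) * α⁻¹ = ζ * (α * b * α⁻¹) := fun b => by
      rw [← mul_assoc, E.zc]; group
    have : τ * (α * (α * i0 * α⁻¹) * α⁻¹) * τ⁻¹ = τ * (i0 * (α * i0 * α⁻¹)) * τ⁻¹ := by rw [n0]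
    rw [← conj_mul (a := i0) (b := τ), τj, τj, e, k1, k1, n0] at this
    rw [mul_assoc ζ i0, ← mul_assoc i0 ζ, E.zc i0, mul_assoc ζ i0] at this
    simpa using this
  generalize hI : ![i0, i1, τ * i1 * τ⁻¹] = i at hi n
  have ii : ∀ k, i k * i k = ζ := fun k => (E.sq _ (hi k).mem).resolve_left fun e => E.z1 (by
    have e1 : α * i k * α⁻¹ * (α * i k * α⁻¹) = 1 := by rw [conj_mul, e]; simp
    have e2 : i k * (α * i k * α⁻¹) * (i k * (α * i k * α⁻¹)) = 1 := by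
      rw [← n, conj_mul, e1]; simp
    nth_rw 1 [D.ij hi k] at e2
    generalize α * i k * α⁻¹ = j at *
    rw [← e2]
    calc ζ = ζ * (j * (i k * i k) * j) := by rw [e, mul_one, e1, mul_one]
      _ = _ := by group)
  refine ⟨α, τ, i, fun k => α * i k * α⁻¹, ⟨αJ, fun k => (hi k).mem, fun k => D.cj (hi k).mem α, ii,
    fun k => by rw [conj_mul, ii, E.zc, mul_inv_cancel_right], D.ij hi, fun k l => ?_, fun k l => ?_,
    fun k l h => D.orth h (hi k) (D.gd_cj (hi l) αJ), fun a ha => D.gen hi ha, fun _ => rfl, n, τα', ττ,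
    hI ▸ τ0, hI ▸ rfl, hI ▸ τ2 i1, fun g hg => ?_, D.uJ hi⟩, rfl, rfl⟩
  · rcases eq_or_ne k l with rfl | h
    exacts [rfl, D.orth h (hi k) (hi l)]
  · rcases eq_or_ne k l with rfl | h
    exacts [rfl, D.orth h (D.gd_cj (hi k) αJ) (D.gd_cj (hi l) αJ)]
  · obtain ⟨h, hh, e⟩ := F.tJ _ ⟨g, hg, rfl⟩
    exact lift g hg h hh (by simp [ti, e]) ▸ hh

end CL.B3
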