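import Cfsg.Agent.SPOR.B3.Defs

/-! The module `R/<ζ>` and two commuting elements of order three on it. -/

set_option autoImplicit false
open Subgroup Cfsg

namespace CL.B3.FmA

universe v

section lin

variable {W : Type*} [AddCommGroup W] (two : ∀ w : W, w + w = 0) {A B : AddMonoid.End W}
  (A3 : ∀ w, A (A (A w)) = w) (B3 : ∀ w, B (B (B w)) = w) (AB : ∀ w, A (B w) = B (A w))

theorem mul_app (A B : AddMonoid.End W) (w : W) : (A * B) w = A (B w) := rfl

/-- the components -/
def Wk (A B : AddMonoid.End W) (k : ℕ) (w : W) : Prop := w + A w + A (A w) = 0 ∧ B ((A ^ k) w) = w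

include two A3 B3 AB in
theorem ex_one {v : W} (hv : A v ≠ v) : ∃ k, ∃ w ≠ 0, Wk A B k w := by
  have h0 : v + A v ≠ 0 := fun e => hv (by rw [← zero_add (A v), ← two v, add_assoc, e, add_zero])
  have h1 : v + A v + A (v + A v) + A (A (v + A v)) = 0 := by
    simp only [map_add, A3]
    linear_combination (norm := abel1) two v + two (A v) + two (A (A v))
  generalize v + A v = w at h0 h1
  have h2 := congrArg B h1
  have h3 := congrArg B h2
  have h4 := congrArg A h1
  simp only [map_add, map_zero, A3] at h2 h3 h4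
  by_contra! hn
  have e0 : w + B w + B (B w) = 0 := by_contra fun e => hn 0 _ e ⟨by
    simp only [map_add, AB]; linear_combination (norm := abel1) h1 + h2 + h3, by
    simp only [pow_zero, AddMonoid.End.one_apply, map_add, B3]; abel⟩
  have e1 : w + B (A w) + B (B (A (A w))) = 0 := by_contra fun e => hn 1 _ e ⟨by
    simp only [map_add, AB, A3]; linear_combination (norm := abel1) h1 + h2 + h3, by
    simp only [pow_one, map_add, AB, A3, B3]; abel⟩
  have e2 : w + B (A (A w)) + B (B (A w)) = 0 := by_contra fun e => hn 2 _ e ⟨by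
    simp only [map_add, AB, A3]; linear_combination (norm := abel1) h1 + h2 + h3, by
    simp only [sq, mul_app, map_add, AB, A3, B3]; abel⟩
  exact h0 (by linear_combination (norm := abel1) e0 + e1 + e2 - h2 - h3 - two w)

include A3 in
theorem Wk.shift {C : AddMonoid.End W} (AC : ∀ w, A (C w) = C (A w))
    (BC : ∀ w, B (C w) = A (C (B w))) (AB : ∀ w, A (B w) = B (A w)) {k : ℕ} {w : W}
    (h : Wk A B k w) : Wk A B (k + 2) (C w) := by
  have k1 : ∀ n w, (A ^ n) (C w) = C ((A ^ n) w) := fun n => by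
    induction n with
    | zero => simp
    | succ n ih => intro w; rw [pow_succ, mul_app, AC, ih]; rfl
  refine ⟨by rw [AC, AC, ← map_add, ← map_add, h.1, map_zero], ?_⟩
  rw [k1, BC, AC, AB, add_comm, pow_add, sq]
  simp only [mul_app, A3, h.2]

include A3 in
theorem Wk.mod {k : ℕ} {w : W} (h : Wk A B k w) : Wk A B (k % 3) w := by
  have : A ^ 3 = 1 := AddMonoidHom.ext fun w => A3 w
  exact ⟨h.1, by rw [← pow_eq_pow_mod k this]; exact h.2⟩

include two A3 B3 AB in
theorem ex_all {C : AddMonoid.End W} (hC : Function.Injective C) (AC : ∀ w, A (C w) = C (A w))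
    (BC : ∀ w, B (C w) = A (C (B w))) {v : W} (hv : A v ≠ v) (l : ℕ) (hl : l < 3) :
    ∃ w ≠ 0, Wk A B l w := by
  obtain ⟨k, h⟩ := ex_one two A3 B3 AB hv
  have st : ∀ n, ∃ w ≠ 0, Wk A B (k + 2 * n) w := fun n => by
    induction n with
    | zero => exact h
    | succ n ih =>
      obtain ⟨w, h0, h1⟩ := ih
      exact ⟨C w, fun e => h0 (hC (e.trans (map_zero C).symm)), h1.shift A3 AC BC AB⟩
  obtain ⟨w, h0, h1⟩ := st (k + 2 * l)
  exact ⟨w, h0, by simpa [show (k + 2 * (k + 2 * l)) % 3 = l by omega] using h1.mod A3⟩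

/-- the projections -/
def pj (A B : AddMonoid.End W) (k : ℕ) : AddMonoid.End W := 1 + B * A ^ k + B * A ^ k * (B * A ^ k)

theorem pj_apply (k : ℕ) (w : W) :
    pj A B k w = w + B ((A ^ k) w) + B ((A ^ k) (B ((A ^ k) w))) := rfl

include two in
theorem pj_self {k : ℕ} {w : W} (h : B ((A ^ k) w) = w) : pj A B k w = w := by
  rw [pj_apply, h, h, two, zero_add]

include A3 AB in
theorem pj_ne {k l : Fin 3} (hk : k ≠ l) {w : W} (h : Wk A B l w) : pj A B k w = 0 := by
  obtain ⟨h1, h2⟩ := h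
  have a1 := congrArg A h2
  have a2 := congrArg A a1
  rw [pj_apply]
  fin_cases k <;> fin_cases l <;> first | exact absurd rfl hk | skip
  all_goals
    simp only [pow_zero, pow_one, sq, mul_app, AddMonoid.End.one_apply, AB, A3] at *
    simp only [h2, a1, a2]
    linear_combination (norm := abel1) h1

include AB in
theorem Wk.comb {k : ℕ} {w : W} (h : Wk A B k w) (a b : ℕ) : Wk A B k (a • w + b • A w) := by
  have k1 : ∀ n w, (A ^ n) (A w) = A ((A ^ n) w) := fun n w => by
    rw [← mul_app, ← pow_succ, pow_succ']; rfl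
  have h1 := congrArg A h.1
  simp only [map_add, map_zero] at h1
  refine ⟨?_, by simp only [map_add, map_nsmul, k1, ← AB, h.2]⟩
  simp only [map_add, map_nsmul]
  linear_combination (norm := module) a • h.1 + b • h1

include two in
theorem ne_A {w : W} (h0 : w ≠ 0) (h : w + A w + A (A w) = 0) : A w ≠ w := fun e =>
  h0 (by rwa [e, e, two, zero_add] at h)

include two A3 in
theorem ind {w : W} (h0 : w ≠ 0) (h : w + A w + A (A w) = 0) {a b a' b' : Fin 2}
    (e : a.val • w + b.val • A w = a'.val • w + b'.val • A w) : a = a' ∧ b = b' := by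
  have h1 := ne_A two h0 h
  have h2 : A w ≠ 0 := fun e => h0 (by rw [← A3 w, e, map_zero, map_zero])
  have h3 : w + A w ≠ 0 := fun e => h1 (by rw [← zero_add (A w), ← two w, add_assoc, e, add_zero])
  fin_cases a <;> fin_cases b <;> fin_cases a' <;> fin_cases b' <;>
    simp [h0, h1, h2, h3, h0.symm, h1.symm, h2.symm, h3.symm] at e ⊢

include two A3 AB in
theorem span (hc : Nat.card W = 64) {w : Fin 3 → W} (h0 : ∀ k, w k ≠ 0)
    (h : ∀ k : Fin 3, Wk A B k (w k)) (v : W) : ∃ a0 b0 a1 b1 a2 b2 : Fin 2,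
      v = (a0.val • w 0 + b0.val • A (w 0)) + (a1.val • w 1 + b1.val • A (w 1)) +
        (a2.val • w 2 + b2.val • A (w 2)) := by
  let f : (Fin 3 → Fin 2 × Fin 2) → W := fun c => ∑ k, ((c k).1.val • w k + (c k).2.val • A (w k))
  have p : ∀ k : Fin 3, ∀ c, pj A B k (f c) = (c k).1.val • w k + (c k).2.val • A (w k) := fun k c => by
    rw [map_sum, Finset.sum_eq_single k (fun l _ e => pj_ne A3 AB e.symm ((h l).comb AB _ _)) (by simp),
      pj_self two ((h k).comb AB _ _).2]
  have inj : Function.Injective f := fun c c' e => funext fun k =>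
    Prod.ext_iff.2 (ind two A3 (h0 k) (h k).1 (by rw [← p, ← p, e]))
  have : Finite W := Nat.finite_of_card_ne_zero (by omega)
  obtain ⟨c, rfl⟩ := (inj.bijective_of_nat_card_le (by simp [hc])).2 v
  exact ⟨_, _, _, _, _, _, Fin.sum_univ_three _⟩

end lin

/-- the module `R/<ζ>` -/
structure WW {X W : Type*} [Group X] [AddCommGroup W] (R : Subgroup X) (ζ : X) (q : X → W)
    (ρ : X →* AddMonoid.End W) : Prop where
  card : Nat.card W = 64
  two : ∀ w : W, w + w = 0
  mul : ∀ a ∈ R, ∀ b ∈ R, q (a * b) = q a + q b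
  eq : ∀ a ∈ R, ∀ b ∈ R, q a = q b ↔ a = b ∨ a = ζ * b
  surj : ∀ w, ∃ a ∈ R, q a = w
  act : ∀ g, ∀ a ∈ R, ρ g (q a) = q (g * a * g⁻¹)

theorem mem_zp {X : Type*} [Group X] {ζ a : X} (h : ζ * ζ = 1) : a ∈ zpowers ζ ↔ a = 1 ∨ a = ζ := by
  refine ⟨?_, by rintro (rfl | rfl); exacts [one_mem _, mem_zpowers _]⟩
  rintro ⟨k, rfl⟩
  obtain ⟨m, rfl | rfl⟩ := k.even_or_odd'
  · exact .inl (by simp [zpow_mul, sq, h])
  · exact .inr (by simp [zpow_add, zpow_mul, sq, h])

theorem exists_W {X : Type v} [Group X] {R : Subgroup X} {ζ : X} (E : Ex R ζ) :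
    ∃ (W : Type v) (_ : AddCommGroup W) (q : X → W) (ρ : X →* AddMonoid.End W), WW R ζ q ρ := by
  classical
  have := E.nR
  let N := (zpowers ζ).subgroupOf R
  have cj : ∀ g, ∀ a ∈ zpowers ζ, g * a * g⁻¹ = a := fun g a ha => by
    rcases (mem_zp E.z2).1 ha with rfl | rfl
    exacts [by simp, by rw [E.zc, mul_inv_cancel_right]]
  have : N.Normal := ⟨fun a ha g => (show (g : X) * a * (g : X)⁻¹ ∈ zpowers ζ from
    (cj g a ha).symm ▸ ha)⟩
  have eq : ∀ a b : R, (a : R ⧸ N) = b ↔ (a : X) = b ∨ (a : X) = ζ * b := fun a b => by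
    rw [eq_comm, QuotientGroup.eq, mem_subgroupOf, mem_zp E.z2, coe_mul, coe_inv, inv_mul_eq_one,
      inv_mul_eq_iff_eq_mul, E.zc, eq_comm]
  let _ : CommGroup (R ⧸ N) := { (inferInstance : Group (R ⧸ N)) with
    mul_comm := fun a b => by
      obtain ⟨a, rfl⟩ := QuotientGroup.mk_surjective a
      obtain ⟨b, rfl⟩ := QuotientGroup.mk_surjective b
      exact (eq (a * b) (b * a)).2 (E.com a a.2 b b.2) }
  let r : X → (R ⧸ N →* R ⧸ N) := fun g => QuotientGroup.map N N (MulAut.conjNormal g).toMonoidHom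
    fun a ha => (show g * a * g⁻¹ ∈ zpowers ζ from (cj g a ha).symm ▸ ha)
  refine ⟨Additive (R ⧸ N), inferInstance, fun a => if h : a ∈ R then Additive.ofMul
    ((⟨a, h⟩ : R) : R ⧸ N) else 0, ⟨⟨fun g => MonoidHom.toAdditive (r g), ?_⟩, fun g h => ?_⟩,
    ?_, fun w => ?_, fun a ha b hb => ?_, fun a ha b hb => ?_, fun w => ?_, fun g a ha => ?_⟩
  · refine AddMonoidHom.ext fun w => ?_
    obtain ⟨a, rfl⟩ := QuotientGroup.mk_surjective w
    exact congrArg QuotientGroup.mk (Subtype.ext (show 1 * (a : X) * 1⁻¹ = a by simp))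
  · refine AddMonoidHom.ext fun w => ?_
    obtain ⟨a, rfl⟩ := QuotientGroup.mk_surjective w
    exact congrArg QuotientGroup.mk (Subtype.ext
      (show g * h * (a : X) * (g * h)⁻¹ = g * (h * a * h⁻¹) * g⁻¹ by group))
  · have h1 := card_eq_card_quotient_mul_card_subgroup N
    rw [E.cR, Nat.card_congr (subgroupOfEquivOfLe (zpowers_le.2 E.zR)).toEquiv, Nat.card_zpowers,
      orderOf_eq_prime (p := 2) (by rw [sq, E.z2]) E.z1] at h1
    change Nat.card (R ⧸ N) = 64
    omega
  · obtain ⟨a, rfl⟩ := QuotientGroup.mk_surjective w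
    exact (eq (a * a) 1).2 (by simpa using E.sq a a.2)
  · simp only [dif_pos ha, dif_pos hb, dif_pos (mul_mem ha hb)]
    rfl
  · simp only [dif_pos ha, dif_pos hb]
    exact eq ⟨a, ha⟩ ⟨b, hb⟩
  · obtain ⟨a, rfl⟩ := QuotientGroup.mk_surjective w
    exact ⟨a, a.2, dif_pos a.2⟩
  · simp only [dif_pos ha, dif_pos (E.nR.conj_mem a ha g)]
    rfl

end CL.B3.FmA
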