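import Cfsg.Agent.SPOR.B3.Defs
import Cfsg.Agent.SPOR.B3.Irr

/-!
(S2914/S2915): the centralizer `N = C_X(d)`, first part.  `a = i₁ i₂`, `b = j₁ j₂`,
`t = π τ`.  Extra files `SPOR/B3/N1<Name>.lean` are fine (keep `Cx` here, or move it verbatim).

* `d2`, `d1`, `fix`, `neg`: from `dec`, `d0`, `dk`, `faith` (`Ev 0 ≠ ⊥` by `dim`).  `dR`: `fix4` (the fixed space has
  dimension 6: it contains `Ev 1 ⊕ Ev 2 ⊕ Ev 3`; or `d ∈ R` would commute with `a, b, i₀, j₀` and be `± 1, ± a, ± b, ± ab`).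
* `com`: if `g a g⁻¹, g b g⁻¹ ∈ {a, b, ab}` then `g` permutes `{a, b, ab}` (they are distinct and `≠ 1`), and
  `σ d = σ a + σ b + σ (ab) - 1` (check on `Ev k`), so `g d = d g` by `faith`.
* `cR0`: `c ∈ R` fixing `0 ≠ v ∈ Ev 0` and all of `Ev 0` commutes with `a, b, i₀, j₀` (an anticommuting pair gives
  `w = -w` for `w = v` resp. `i₀ v`, `j₀ v ∈ Ev 0`); by `gen` it is `ζ^e a^m b^n`, and `e = 0`.
* `nrm`: `g` preserves `Ev 0` (`neg`), so `g a g⁻¹ ∈ R` fixes `Ev 0`; `cR0`.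
* `memR`: `c a c⁻¹ ∈ {a, ζ a} ∩ {a, b, ab}`.  `cardR`: the elements of `R` commuting with `a, b` are the 32 elements
  `ζ^e i₀^. j₀^. a^. b^.` (index of a kernel of `R → {±1}²`, onto by `i₁, j₁`).
* `lift`: let `π g₀ = s`.  `τ c τ⁻¹ c⁻¹ ∈ A₀ = {ζ^e a^m b^n}` for `c ∈ R` (`gen`; modulo `ζ` the map is additive), `a = ζ τ i₁ τ⁻¹ i₁⁻¹`,
  `g₀ τ g₀⁻¹ = c τ` with `c ∈ R`, so `g₀ a g₀⁻¹, g₀ b g₀⁻¹ ∈ A₀ \ {1, ζ}`, different modulo `ζ`.  `i₁` negates `b`, fixes `a`;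
  `j₁` negates `a`, fixes `b`: for some `c ∈ {1, i₁, j₁, i₁ j₁}` the element `g = c g₀` satisfies the hypothesis of `com`.
* `cardN`: `π` maps `C(d)` onto `C(t)` with kernel `C(d) ⊓ R`.
* `L3`: `α` commutes with `d`; `i₀ = α (j₀ α⁻¹ j₀⁻¹)`, `j₀ = α i₀ α⁻¹`, `α a α⁻¹ = b`, `α b α⁻¹ = a b`, `ζ = i₀²`, so
  `C(d) ⊓ R ≤ L3 d`.  A 3-element `s ∈ C(t)` lifts to `g ∈ C(d)` with `g^(4·3^k) = 1`, and a power `g^(4 m)` with
  `4 m ≡ 1 (3^k)` is a 3-element lifting `s`.  Closure induction.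
* `ker`: for `c ∈ {i₀, j₀}`, `g c g⁻¹ c⁻¹ ∈ R` fixes the fixed space of `d`, so it is `1` (`fix4`); `g` preserves the plane
  `Ev 0` and commutes with `i₀, j₀`, so it is `± 1` there (basis `e, i₀ e`).
* `nwc`: `g = i₁`: `σ (g d g⁻¹) = σ a - σ b - σ (ab) - 1`.
* `fixJ`: `w = v - d v` is fixed by `J` (`τJ`) and lies in `Ev 0`.  With `u` from `uJ 1`, `u a u⁻¹ = j₁ i₂` fixes `w`, as does
  `a`, so `j₁ i₁⁻¹` fixes `w`; its square is `ζ`, so `w = 0`.
-/

set_option autoImplicit false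
open Subgroup Cfsg

namespace CL.B3

variable {X T V : Type*} [Group X] [Group T] [AddCommGroup V] [Module F3 V]
  {ω : V →ₗ[F3] V →ₗ[F3] F3} {σ : X →* V →ₗ[F3] V} {R J : Subgroup X} {ζ α τ d : X} {i j : Fin 3 → X}
  {π : X →* T}

/-- the context -/
structure Cx (ω : V →ₗ[F3] V →ₗ[F3] F3) (σ : X →* V →ₗ[F3] V) (R : Subgroup X) (ζ : X) (J : Subgroup X)
    (α τ : X) (i j : Fin 3 → X) (d : X) (π : X →* T) : Prop where
  lin : Lin ω σ
  ex : Ex R ζ
  e27 : E27 J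
  fm : Fm R ζ J α τ i j
  ei : Ei ω σ ζ τ (i 1 * i 2) (j 1 * j 2) d
  πs : Function.Surjective π
  πk : ∀ g, π g = 1 ↔ g ∈ R

/-- the three involutions of the four-group `<a, b>` -/
def In (a b c : X) : Prop := c = a ∨ c = b ∨ c = a * b

namespace N1

theorem z3 {v : V} (h : v = -v) : v = 0 := by
  have h3 : (3 : F3) • v = 0 := by rw [show (3 : F3) = 0 from rfl, zero_smul]
  have : (3 : F3) • v = v + v + v := by rw [show (3 : F3) = 1 + 1 + 1 from rfl, add_smul, add_smul, one_smul]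
  rw [this] at h3
  have h2 : v + v = 0 := by nth_rewrite 1 [h]; exact neg_add_cancel v
  rwa [h2, zero_add] at h3

theorem app (σ : X →* V →ₗ[F3] V) (x y : X) (v : V) : σ (x * y) v = σ x (σ y v) := by
  rw [map_mul]; rfl

theorem app1 (σ : X →* V →ₗ[F3] V) (v : V) : σ 1 v = v := by rw [map_one]; rfl

theorem inj (σ : X →* V →ₗ[F3] V) (x : X) {v : V} (h : σ x v = 0) : v = 0 := by
  rw [← app1 σ v, ← inv_mul_cancel x, app, h, map_zero]

/-- a map commuting with a quaternion pair on a plane is `± 1` -/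
theorem plane {U : Submodule F3 V} (hU : Module.finrank F3 U = 2) {I K g : V →ₗ[F3] V}
    (hI : ∀ v ∈ U, I v ∈ U) (hK : ∀ v ∈ U, K v ∈ U) (hg : ∀ v ∈ U, g v ∈ U)
    (II : ∀ v, I (I v) = -v) (KK : ∀ v, K (K v) = -v) (IK : ∀ v, I (K v) = -K (I v))
    (gI : ∀ v, g (I v) = I (g v)) (gK : ∀ v, g (K v) = K (g v)) (g0 : ∀ v, g v = 0 → v = 0) :
    (∀ v ∈ U, g v = v) ∨ ∀ v ∈ U, g v = -v := by
  haveI : Module.Finite F3 U := Module.finite_of_finrank_pos (by omega)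
  have hne : U ≠ ⊥ := fun e => by rw [e, finrank_bot] at hU; omega
  obtain ⟨e, eU, e0⟩ := Submodule.exists_mem_ne_zero_of_ne_bot hne
  have li : LinearIndependent F3 ![e, I e] := by
    rw [LinearIndependent.pair_iff]
    intro s t hst
    have h2 : s • I e - t • e = 0 := by
      have := congrArg I hst
      rw [map_add, map_smul, map_smul, II, map_zero, smul_neg] at this
      rw [sub_eq_add_neg]; exact this
    have h3 : (s * s + t * t) • e = 0 := by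
      have : (s * s + t * t) • e = s • (s • e + t • I e) - t • (s • I e - t • e) := by
        simp only [smul_add, smul_sub, add_smul, smul_smul, mul_comm t s]; abel
      rw [this, hst, h2, smul_zero, smul_zero, sub_zero]
    have h4 : s * s + t * t = 0 := (smul_eq_zero.1 h3).resolve_right e0
    exact (by decide : ∀ s t : F3, s * s + t * t = 0 → s = 0 ∧ t = 0) s t h4
  have sp : Submodule.span F3 {e, I e} = U := by
    apply Submodule.eq_of_le_of_finrank_eq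
    · rw [Submodule.span_le]; rintro x (rfl | rfl); exacts [eU, hI _ eU]
    · have := finrank_span_eq_card li
      rw [show Set.range ![e, I e] = {e, I e} by simp [Set.pair_comm]] at this
      rw [this, hU]; rfl
  have rep : ∀ v ∈ U, ∃ p q : F3, p • e + q • I e = v := fun v hv => by
    rw [← sp] at hv; exact Submodule.mem_span_pair.1 hv
  obtain ⟨p, q, hpq⟩ := rep _ (hg e eU)
  have all : ∀ v ∈ U, g v = p • v + q • I v := fun v hv => by
    obtain ⟨s, t, rfl⟩ := rep v hv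
    rw [map_add, map_smul, map_smul, gI, ← hpq]
    simp only [map_add, map_smul, II, smul_add, smul_smul, smul_neg, mul_comm s, mul_comm t]; abel
  have q0 : q = 0 := by
    have h1 := all _ (hK e eU)
    rw [gK, ← hpq, map_add, map_smul, map_smul, IK, smul_neg] at h1
    have h2 := z3 (add_left_cancel h1)
    refine (smul_eq_zero.1 h2).resolve_right fun h3 => e0 ?_
    have h4 := congrArg K h3
    rw [KK, map_zero, neg_eq_zero] at h4
    have h5 := congrArg I h4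
    rwa [II, map_zero, neg_eq_zero] at h5
  subst q0
  have p0 : p ≠ 0 := fun h => e0 (g0 e (by rw [all e eU, h]; simp))
  have : p = 1 ∨ p = -1 := by revert p0; generalize p = r; revert r; decide
  rcases this with rfl | rfl
  · left; intro v hv; rw [all v hv]; simp
  · right; intro v hv; rw [all v hv]; simp

/-- the sign of a commutation -/
def Sg (ζ x y : X) (e : ℕ) : Prop := x * y = ζ ^ e * (y * x)

theorem Sg.zero {x y : X} (h : x * y = y * x) : Sg ζ x y 0 := by simpa [Sg] using h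

theorem Sg.one {x y : X} (h : x * y = ζ * (y * x)) : Sg ζ x y 1 := by simpa [Sg] using h

theorem Sg.mul (E : Ex R ζ) {x x' y : X} {e f : ℕ} (h : Sg ζ x y e) (k : Sg ζ x' y f) :
    Sg ζ (x * x') y (e + f) := by
  have c : x * ζ ^ f = ζ ^ f * x := (show Commute x ζ from E.zc x).pow_right f
  unfold Sg at *
  rw [mul_assoc, k, ← mul_assoc, c, mul_assoc, ← mul_assoc x, h, add_comm, pow_add]
  simp only [mul_assoc]

theorem Sg.pow (E : Ex R ζ) {x y : X} {e : ℕ} (h : Sg ζ x y e) (n : ℕ) : Sg ζ (x ^ n) y (n * e) := by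
  induction n with
  | zero => simp [Sg]
  | succ n ih => rw [pow_succ, Nat.succ_mul]; exact ih.mul E h

theorem Sg.even (E : Ex R ζ) {x y : X} {e : ℕ} (h : Sg ζ x y e) (c : x * y = y * x) : e % 2 = 0 := by
  unfold Sg at h
  rw [c] at h
  have h1 : ζ ^ e = 1 := by simpa using h.symm
  by_contra h2
  obtain ⟨m, rfl⟩ : ∃ m, e = 2 * m + 1 := ⟨e / 2, by omega⟩
  rw [pow_succ, pow_mul, sq, E.z2, one_pow, one_mul] at h1
  exact E.z1 h1

theorem not_both (E : Ex R ζ) {x y : X} (h : x * y = ζ * (y * x)) : x * y ≠ y * x := fun c => by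
  have := (Sg.one h).even E c; omega

theorem anti_symm (E : Ex R ζ) {x y : X} (h : x * y = ζ * (y * x)) : y * x = ζ * (x * y) := by
  rw [h, ← mul_assoc, E.z2, one_mul]

theorem half (E : Ex R ζ) {H : Subgroup X} (hH : H ≤ R) {y c : X} (hy : y ∈ R) (hc : c ∈ H)
    (h : c * y = ζ * (y * c)) : Nat.card H = 2 * Nat.card (H ⊓ cz y : Subgroup X) := by
  have hi : ((cz y).subgroupOf H).index = 2 := by
    rw [index_eq_two_iff]
    refine ⟨⟨c, hc⟩, fun b => ?_⟩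
    simp only [mem_subgroupOf, mem_cz, coe_mul]
    rcases E.com b (hH b.2) y hy with k | k
    · refine Or.inr ⟨k, not_both E ?_⟩
      simpa [Sg] using (Sg.zero k).mul E (Sg.one h)
    · refine Or.inl ⟨?_, not_both E k⟩
      have := (Sg.one k).mul E (Sg.one h)
      unfold Sg at this
      rwa [show ζ ^ (1 + 1) = 1 by rw [pow_add, pow_one, E.z2], one_mul] at this
  have h1 := ((cz y).subgroupOf H).card_mul_index
  rw [hi] at h1
  rw [← h1, mul_comm, ← inf_subgroupOf_left (cz y) H]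
  congr 1
  exact Nat.card_congr (subgroupOfEquivOfLe inf_le_left).toEquiv

end N1

open N1

namespace Cx
variable (h : Cx ω σ R ζ J α τ i j d π)
include h

theorem n_aR : i 1 * i 2 ∈ R := R.mul_mem (h.fm.iR 1) (h.fm.iR 2)

theorem n_bR : j 1 * j 2 ∈ R := R.mul_mem (h.fm.jR 1) (h.fm.jR 2)

theorem n_aa : i 1 * i 2 * (i 1 * i 2) = 1 := by
  rw [mul_assoc, ← mul_assoc (i 2), h.fm.cii 2 1, mul_assoc, h.fm.ii, ← mul_assoc, h.fm.ii, h.ex.z2]

theorem n_bb : j 1 * j 2 * (j 1 * j 2) = 1 := by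
  rw [mul_assoc, ← mul_assoc (j 2), h.fm.cjj 2 1, mul_assoc, h.fm.jj, ← mul_assoc, h.fm.jj, h.ex.z2]

theorem n_ia (k : Fin 3) : i k * (i 1 * i 2) = i 1 * i 2 * i k :=
  (show Commute (i k) (i 1) from h.fm.cii k 1).mul_right (h.fm.cii k 2)

theorem n_jb (k : Fin 3) : j k * (j 1 * j 2) = j 1 * j 2 * j k :=
  (show Commute (j k) (j 1) from h.fm.cjj k 1).mul_right (h.fm.cjj k 2)

theorem n_i0b : i 0 * (j 1 * j 2) = j 1 * j 2 * i 0 :=
  (show Commute (i 0) (j 1) from h.fm.cij 0 1 (by decide)).mul_right (h.fm.cij 0 2 (by decide))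

theorem n_j0a : j 0 * (i 1 * i 2) = i 1 * i 2 * j 0 :=
  (show Commute (j 0) (i 1) from (h.fm.cij 1 0 (by decide)).symm).mul_right (h.fm.cij 2 0 (by decide)).symm

theorem n_i1b : i 1 * (j 1 * j 2) = ζ * (j 1 * j 2 * i 1) := by
  rw [← mul_assoc, h.fm.ij, mul_assoc, mul_assoc, h.fm.cij 1 2 (by decide), mul_assoc]

theorem n_i2b : i 2 * (j 1 * j 2) = ζ * (j 1 * j 2 * i 2) := by
  rw [← mul_assoc, h.fm.cij 2 1 (by decide), mul_assoc, h.fm.ij, ← mul_assoc, h.ex.zc]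
  simp only [mul_assoc]

theorem n_j1a : j 1 * (i 1 * i 2) = ζ * (i 1 * i 2 * j 1) := by
  rw [← mul_assoc, anti_symm h.ex (h.fm.ij 1), mul_assoc, mul_assoc, ← h.fm.cij 2 1 (by decide), mul_assoc]

theorem n_j2a : j 2 * (i 1 * i 2) = ζ * (i 1 * i 2 * j 2) := by
  rw [← mul_assoc, ← h.fm.cij 1 2 (by decide), mul_assoc, anti_symm h.ex (h.fm.ij 2), ← mul_assoc, h.ex.zc]
  simp only [mul_assoc]

theorem n_ab : i 1 * i 2 * (j 1 * j 2) = j 1 * j 2 * (i 1 * i 2) := by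
  have := (Sg.one h.n_i1b).mul h.ex (Sg.one h.n_i2b)
  unfold Sg at this
  rwa [show ζ ^ (1 + 1) = 1 by rw [pow_add, pow_one, h.ex.z2], one_mul] at this

theorem n_ab' : i 1 * i 2 * (j 1 * j 2) = i 1 * j 1 * (i 2 * j 2) := by
  rw [mul_assoc, ← mul_assoc (i 2), h.fm.cij 2 1 (by decide)]; simp only [mul_assoc]

/-- the elements of `R` commuting with `a` and `b` -/
theorem n_gen {c : X} (hc : c ∈ R) (ca : c * (i 1 * i 2) = i 1 * i 2 * c) (cb : c * (j 1 * j 2) = j 1 * j 2 * c) :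
    ∃ e a0 b0 : Fin 2, ∃ x, (x = 1 ∨ In (i 1 * i 2) (j 1 * j 2) x) ∧
      c = ζ ^ e.val * (i 0 ^ a0.val * j 0 ^ b0.val) * x := by
  obtain ⟨e, a0, b0, a1, b1, a2, b2, rfl⟩ := h.fm.gen c hc
  have E := h.ex
  have s1 := (((((Sg.zero (E.zc _).symm).pow E e.val).mul E (((Sg.zero (h.n_ia 0)).pow E a0.val).mul E
    ((Sg.zero h.n_j0a).pow E b0.val))).mul E (((Sg.zero (h.n_ia 1)).pow E a1.val).mul E
    ((Sg.one h.n_j1a).pow E b1.val))).mul E (((Sg.zero (h.n_ia 2)).pow E a2.val).mul E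
    ((Sg.one h.n_j2a).pow E b2.val))).even E ca
  have s2 := (((((Sg.zero (E.zc _).symm).pow E e.val).mul E (((Sg.zero h.n_i0b).pow E a0.val).mul E
    ((Sg.zero (h.n_jb 0)).pow E b0.val))).mul E (((Sg.one h.n_i1b).pow E a1.val).mul E
    ((Sg.zero (h.n_jb 1)).pow E b1.val))).mul E (((Sg.one h.n_i2b).pow E a2.val).mul E
    ((Sg.zero (h.n_jb 2)).pow E b2.val))).even E cb
  obtain rfl : b1 = b2 := Fin.ext (by omega)
  obtain rfl : a1 = a2 := Fin.ext (by omega)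
  refine ⟨e, a0, b0, _, ?_, mul_assoc _ _ _⟩
  fin_cases a1 <;> fin_cases b1 <;> simp [In, h.n_ab']

/-- the elements of `R` commuting with `a`, `b`, `i₀`, `j₀` -/
theorem n_gen0 {c : X} (hc : c ∈ R) (ca : c * (i 1 * i 2) = i 1 * i 2 * c) (cb : c * (j 1 * j 2) = j 1 * j 2 * c)
    (ci : c * i 0 = i 0 * c) (cj : c * j 0 = j 0 * c) :
    ∃ x, (x = 1 ∨ In (i 1 * i 2) (j 1 * j 2) x) ∧ (c = x ∨ c = ζ * x) := by
  obtain ⟨e, a0, b0, x, hx, rfl⟩ := h.n_gen hc ca cb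
  have E := h.ex
  have xi : x * i 0 = i 0 * x := by
    rcases hx with rfl | rfl | rfl | rfl
    · simp
    · exact (h.n_ia 0).symm
    · exact h.n_i0b.symm
    · exact ((show Commute (i 0) _ from h.n_ia 0).mul_right h.n_i0b).symm
  have xj : x * j 0 = j 0 * x := by
    rcases hx with rfl | rfl | rfl | rfl
    · simp
    · exact h.n_j0a.symm
    · exact (h.n_jb 0).symm
    · exact ((show Commute (j 0) _ from h.n_j0a).mul_right (h.n_jb 0)).symm
  have s1 := ((((Sg.zero (E.zc _).symm).pow E e.val).mul E (((Sg.zero (h.fm.cii 0 0)).pow E a0.val).mul E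
    ((Sg.one (anti_symm E (h.fm.ij 0))).pow E b0.val))).mul E (Sg.zero xi)).even E ci
  have s2 := ((((Sg.zero (E.zc _).symm).pow E e.val).mul E (((Sg.one (h.fm.ij 0)).pow E a0.val).mul E
    ((Sg.zero (h.fm.cjj 0 0)).pow E b0.val))).mul E (Sg.zero xj)).even E cj
  obtain rfl : b0 = 0 := Fin.ext (by omega)
  obtain rfl : a0 = 0 := Fin.ext (by omega)
  refine ⟨x, hx, ?_⟩
  fin_cases e <;> simp

theorem n_ex (k : Fin 4) : ∃ v ∈ Ev σ (i 1 * i 2) (j 1 * j 2) k, v ≠ 0 :=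
  Submodule.exists_mem_ne_zero_of_ne_bot fun e => by
    have := h.ei.dim k; rw [e, finrank_bot] at this; omega

omit h in
theorem n_mem0 {a b : X} {v : V} : v ∈ Ev σ a b 0 ↔ σ a v = v ∧ σ b v = v := by
  simp [Ev, mem_Eg]

omit h in
theorem n_map0 {a b y : X} (ya : y * a = a * y) (yb : y * b = b * y) {v : V} (hv : v ∈ Ev σ a b 0) :
    σ y v ∈ Ev σ a b 0 := by
  rw [n_mem0] at hv ⊢
  rw [← app, ← ya, app, hv.1, ← app, ← yb, app, hv.2]; exact ⟨rfl, rfl⟩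

theorem n_dv {c : Fin 4 → V} (hc : ∀ k, c k ∈ Ev σ (i 1 * i 2) (j 1 * j 2) k) :
    σ d (c 0 + c 1 + c 2 + c 3) = -c 0 + c 1 + c 2 + c 3 := by
  rw [map_add, map_add, map_add, h.ei.d0 _ (hc 0), h.ei.dk 1 (by decide) _ (hc 1), h.ei.dk 2 (by decide) _ (hc 2),
    h.ei.dk 3 (by decide) _ (hc 3)]

theorem n_anti {x y : X} (k : x * y = ζ * (y * x)) {v : V} (hx : σ x v = v) (hy : σ x (σ y v) = σ y v) : v = 0 := by
  rw [← app, k, app, app, hx, h.ei.neg] at hy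
  exact inj σ y (z3 hy.symm)

theorem d2 : d * d = 1 := by
  refine h.lin.faith _ fun v => ?_
  obtain ⟨c, hc, rfl⟩ := h.ei.dec v
  rw [app, h.n_dv hc, map_add, map_add, map_add, map_neg, h.ei.d0 _ (hc 0), h.ei.dk 1 (by decide) _ (hc 1),
    h.ei.dk 2 (by decide) _ (hc 2), h.ei.dk 3 (by decide) _ (hc 3), neg_neg]

theorem d1 : d ≠ 1 := by
  rintro rfl
  obtain ⟨v, hv, v0⟩ := h.n_ex 0
  have := h.ei.d0 v hv
  rw [app1] at this
  exact v0 (z3 this)

theorem dR : d ∉ R := by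
  intro hd
  have hτ : τ ∈ R := by
    rcases h.ei.dτ with e | e
    · exact e ▸ hd
    · rw [e] at hd; exact (R.mul_mem_cancel_left h.ex.zR).1 hd
  have h2 := h.fm.τ1
  have c := h.fm.cij 2 1 (by decide)
  rcases h.ex.com τ hτ _ (h.fm.iR 1) with k | k
  · rw [k, mul_inv_cancel_right] at h2
    exact not_both h.ex (h.fm.ij 1) (h2 ▸ c)
  · rw [k, ← mul_assoc, mul_inv_cancel_right] at h2
    rw [← h2, mul_assoc, ← mul_assoc (j 1), h.ex.zc (j 1), mul_assoc] at c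
    exact not_both h.ex (h.fm.ij 1) (mul_left_cancel c)

theorem πd : π d = π τ := by
  rcases h.ei.dτ with e | e
  · rw [e]
  · rw [e, map_mul, (h.πk ζ).2 h.ex.zR, one_mul]

theorem αd : α * d = d * α := by
  rcases h.ei.dτ with e | e
  · rw [e, h.fm.τα]
  · rw [e, ← mul_assoc, h.ex.zc, mul_assoc, mul_assoc, h.fm.τα]

theorem fix (v : V) : σ d v = v ↔ v ∈ Ev σ (i 1 * i 2) (j 1 * j 2) 1 ⊔ Ev σ (i 1 * i 2) (j 1 * j 2) 2 ⊔
    Ev σ (i 1 * i 2) (j 1 * j 2) 3 := by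
  constructor
  · intro hv
    obtain ⟨c, hc, rfl⟩ := h.ei.dec v
    rw [h.n_dv hc] at hv
    have h0 : c 0 = 0 := z3 (add_right_cancel (add_right_cancel (add_right_cancel hv))).symm
    rw [h0, zero_add]
    exact Submodule.add_mem_sup (Submodule.add_mem_sup (hc 1) (hc 2)) (hc 3)
  · intro hv
    have : Ev σ (i 1 * i 2) (j 1 * j 2) 1 ⊔ Ev σ (i 1 * i 2) (j 1 * j 2) 2 ⊔ Ev σ (i 1 * i 2) (j 1 * j 2) 3 ≤
        LinearMap.eqLocus (σ d) LinearMap.id :=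
      sup_le (sup_le (fun w hw => h.ei.dk 1 (by decide) w hw) fun w hw => h.ei.dk 2 (by decide) w hw)
        fun w hw => h.ei.dk 3 (by decide) w hw
    exact this hv

theorem neg (v : V) : σ d v = -v ↔ v ∈ Ev σ (i 1 * i 2) (j 1 * j 2) 0 := by
  refine ⟨fun hv => ?_, h.ei.d0 v⟩
  obtain ⟨c, hc, rfl⟩ := h.ei.dec v
  rw [h.n_dv hc] at hv
  have h0 : c 1 + c 2 + c 3 = 0 := z3 (by
    have : c 1 + c 2 + c 3 = c 0 + (-c 0 + c 1 + c 2 + c 3) := by abel
    rw [hv] at this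
    exact this.trans (by abel))
  have : c 0 + c 1 + c 2 + c 3 = c 0 := by rw [add_assoc, add_assoc, ← add_assoc (c 1), h0, add_zero]
  rw [this]; exact hc 0

theorem n_form (v : V) :
    σ d v = σ (i 1 * i 2) v + σ (j 1 * j 2) v + σ (i 1 * i 2 * (j 1 * j 2)) v - v := by
  have t3 : ∀ w : V, w + w + w = 0 := fun w => by
    have : (3 : F3) • w = w + w + w := by rw [show (3 : F3) = 1 + 1 + 1 from rfl, add_smul, add_smul, one_smul]
    rw [← this, show (3 : F3) = 0 from rfl, zero_smul]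
  obtain ⟨c, hc, rfl⟩ := h.ei.dec v
  rw [h.n_dv hc, app σ (i 1 * i 2) (j 1 * j 2)]
  have h0 := hc 0
  have h1 := hc 1
  have h2 := hc 2
  have h3 := hc 3
  simp only [Ev, mem_Eg, Matrix.cons_val, one_smul, neg_smul] at h0 h1 h2 h3
  simp only [map_add, map_neg, h0.1, h0.2, h1.1, h1.2, h2.1, h2.2, h3.1, h3.2]
  rw [← sub_eq_zero]
  have := t3 (-c 0 + c 1 + c 2 + c 3)
  rw [← this]; abel

theorem n_ne : i 1 * i 2 ≠ j 1 * j 2 := fun e => not_both h.ex h.n_i1b (e ▸ h.n_ia 1)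

theorem com {g : X} (ha : In (i 1 * i 2) (j 1 * j 2) (g * (i 1 * i 2) * g⁻¹))
    (hb : In (i 1 * i 2) (j 1 * j 2) (g * (j 1 * j 2) * g⁻¹)) : g * d = d * g := by
  have aa := h.n_aa
  have bb := h.n_bb
  have ab := h.n_ab
  have fm := h.n_form
  have ne := h.n_ne
  generalize i 1 * i 2 = a at *
  generalize j 1 * j 2 = b at *
  have ne' : g * a * g⁻¹ ≠ g * b * g⁻¹ := fun e => ne (by simpa using e)
  have key : ∀ v, σ (g * d * g⁻¹) v =
      σ (g * a * g⁻¹) v + σ (g * b * g⁻¹) v + σ (g * a * g⁻¹ * (g * b * g⁻¹)) v - v := fun v => by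
    rw [show g * a * g⁻¹ * (g * b * g⁻¹) = g * (a * b) * g⁻¹ by group]
    simp only [app σ (g * _), app σ g]
    rw [fm, map_sub, map_add, map_add, ← app σ g g⁻¹, mul_inv_cancel, app1]
  have aab : a * (a * b) = b := by rw [← mul_assoc, aa, one_mul]
  have bab : b * (a * b) = a := by rw [ab, ← mul_assoc, bb, one_mul]
  have aba : a * b * a = b := by rw [ab, mul_assoc, aa, mul_one]
  have abb : a * b * b = a := by rw [mul_assoc, bb, mul_one]
  have k2 : ∀ v, σ (g * d * g⁻¹) v = σ d v := fun v => by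
    rw [key, fm]
    rcases ha with e | e | e <;> rcases hb with f | f | f <;>
      first
      | exact absurd (e.trans f.symm) ne'
      | (rw [e, f]; done)
      | (rw [e, f]; simp only [aab, bab, aba, abb, ← ab]; abel)
  have k3 : g * d * g⁻¹ * d⁻¹ = 1 := h.lin.faith _ fun v => by
    rw [app, k2, ← app, mul_inv_cancel, app1]
  rw [mul_inv_eq_one, mul_inv_eq_iff_eq_mul] at k3
  exact k3

theorem n_cR0 {c : X} (hc : c ∈ R) (hv : ∀ v ∈ Ev σ (i 1 * i 2) (j 1 * j 2) 0, σ c v = v) :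
    c = 1 ∨ In (i 1 * i 2) (j 1 * j 2) c := by
  obtain ⟨v, v1, v0⟩ := h.n_ex 0
  have key : ∀ y ∈ R, y * (i 1 * i 2) = i 1 * i 2 * y → y * (j 1 * j 2) = j 1 * j 2 * y → c * y = y * c :=
    fun y hy ya yb => (h.ex.com c hc y hy).resolve_right fun k =>
      v0 (h.n_anti k (hv v v1) (hv _ (n_map0 ya yb v1)))
  obtain ⟨x, hx, e | e⟩ := h.n_gen0 hc (key _ h.n_aR rfl h.n_ab) (key _ h.n_bR h.n_ab.symm rfl)
    (key _ (h.fm.iR 0) (h.n_ia 0) h.n_i0b) (key _ (h.fm.jR 0) h.n_j0a (h.n_jb 0))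
  · exact e ▸ hx
  · exfalso
    have h1 := hv v v1
    obtain ⟨v2, v3⟩ := n_mem0.1 v1
    have : σ x v = v := by
      rcases hx with rfl | rfl | rfl | rfl
      exacts [app1 σ v, v2, v3, by rw [app, v3, v2]]
    rw [e, app, this, h.ei.neg] at h1
    exact v0 (z3 h1.symm)

theorem n_pres {g : X} (hg : g * d = d * g) {v : V} (hv : v ∈ Ev σ (i 1 * i 2) (j 1 * j 2) 0) :
    σ g v ∈ Ev σ (i 1 * i 2) (j 1 * j 2) 0 := by
  rw [← h.neg] at hv ⊢
  rw [← app, ← hg, app, hv, map_neg]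

theorem n_a1 : i 1 * i 2 ≠ 1 := fun e => not_both h.ex h.n_j1a (by rw [e]; simp)

theorem n_b1 : j 1 * j 2 ≠ 1 := fun e => not_both h.ex h.n_i1b (by rw [e]; simp)

theorem nrm {g : X} (hg : g * d = d * g) : In (i 1 * i 2) (j 1 * j 2) (g * (i 1 * i 2) * g⁻¹) ∧
    In (i 1 * i 2) (j 1 * j 2) (g * (j 1 * j 2) * g⁻¹) := by
  have hg' : g⁻¹ * d = d * g⁻¹ := (show Commute g d from hg).inv_left
  have key : ∀ y ∈ R, y ≠ 1 → (∀ v ∈ Ev σ (i 1 * i 2) (j 1 * j 2) 0, σ y v = v) →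
      In (i 1 * i 2) (j 1 * j 2) (g * y * g⁻¹) := fun y hy y1 hv =>
    (h.n_cR0 (h.ex.nR.conj_mem y hy g) fun v v1 => by
      rw [app, app, hv _ (h.n_pres hg' v1), ← app, mul_inv_cancel, app1]).resolve_left
      fun e => y1 (by simpa using e)
  exact ⟨key _ h.n_aR h.n_a1 fun v hv => (n_mem0.1 hv).1, key _ h.n_bR h.n_b1 fun v hv => (n_mem0.1 hv).2⟩

theorem memR {c : X} (hc : c ∈ R) : c * d = d * c ↔
    c * (i 1 * i 2) = (i 1 * i 2) * c ∧ c * (j 1 * j 2) = (j 1 * j 2) * c := by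
  constructor
  · intro hg
    obtain ⟨v, v1, v0⟩ := h.n_ex 0
    obtain ⟨v2, v3⟩ := n_mem0.1 v1
    have key : ∀ y ∈ R, σ y v = v → In (i 1 * i 2) (j 1 * j 2) (c * y * c⁻¹) → c * y = y * c :=
      fun y hy yv k => (h.ex.com c hc y hy).resolve_right fun e => by
        rw [e, ← mul_assoc, mul_inv_cancel_right] at k
        have : σ (ζ * y) v = v := by
          rcases k with f | f | f <;> rw [f]
          exacts [v2, v3, by rw [app, v3, v2]]
        rw [app, yv, h.ei.neg] at this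
        exact v0 (z3 this.symm)
    exact ⟨key _ h.n_aR v2 (h.nrm hg).1, key _ h.n_bR v3 (h.nrm hg).2⟩
  · rintro ⟨ha, hb⟩
    exact h.com (Or.inl (by rw [ha, mul_inv_cancel_right])) (Or.inr (Or.inl (by rw [hb, mul_inv_cancel_right])))

theorem n_τj (k l : Fin 3) (e : τ * i k * τ⁻¹ = i l) : τ * j k * τ⁻¹ = j l := by
  rw [← h.fm.αi k, ← h.fm.αi l, ← e]
  have c : Commute τ α := h.fm.τα
  rw [show τ * (α * i k * α⁻¹) * τ⁻¹ = τ * α * i k * (τ * α)⁻¹ by group, c.eq]; group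

theorem n_flip {x y : X} (hx : In (i 1 * i 2) (j 1 * j 2) x) (hy : In (i 1 * i 2) (j 1 * j 2) y) (ne : x ≠ y) :
    ∃ c ∈ R, c * x = ζ * (x * c) ∧ c * y = y * c := by
  have E := h.ex
  have z2 : ζ ^ (1 + 1) = 1 := by rw [pow_add, pow_one, E.z2]
  have rt : ∀ {c a b : X} {e f : ℕ}, Sg ζ c a e → Sg ζ c b f → Sg ζ c (a * b) (e + f) := fun {c a b e f} k l => by
    have cm : a * ζ ^ f = ζ ^ f * a := (show Commute a ζ from E.zc a).pow_right f
    unfold Sg at *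
    rw [← mul_assoc, k, mul_assoc, mul_assoc, l, ← mul_assoc a, cm, pow_add]
    simp only [mul_assoc]
  have ia := Sg.zero (ζ := ζ) (h.n_ia 1)
  have ib := Sg.one h.n_i1b
  have ja := Sg.one h.n_j1a
  have jb := Sg.zero (ζ := ζ) (h.n_jb 1)
  have iab := rt ia ib
  have jab := rt ja jb
  have ka := ia.mul E ja
  have kb := ib.mul E jb
  have kab := rt ka kb
  have kR := R.mul_mem (h.fm.iR 1) (h.fm.jR 1)
  simp only [Sg, zero_add, add_zero, pow_zero, pow_one, one_mul, z2] at ia ib ja jb iab jab ka kb kab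
  rcases hx with rfl | rfl | rfl <;> rcases hy with rfl | rfl | rfl
  exacts [absurd rfl ne, ⟨_, h.fm.jR 1, ja, jb⟩, ⟨_, kR, ka, kab⟩, ⟨_, h.fm.iR 1, ib, ia⟩, absurd rfl ne,
    ⟨_, kR, kb, kab⟩, ⟨_, h.fm.iR 1, iab, ia⟩, ⟨_, h.fm.jR 1, jab, jb⟩, absurd rfl ne]

theorem n_A0 {c r : X} (hc : c ∈ R) (hr : r ∈ R) :
    ∃ x, (x = 1 ∨ In (i 1 * i 2) (j 1 * j 2) x) ∧
      (c * τ * r * (c * τ)⁻¹ * r = x ∨ c * τ * r * (c * τ)⁻¹ * r = ζ * x) := by
  have E := h.ex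
  have r1 := E.nR.conj_mem r hr (c * τ)
  have key : ∀ y ∈ R, τ * y * τ⁻¹ = y → c * τ * r * (c * τ)⁻¹ * r * y = y * (c * τ * r * (c * τ)⁻¹ * r) := by
    intro y hy ty
    have cm : Commute τ y := mul_inv_eq_iff_eq_mul.1 ty
    have s : ∀ e, Sg ζ r y e → Sg ζ (c * τ * r * (c * τ)⁻¹) y e := fun e k => by
      have k1 : Sg ζ (τ * r * τ⁻¹) y e := by
        have := ((Sg.zero cm.eq).mul E k).mul E (Sg.zero (ζ := ζ) cm.inv_left.eq)
        simpa using this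
      have r2 := E.nR.conj_mem r hr τ
      rw [show c * τ * r * (c * τ)⁻¹ = c * (τ * r * τ⁻¹) * c⁻¹ by group]
      rcases E.com c hc _ r2 with l | l
      · rwa [l, mul_inv_cancel_right]
      · rw [l, ← mul_assoc, mul_inv_cancel_right]
        simpa using (Sg.zero (E.zc y).symm).mul E k1
    rcases E.com r hr y hy with k | k
    · simpa [Sg] using (s 0 (Sg.zero k)).mul E (Sg.zero k)
    · have := (s 1 (Sg.one k)).mul E (Sg.one k)
      unfold Sg at this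
      rwa [show ζ ^ (1 + 1) = 1 by rw [pow_add, pow_one, E.z2], one_mul] at this
  have j0 := h.n_τj 0 0 h.fm.τ0
  have j1 := h.n_τj 1 2 h.fm.τ1
  have j2 := h.n_τj 2 1 h.fm.τ2
  refine h.n_gen0 (R.mul_mem r1 hr) (key _ h.n_aR ?_) (key _ h.n_bR ?_) (key _ (h.fm.iR 0) h.fm.τ0)
    (key _ (h.fm.jR 0) j0)
  · rw [← conj_mul, h.fm.τ1, h.fm.τ2, h.fm.cii]
  · rw [← conj_mul, j1, j2, h.fm.cjj]

theorem lift {s : T} (hs : s * π τ = π τ * s) : ∃ g, g * d = d * g ∧ π g = s := by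
  have E := h.ex
  obtain ⟨g, rfl⟩ := h.πs s
  have hc : g * τ * g⁻¹ * τ⁻¹ ∈ R := (h.πk _).1 (by simp only [map_mul, map_inv, hs]; group)
  have cj : ∀ r r', τ * r * τ⁻¹ = r' →
      g * τ * g⁻¹ * τ⁻¹ * τ * (g * r * g⁻¹) * (g * τ * g⁻¹ * τ⁻¹ * τ)⁻¹ * (g * r * g⁻¹) = g * (r' * r) * g⁻¹ := by
    rintro r _ rfl; group
  obtain ⟨x, hx, ex⟩ := h.n_A0 hc (E.nR.conj_mem _ (h.fm.iR 1) g)
  obtain ⟨y, hy, ey⟩ := h.n_A0 hc (E.nR.conj_mem _ (h.fm.jR 1) g)
  rw [cj _ _ h.fm.τ1, h.fm.cii] at ex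
  rw [cj _ _ (h.n_τj 1 2 h.fm.τ1), h.fm.cjj] at ey
  have nc : ∀ u w, w * u = ζ * (u * w) → g * u * g⁻¹ ≠ 1 ∧ g * u * g⁻¹ ≠ ζ := fun u w k => by
    refine ⟨fun e => not_both E k ?_, fun e => not_both E k ?_⟩
    · obtain rfl : u = 1 := by simpa using e
      simp
    · obtain rfl : u = ζ := by
        rw [mul_inv_eq_iff_eq_mul, ← E.zc] at e; exact mul_left_cancel e
      exact E.zc w
  have na := nc _ _ h.n_j1a
  have nb := nc _ _ h.n_i1b
  have nab := nc (i 1 * i 2 * (j 1 * j 2)) (i 1) (by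
    rw [← mul_assoc, h.n_ia, mul_assoc, h.n_i1b, ← mul_assoc, E.zc]; simp only [mul_assoc])
  rw [← conj_mul] at nab
  replace hx := hx.resolve_left fun e => by rw [e, mul_one] at ex; tauto
  replace hy := hy.resolve_left fun e => by rw [e, mul_one] at ey; tauto
  have xx : x * x = 1 := by
    rcases hx with rfl | rfl | rfl
    exacts [h.n_aa, h.n_bb, by
      rw [mul_assoc, ← mul_assoc (j 1 * j 2), ← h.n_ab, mul_assoc (i 1 * i 2) (j 1 * j 2), h.n_bb, mul_one, h.n_aa]]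
  have ne : x ≠ y := by
    rintro rfl
    rcases ex with e | e <;> rcases ey with f | f <;> rw [e, f] at nab
    · exact nab.1 xx
    · exact nab.2 (by rw [← mul_assoc, E.zc, mul_assoc, xx, mul_one])
    · exact nab.2 (by rw [mul_assoc, xx, mul_one])
    · exact nab.1 (by rw [mul_assoc, ← mul_assoc x, E.zc, mul_assoc, xx, mul_one, E.z2])
  obtain ⟨c1, c1R, c1x, c1y⟩ := h.n_flip hx hy ne
  obtain ⟨c2, c2R, c2y, c2x⟩ := h.n_flip hy hx ne.symm
  have fin : ∀ c ∈ R, c * (g * (i 1 * i 2) * g⁻¹) = x * c → c * (g * (j 1 * j 2) * g⁻¹) = y * c →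
      ∃ g', g' * d = d * g' ∧ π g' = π g := fun c hc k l => by
    refine ⟨c * g, h.com ?_ ?_, by rw [map_mul, (h.πk c).2 hc, one_mul]⟩
    · rwa [show c * g * (i 1 * i 2) * (c * g)⁻¹ = c * (g * (i 1 * i 2) * g⁻¹) * c⁻¹ by group, k, mul_inv_cancel_right]
    · rwa [show c * g * (j 1 * j 2) * (c * g)⁻¹ = c * (g * (j 1 * j 2) * g⁻¹) * c⁻¹ by group, l, mul_inv_cancel_right]
  have fl : ∀ {c u : X}, c * u = ζ * (u * c) → c * (ζ * u) = u * c := fun {c u} k => by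
    rw [← mul_assoc, E.zc, mul_assoc, k, ← mul_assoc, E.z2, one_mul]
  rcases ex with e | e <;> rcases ey with f | f
  · exact fin 1 R.one_mem (by simp [e]) (by simp [f])
  · exact fin c2 c2R (by rw [e, c2x]) (by rw [f, fl c2y])
  · exact fin c1 c1R (by rw [e, fl c1x]) (by rw [f, c1y])
  · refine fin (c1 * c2) (R.mul_mem c1R c2R) ?_ ?_
    · rw [e]; apply fl; simpa [Sg] using (Sg.one c1x).mul E (Sg.zero c2x)
    · rw [f]; apply fl; simpa [Sg] using (Sg.zero c1y).mul E (Sg.one c2y)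

theorem n_card : Nat.card (cz d ⊓ R : Subgroup X) = 32 := by
  have h1 := half h.ex le_rfl h.n_aR (h.fm.jR 1) h.n_j1a
  have h2 := half h.ex (H := R ⊓ cz (i 1 * i 2)) inf_le_left h.n_bR ⟨h.fm.iR 1, mem_cz.2 (h.n_ia 1)⟩ h.n_i1b
  have e : cz d ⊓ R = R ⊓ cz (i 1 * i 2) ⊓ cz (j 1 * j 2) := by
    ext c
    simp only [mem_inf, mem_cz]
    exact ⟨fun k => ⟨⟨k.2, ((h.memR k.2).1 k.1).1⟩, ((h.memR k.2).1 k.1).2⟩,
      fun k => ⟨(h.memR k.1.1).2 ⟨k.1.2, k.2⟩, k.1.1⟩⟩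
  rw [e]
  have := h.ex.cR
  omega

theorem cardN [Finite X] : Nat.card (cz d) = 32 * Nat.card (cz (π τ)) := by
  let φ : cz d →* cz (π τ) := (π.comp (cz d).subtype).codRestrict _ fun g => mem_cz.2 (by
    rw [← h.πd]; simpa using congrArg π (mem_cz.1 g.2))
  have hs : Function.Surjective φ := fun s => by
    obtain ⟨g, g1, g2⟩ := h.lift (mem_cz.1 s.2)
    exact ⟨⟨g, mem_cz.2 g1⟩, Subtype.ext g2⟩
  have hk : φ.ker = (cz d ⊓ R).subgroupOf (cz d) := by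
    ext g
    rw [MonoidHom.mem_ker, mem_subgroupOf, mem_inf, ← h.πk, Subtype.ext_iff]
    exact ⟨fun k => ⟨g.2, k⟩, fun k => k.2⟩
  rw [← φ.ker.card_mul_index, index_ker, MonoidHom.range_eq_top.2 hs, card_top, hk, ← h.n_card]
  congr 1
  exact Nat.card_congr (subgroupOfEquivOfLe inf_le_left).toEquiv

theorem n_RL3 {c : X} (hc : c ∈ R) (cd : c * d = d * c) : c ∈ L3 d := by
  have α3 : α ^ 3 ^ 1 = 1 := by simpa using h.e27.exp α h.fm.αJ
  have αL : α ∈ L3 d := B3.mem_L3 α3 h.αd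
  have cjL : ∀ x, x * d = d * x → α * x * α⁻¹ * x⁻¹ ∈ L3 d := fun x hx => by
    rw [mul_assoc, mul_assoc, ← mul_assoc x]
    refine mul_mem αL (B3.mem_L3 (k := 1) (by rw [conj_pow, inv_pow, α3]; simp) ?_)
    have c1 : Commute x d := hx
    have c2 : Commute α d := h.αd
    exact ((c1.mul_left c2.inv_left).mul_left c1.inv_left).eq
  have iL : i 0 ∈ L3 d := by
    have := cjL (j 0) ((h.memR (h.fm.jR 0)).2 ⟨h.n_j0a, h.n_jb 0⟩)
    rwa [h.fm.αj, mul_inv_cancel_right] at this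
  have jL : j 0 ∈ L3 d := h.fm.αi 0 ▸ mul_mem (mul_mem αL iL) (inv_mem αL)
  have aL : i 1 * i 2 ∈ L3 d := by
    have := cjL (j 1 * j 2) ((h.memR h.n_bR).2 ⟨h.n_ab.symm, rfl⟩)
    rwa [← conj_mul, h.fm.αj, h.fm.αj, ← h.n_ab', mul_inv_cancel_right] at this
  have bL : j 1 * j 2 ∈ L3 d := by
    have := mul_mem (mul_mem αL aL) (inv_mem αL)
    rwa [← conj_mul, h.fm.αi, h.fm.αi] at this
  have zL : ζ ∈ L3 d := h.fm.ii 0 ▸ mul_mem iL iL
  obtain ⟨e, a0, b0, x, hx, rfl⟩ := h.n_gen hc ((h.memR hc).1 cd).1 ((h.memR hc).1 cd).2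
  refine mul_mem (mul_mem (pow_mem zL _) (mul_mem (pow_mem iL _) (pow_mem jL _))) ?_
  rcases hx with rfl | rfl | rfl | rfl
  exacts [one_mem _, aL, bL, mul_mem aL bL]

theorem mem_L3 [Finite X] {g : X} (hg : g * d = d * g) (h3 : π g ∈ L3 (π τ)) : g ∈ L3 d := by
  have le : L3 (π τ) ≤ (L3 d).map π := by
    refine (closure_le _).2 ?_
    rintro s ⟨⟨k, hk⟩, hs⟩
    obtain ⟨u, u1, rfl⟩ := h.lift hs
    have uR : u ^ 3 ^ k ∈ R := (h.πk _).1 (by rw [map_pow, hk])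
    have u4 : (u ^ 3 ^ k) ^ 4 = 1 := by
      rw [show 4 = 2 * 2 from rfl, pow_mul, sq (u ^ 3 ^ k)]
      rcases h.ex.sq _ uR with e | e <;> rw [e]
      exacts [one_pow 2, by rw [sq, h.ex.z2]]
    have cp : Nat.Coprime 4 (orderOf (π u)) :=
      Nat.Coprime.coprime_dvd_right (orderOf_dvd_of_pow_eq_one hk) (Nat.Coprime.pow_right k (by decide))
    obtain ⟨m, hm⟩ := exists_pow_eq_self_of_coprime cp
    refine ⟨(u ^ 4) ^ m, B3.mem_L3 (k := k) ?_ ?_, by rw [map_pow, map_pow, hm]⟩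
    · rw [← pow_mul, ← pow_mul, show 4 * (m * 3 ^ k) = 3 ^ k * 4 * m by ring, pow_mul, pow_mul, u4, one_pow]
    · exact (((show Commute u d from u1).pow_left 4).pow_left m).eq
  obtain ⟨u, uL, e⟩ := le h3
  have uR : g * u⁻¹ ∈ R := (h.πk _).1 (by rw [map_mul, map_inv, e, mul_inv_cancel])
  have ud : Commute u d := mem_cz.1 (L3_le d uL)
  have := mul_mem (h.n_RL3 uR ((show Commute g d from hg).mul_left ud.inv_left).eq) uL
  rwa [inv_mul_cancel_right] at this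

theorem ker {g : X} (hg : g * d = d * g) (hv : ∀ v, σ d v = v → σ g v = v) : g = 1 ∨ g = d := by
  haveI : Module.Finite F3 V := Module.finite_of_finrank_pos (by rw [h.lin.dim]; omega)
  set U := Ev σ (i 1 * i 2) (j 1 * j 2) 1 ⊔ Ev σ (i 1 * i 2) (j 1 * j 2) 2 ⊔ Ev σ (i 1 * i 2) (j 1 * j 2) 3 with hU
  have top : Ev σ (i 1 * i 2) (j 1 * j 2) 0 ⊔ U = ⊤ := by
    rw [eq_top_iff]; intro v _
    obtain ⟨c, hc, rfl⟩ := h.ei.dec v
    rw [add_assoc, add_assoc, ← add_assoc (c 1)]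
    exact Submodule.add_mem_sup (hc 0) (Submodule.add_mem_sup (Submodule.add_mem_sup (hc 1) (hc 2)) (hc 3))
  have big : 6 ≤ Module.finrank F3 U := by
    have := Submodule.finrank_add_le_finrank_add_finrank (Ev σ (i 1 * i 2) (j 1 * j 2) 0) U
    rw [top, finrank_top, h.lin.dim, h.ei.dim] at this
    omega
  have key : ∀ c ∈ R, c * d = d * c → g * c = c * g := fun c hc cd => by
    have xR : g * c * g⁻¹ * c⁻¹ ∈ R := R.mul_mem (h.ex.nR.conj_mem c hc g) (R.inv_mem hc)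
    by_contra ne
    have x1 : g * c * g⁻¹ * c⁻¹ ≠ 1 := fun e => ne (by rwa [mul_inv_eq_one, mul_inv_eq_iff_eq_mul] at e)
    have := h.lin.fix4 h.ex xR x1 (U := U) fun v v1 => by
      have v2 := (h.fix v).2 v1
      have v3 : σ d (σ c⁻¹ v) = σ c⁻¹ v := by
        rw [← app, ← (show Commute c d from cd).inv_left.eq, app, v2]
      have v4 : σ g⁻¹ (σ c⁻¹ v) = σ c⁻¹ v := by
        nth_rewrite 1 [← hv _ v3]; rw [← app, inv_mul_cancel, app1]
      rw [app, app, v4, app, ← app σ c, mul_inv_cancel, app1, hv v v2]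
    omega
  have gi := key _ (h.fm.iR 0) ((h.memR (h.fm.iR 0)).2 ⟨h.n_ia 0, h.n_i0b⟩)
  have gj := key _ (h.fm.jR 0) ((h.memR (h.fm.jR 0)).2 ⟨h.n_j0a, h.n_jb 0⟩)
  have split : ∀ v, ∃ p ∈ Ev σ (i 1 * i 2) (j 1 * j 2) 0, ∃ q, σ d q = q ∧ p + q = v := fun v => by
    obtain ⟨p, hp, q, hq, e⟩ := Submodule.mem_sup.1 (top ▸ Submodule.mem_top : v ∈ _ ⊔ U)
    exact ⟨p, hp, q, (h.fix q).2 hq, e⟩
  rcases plane (h.ei.dim 0) (I := σ (i 0)) (K := σ (j 0)) (g := σ g)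
    (fun v v1 => n_map0 (h.n_ia 0) h.n_i0b v1) (fun v v1 => n_map0 h.n_j0a (h.n_jb 0) v1)
    (fun v v1 => h.n_pres hg v1) (fun v => by rw [← app, h.fm.ii, h.ei.neg])
    (fun v => by rw [← app, h.fm.jj, h.ei.neg]) (fun v => by rw [← app, h.fm.ij, app, h.ei.neg, app])
    (fun v => by rw [← app, gi, app]) (fun v => by rw [← app, gj, app]) (fun v => inj σ g) with k | k
  · left
    refine h.lin.faith _ fun v => ?_
    obtain ⟨p, hp, q, hq, rfl⟩ := split v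
    rw [map_add, k p hp, hv q hq]
  · right
    have : d * g = 1 := h.lin.faith _ fun v => by
      obtain ⟨p, hp, q, hq, rfl⟩ := split v
      rw [app, map_add, k p hp, hv q hq, map_add, map_neg, h.ei.d0 p hp, hq, neg_neg]
    rw [← h.d2] at this
    exact mul_left_cancel this

theorem nwc : ∃ g, g * d * g⁻¹ ≠ d ∧ g * d * g⁻¹ * d = d * (g * d * g⁻¹) := by
  have ad : Commute (i 1 * i 2) d := (h.memR h.n_aR).2 ⟨rfl, h.n_ab⟩
  have bd : Commute (j 1 * j 2) d := (h.memR h.n_bR).2 ⟨h.n_ab.symm, rfl⟩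
  refine ⟨i 1, fun e => not_both h.ex h.n_i1b ((h.memR (h.fm.iR 1)).1 (mul_inv_eq_iff_eq_mul.1 e)).2, ?_⟩
  have ia : Commute (i 1) (i 1 * i 2) := h.n_ia 1
  have c1 : Commute (i 1 * d * (i 1)⁻¹) (i 1 * i 2) := (ia.mul_left ad.symm).mul_left ia.inv_left
  have c2 : Commute (i 1 * d * (i 1)⁻¹) (j 1 * j 2) := by
    have k : Sg ζ (i 1)⁻¹ (j 1 * j 2) 1 := Sg.one (by
      rw [inv_mul_eq_iff_eq_mul, ← mul_assoc, h.ex.zc, mul_assoc, ← mul_assoc (i 1), h.n_i1b, mul_assoc,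
        mul_inv_cancel_right, ← mul_assoc, h.ex.z2, one_mul])
    have := ((Sg.one h.n_i1b).mul h.ex (Sg.zero bd.symm.eq)).mul h.ex k
    unfold Sg at this
    rwa [show ζ ^ (1 + 0 + 1) = 1 by rw [pow_add, pow_one, h.ex.z2], one_mul] at this
  exact h.com (Or.inl (by rw [c1.eq, mul_inv_cancel_right])) (Or.inr (Or.inl (by rw [c2.eq, mul_inv_cancel_right])))

theorem fixJ {v : V} (hv : ∀ g ∈ J, σ g v = v) : σ d v = v := by
  have dJ : ∀ g ∈ J, d * g * d⁻¹ ∈ J := fun g hg => by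
    rcases h.ei.dτ with e | e <;> rw [e]
    · exact h.fm.τJ g hg
    · rw [show ζ * τ * g * (ζ * τ)⁻¹ = ζ * (τ * g * τ⁻¹) * ζ⁻¹ by group, ← h.ex.zc, mul_inv_cancel_right]
      exact h.fm.τJ g hg
  have hw : ∀ g ∈ J, σ g (v - σ d v) = v - σ d v := fun g hg => by
    have : g * d = d * (d * g * d⁻¹) := by
      rw [← mul_assoc, ← mul_assoc, h.d2, one_mul, inv_eq_of_mul_eq_one_right h.d2]
    rw [map_sub, hv g hg, ← app, this, app, hv _ (dJ g hg)]
  have w0 : v - σ d v ∈ Ev σ (i 1 * i 2) (j 1 * j 2) 0 := by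
    rw [← h.neg, map_sub, ← app, h.d2, app1, neg_sub]
  obtain ⟨u, uJ, u1, u2⟩ := h.fm.uJ 1
  have e : u * (i 1 * i 2) * u⁻¹ = j 1 * i 2 := by
    rw [← conj_mul, u1, (u2 2 (by decide)).1, mul_inv_cancel_right]
  have f : σ (j 1 * i 2) (v - σ d v) = v - σ d v := by
    rw [← e, app, app, hw _ (J.inv_mem uJ), (n_mem0.1 w0).1, hw u uJ]
  have an : j 1 * i 2 * (i 1 * i 2) = ζ * (i 1 * i 2 * (j 1 * i 2)) := by
    simpa [Sg] using (Sg.one h.n_j1a).mul h.ex (Sg.zero (h.n_ia 2))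
  have := h.n_anti an f (by rw [(n_mem0.1 w0).1, f])
  exact (sub_eq_zero.1 this).symm

end Cx

end CL.B3
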