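import Cfsg.Agent.SPOR.B3.Defs
import Cfsg.Agent.SPOR.B3.N1

/-!
`O₂` and `O₃` of `Y = C_X(d)/<d>`.  `a = i₁ i₂`, `b = j₁ j₂`,
`K = C(a) ⊓ C(b) ≤ N = C(d)` (`com`), normal in `N` (`nrm`).

* `exists_sl2`: take a symplectic basis `e₁, e₂` of the plane `U` (`ω e₁ e₂ = 1`), `β v = v 0 • e₁ + v 1 • e₂`, and `φ g` the
  matrix of `σ g` (entries `ω (σ g eₖ) e₂`, `ω e₁ (σ g eₖ)`); the determinant is `ω (g e₁) (g e₂) = 1`.
* In `SL₂(3)` (all by `decide`): `{m | m^4 = 1}` is closed under products; `m^8 = 1 → m^4 = 1`; `(m^3)^4 = 1`;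
  `m^2 = 1 → m = ± 1`; if `p² = q² = -1`, `p q = -q p` and `m` commutes with `p, q` then `m = ± 1`.
* `K` acts on the four planes `Ev k`, jointly faithfully (`dec`, `faith`).  So `D = {g ∈ K | g^4 = 1}` is a subgroup, normal in `N`,
  containing `d`; its image lies in `O₂(Y)`.  Conversely the preimage `P` of `O₂(Y)` is a normal 2-subgroup of `N`.  `N` permutes
  `{a, b, ab}` and `α ∈ N` acts as a 3-cycle (`α a α⁻¹ = b`, `α b α⁻¹ = a b`); if `g ∈ P` acted as a transposition or 3-cycle then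
  `g` or `g α g⁻¹ α⁻¹ ∈ P` would act as a 3-cycle, impossible for a 2-element.  So `P ≤ K`, and 2-elements of `K` have `g^4 = 1`.
* `o3`: if `pr n ∈ O₃(Y)` and `c ∈ {a, b, i₀, j₀} ⊆ D ⊓ R`, then `n c n⁻¹ c⁻¹ ∈ R` maps into `O₃ ⊓ O₂ = ⊥`, so it lies in
  `<d> ⊓ R = 1` (`dR`).  So `n ∈ K` is `± 1` on each plane, `n² = 1`, and `pr n = 1`.
* `inv`: `ζ a`, `ζ b`, `ζ a b` (`ζ a` is `-1` on `Ev 0, Ev 1` and `1` on `Ev 2, Ev 3`).
-/

set_option autoImplicit false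
open Subgroup Cfsg

namespace CL.B3

variable {X T V : Type*} [Group X] [Group T] [AddCommGroup V] [Module F3 V]
  {ω : V →ₗ[F3] V →ₗ[F3] F3} {σ : X →* V →ₗ[F3] V} {R J : Subgroup X} {ζ α τ d : X} {i j : Fin 3 → X}
  {π : X →* T}

open scoped MatrixGroups Matrix in
theorem exists_sl2 (alt : ∀ v, ω v v = 0) (inv : ∀ g v w, ω (σ g v) (σ g w) = ω v w) {U : Submodule F3 V}
    (dim : Module.finrank F3 U = 2) (nd : ∀ v ∈ U, (∀ w ∈ U, ω v w = 0) → v = 0) (K : Subgroup X)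
    (hK : ∀ g ∈ K, ∀ v ∈ U, σ g v ∈ U) :
    ∃ (φ : K →* SL(2, F3)) (β : (Fin 2 → F3) →ₗ[F3] V), Function.Injective β ∧ LinearMap.range β = U ∧
      ∀ (g : K) (v : Fin 2 → F3), σ g (β v) = β ((φ g).1 *ᵥ v) := by
  have : Nontrivial U := Module.nontrivial_of_finrank_pos (R := F3) (by omega)
  have : Module.Finite F3 U := Module.finite_of_finrank_pos (by omega)
  obtain ⟨⟨e, he⟩, e0⟩ := exists_ne (0 : U)
  obtain ⟨e', he', h0⟩ : ∃ w ∈ U, ω e w ≠ 0 := by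
    by_contra n; push Not at n; exact e0 (Subtype.ext (nd e he n))
  obtain ⟨f, hf, h1⟩ : ∃ w ∈ U, ω e w = 1 := ⟨ω e e' • e', U.smul_mem _ he', by
    rw [map_smul]; revert h0; generalize ω e e' = c; revert c; decide⟩
  have h2 : ω f e = -1 := by
    have := alt (e + f)
    simp only [map_add, LinearMap.add_apply, alt, h1] at this
    linear_combination this
  let β : (Fin 2 → F3) →ₗ[F3] V := (LinearMap.proj 0).smulRight e + (LinearMap.proj 1).smulRight f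
  let γ : V →ₗ[F3] Fin 2 → F3 := LinearMap.pi ![ω.flip f, ω e]
  have γβ : ∀ v, γ (β v) = v := fun v => funext fun k => by fin_cases k <;> simp [β, γ, alt, h1]
  have βi : Function.Injective β := Function.LeftInverse.injective γβ
  have rng : LinearMap.range β = U := Submodule.eq_of_le_of_finrank_eq (by
    rintro _ ⟨v, rfl⟩; exact U.add_mem (U.smul_mem _ he) (U.smul_mem _ hf))
    (by rw [LinearMap.finrank_range_of_inj βi, dim]; simp)
  have key : ∀ (g : K) v, σ g (β v) = β (LinearMap.toMatrix' (γ ∘ₗ σ g ∘ₗ β) *ᵥ v) := fun g v => by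
    obtain ⟨w, hw⟩ := rng.ge (hK g g.2 _ (rng.le ⟨v, rfl⟩))
    rw [LinearMap.toMatrix'_mulVec, LinearMap.comp_apply, LinearMap.comp_apply, ← hw, γβ]
  have ωβ : ∀ v w, ω (β v) (β w) = v 0 * w 1 - w 0 * v 1 := fun v w => by simp [β, alt, h1, h2]; ring
  refine ⟨MonoidHom.mk' (fun g => ⟨LinearMap.toMatrix' (γ ∘ₗ σ g ∘ₗ β), ?_⟩) fun g h => Subtype.ext ?_, β, βi, rng, key⟩
  · have := inv g (β (Pi.single 0 1)) (β (Pi.single 1 1))
    rw [key, key, ωβ, ωβ] at this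
    rw [Matrix.det_fin_two]; simpa using this
  · refine Matrix.ext_iff_mulVec.2 fun v => βi ?_
    refine (key _ v).symm.trans (Eq.trans ?_ (congrArg β (Matrix.mulVec_mulVec v _ _)))
    rw [← key, ← key, coe_mul, map_mul]; rfl

/-- the centralizer of the four-group -/
abbrev KK (i j : Fin 3 → X) : Subgroup X := cz (i 1 * i 2) ⊓ cz (j 1 * j 2)

namespace N2
open scoped MatrixGroups
set_option synthInstance.maxSize 4096
set_option maxRecDepth 100000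

theorem one_of_cop {G : Type*} [Group G] {g : G} {m n : ℕ} (h1 : g ^ m = 1) (h2 : g ^ n = 1) (h : m.Coprime n) :
    g = 1 := by simpa [h.gcd_eq_one] using (pow_gcd_eq_one (a := g)).2 ⟨h1, h2⟩
theorem zp {d x : X} (h : d * d = 1) (hx : x ∈ zpowers d) : x = 1 ∨ x = d := by
  obtain ⟨m, rfl⟩ := hx
  rcases Int.even_or_odd' m with ⟨l, rfl | rfl⟩ <;> simp [zpow_add, zpow_mul, pow_two, h]
theorem s1 : ∀ p : SL(2, F3), p ^ 4 = 1 → ∀ q : SL(2, F3), q ^ 4 = 1 → (p * q) ^ 4 = 1 := by decide +kernel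
theorem s2 : ∀ p : SL(2, F3), (p ^ 3) ^ 4 = 1 ∧ (p ^ 2 = 1 → p = 1 ∨ p = -1) := by decide +kernel
theorem s3 : ∀ p : SL(2, F3), p * p = -1 → ∀ q : SL(2, F3), q * q = -1 → p * q = -1 * (q * p) →
    ∀ m : SL(2, F3), m * p = p * m → m * q = q * m → m ^ 2 = 1 := by decide +kernel
theorem s5 : ∀ p c : Equiv.Perm (Fin 3), c = finRotate 3 → (p ^ 3 = 1 → p = 1) →
    ((p * c * p⁻¹ * c⁻¹) ^ 3 = 1 → p * c * p⁻¹ * c⁻¹ = 1) → p = 1 := by decide +kernel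

theorem pres {a b g : X} (hg : g ∈ cz a ⊓ cz b) (k : Fin 4) {v : V} (hv : v ∈ Ev σ a b k) : σ g v ∈ Ev σ a b k := by
  have : ∀ {c : X} {s : F3}, g ∈ cz c → σ c v = s • v → σ c (σ g v) = s • σ g v := fun e e' => by
    rw [← Module.End.mul_apply, ← map_mul, ← mem_cz.1 e, map_mul, Module.End.mul_apply, e', map_smul]
  fin_cases k <;> exact ⟨this hg.1 hv.1, this hg.2 hv.2⟩

end N2

namespace Cx
variable (h : Cx ω σ R ζ J α τ i j d π)
include h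

open scoped MatrixGroups Matrix in
/-- the action on the four planes -/
theorem exists_φ : ∃ φ : Fin 4 → KK i j →* SL(2, F3), (∀ g : KK i j, (∀ k, φ k g = 1) → (g : X) = 1) ∧
    (∀ (g : KK i j) k, (∀ v ∈ Ev σ (i 1 * i 2) (j 1 * j 2) k, σ g v = v) ↔ φ k g = 1) ∧
    ∀ (g : KK i j) k, (∀ v ∈ Ev σ (i 1 * i 2) (j 1 * j 2) k, σ g v = -v) ↔ φ k g = -1 := by
  choose φ β βi rng key using fun k => exists_sl2 h.lin.alt h.lin.inv (h.ei.dim k) (h.ei.nd k) (KK i j)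
    fun g hg v => N2.pres hg k
  have e : ∀ (g : KK i j) k (s : F3) (m : SL(2, F3)), (∀ v, m.1 *ᵥ v = s • v) →
      ((∀ v ∈ Ev σ (i 1 * i 2) (j 1 * j 2) k, σ g v = s • v) ↔ φ k g = m) := fun g k s m hm =>
    ⟨fun e => Subtype.ext (Matrix.ext_iff_mulVec.2 fun v => βi k (by
      rw [← key, e _ ((rng k).le ⟨v, rfl⟩), hm, map_smul])), fun e v hv => by
      obtain ⟨v, rfl⟩ := (rng k).ge hv
      rw [key, e, hm, map_smul]⟩
  have e1 := fun g k => e g k 1 1 (by simp)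
  simp only [one_smul] at e1
  refine ⟨φ, fun g hg => h.lin.faith _ fun v => ?_, e1,
    fun g k => by simpa using e g k (-1) (-1) (by simp [Matrix.neg_mulVec])⟩
  obtain ⟨c, hc, rfl⟩ := h.ei.dec v
  simp only [map_add, (e1 g _).2 (hg _) _ (hc _)]

theorem aa : i 1 * i 2 * (i 1 * i 2) = 1 := by
  rw [Commute.mul_mul_mul_comm (h.fm.cii 2 1), h.fm.ii, h.fm.ii, h.ex.z2]
theorem bb : j 1 * j 2 * (j 1 * j 2) = 1 := by
  rw [Commute.mul_mul_mul_comm (h.fm.cjj 2 1), h.fm.jj, h.fm.jj, h.ex.z2]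
theorem ab : i 1 * i 2 * (j 1 * j 2) = j 1 * j 2 * (i 1 * i 2) := by
  rw [Commute.mul_mul_mul_comm (h.fm.cij 2 1 (by decide)), h.fm.ij, h.fm.ij, Commute.mul_mul_mul_comm (h.ex.zc _),
    h.ex.z2, one_mul, Commute.mul_mul_mul_comm (h.fm.cij 1 2 (by decide))]

theorem inj3 : Function.Injective ![i 1 * i 2, j 1 * j 2, i 1 * i 2 * (j 1 * j 2)] := by
  have dim := h.ei.dim
  clear h
  generalize i 1 * i 2 = a, j 1 * j 2 = b at *
  have ne : ∀ k, ¬ ∀ v ∈ Ev σ a b k, v = (-1 : F3) • v := fun k e => by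
    have : Ev σ a b k = ⊥ := eq_bot_iff.2 fun v hv => by
      have : (2 * 2 : F3) • v = 0 := by rw [mul_smul, two_smul F3 v, add_eq_zero_iff_eq_neg.2 (by simpa using e v hv), smul_zero]
      rwa [show (2 * 2 : F3) = 1 from rfl, one_smul] at this
    simpa [this] using (this ▸ dim k : Module.finrank F3 (⊥ : Submodule F3 V) = 2)
  have n1 : a ≠ b := fun e => ne 1 fun v hv => (one_smul _ v).symm.trans (hv.1.symm.trans (e ▸ hv.2))
  have n2 : a ≠ 1 := fun e => ne 2 fun v hv => by simpa [e] using hv.1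
  have n3 : b ≠ 1 := fun e => ne 1 fun v hv => by simpa [e] using hv.2
  intro k l e
  fin_cases k <;> fin_cases l <;> simp_all

/-- the action on the three involutions -/
theorem exists_ψ : ∃ ψ : cz d →* Equiv.Perm (Fin 3), (∀ (g : cz d) k,
    g * ![i 1 * i 2, j 1 * j 2, i 1 * i 2 * (j 1 * j 2)] k * (g : X)⁻¹ =
      ![i 1 * i 2, j 1 * j 2, i 1 * i 2 * (j 1 * j 2)] (ψ g k)) ∧ (∀ g, ψ g = 1 ↔ (g : X) ∈ KK i j) ∧
    ψ ⟨α, mem_cz.2 h.αd⟩ = finRotate 3 := by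
  have hi := h.inj3
  have a1 : α * (i 1 * i 2) * α⁻¹ = j 1 * j 2 := by rw [← conj_mul, h.fm.αi, h.fm.αi]
  have a2 : α * (j 1 * j 2) * α⁻¹ = i 1 * i 2 * (j 1 * j 2) := by
    rw [← conj_mul, h.fm.αj, h.fm.αj, Commute.mul_mul_mul_comm (h.fm.cij 2 1 (by decide))]
  have nrm := @h.nrm
  have aa := h.aa
  have bb := h.bb
  have ab := h.ab
  unfold KK
  generalize i 1 * i 2 = a, j 1 * j 2 = b at *
  have l1 : a * (a * b) = b := by rw [← mul_assoc, aa, one_mul]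
  have l2 : b * (a * b) = a := by rw [ab, ← mul_assoc, bb, one_mul]
  have l3 : a * b * a = b := by rw [mul_assoc, ← ab, l1]
  have l4 : a * b * b = a := by rw [mul_assoc, bb, mul_one]
  have : ∀ (g : cz d) k, ∃ l, g * ![a, b, a * b] k * (g : X)⁻¹ = ![a, b, a * b] l := fun g k => by
    obtain ⟨h1, h2⟩ := nrm (mem_cz.1 g.2)
    have In3 : ∀ {c}, In a b c → ∃ l, c = ![a, b, a * b] l := fun e => by
      rcases e with e | e | e; exacts [⟨0, e⟩, ⟨1, e⟩, ⟨2, e⟩]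
    have n : g * a * (g : X)⁻¹ ≠ g * b * (g : X)⁻¹ := fun e => by simpa using hi (a₁ := 0) (a₂ := 1) (by simpa using e)
    fin_cases k
    exacts [In3 h1, In3 h2, In3 (by
      show In a b (g * (a * b) * (g : X)⁻¹)
      rw [← conj_mul]
      rcases h1 with e | e | e <;> rcases h2 with e' | e' | e' <;> rw [e, e'] at n ⊢ <;>
        first | exact absurd rfl n | simp [In, l1, l2, l3, l4, ← ab])]
  choose f hf using this
  refine ⟨MonoidHom.toHomPerm (G := cz d) ⟨⟨f, funext fun k => hi ((hf 1 k).symm.trans (by simp; rfl))⟩, fun g g' => funext fun k =>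
    hi ?_⟩, hf, fun g => ⟨fun e => ?_, fun e => Equiv.ext fun k => hi ((hf g k).symm.trans ?_)⟩,
    Equiv.ext fun k => hi ((hf _ k).symm.trans ?_)⟩
  · show _ = ![a, b, a * b] (f g (f g' k))
    rw [← hf, ← hf, ← hf, coe_mul]; group
  · exact ⟨mem_cz.2 (mul_inv_eq_iff_eq_mul.1 ((hf g 0).trans (congrArg _ (Equiv.congr_fun e 0)))),
      mem_cz.2 (mul_inv_eq_iff_eq_mul.1 ((hf g 1).trans (congrArg _ (Equiv.congr_fun e 1))))⟩
  · refine mul_inv_eq_iff_eq_mul.2 ?_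
    fin_cases k
    exacts [mem_cz.1 e.1, mem_cz.1 e.2, Commute.mul_right (mem_cz.1 e.1) (mem_cz.1 e.2)]
  · fin_cases k
    exacts [a1, a2, show α * (a * b) * α⁻¹ = a by rw [← conj_mul, a1, a2, l2]]

end Cx

theorem Cx.mem_o2 [Finite X] (h : Cx ω σ R ζ J α τ i j d π) (g : cz d) : pr d g ∈ pCore 2 (Yq d) ↔
    (g : X) * (i 1 * i 2) = (i 1 * i 2) * g ∧ (g : X) * (j 1 * j 2) = (j 1 * j 2) * g ∧ (g : X) ^ 4 = 1 := by
  obtain ⟨φ, φi, -⟩ := h.exists_φ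
  have e : ∀ {x : X} (k : x ∈ KK i j) {n}, x ^ n = 1 → ∀ m, φ m ⟨x, k⟩ ^ n = 1 := fun k n e m => by
    rw [← map_pow, show (⟨_, k⟩ : KK i j) ^ n = 1 from Subtype.ext e, map_one]
  obtain ⟨ψ, hψ, ψ1, ψα⟩ := h.exists_ψ
  constructor
  · intro hg
    have two : ∀ g : cz d, pr d g ∈ pCore 2 (Yq d) → ∃ n, g ^ 2 ^ n = 1 := fun g hg => by
      obtain ⟨n, hn⟩ := isPGroup_pCore 2 _ ⟨_, hg⟩
      refine ⟨n + 1, Subtype.ext ?_⟩
      rw [pow_succ, pow_mul, pow_two, coe_mul]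
      rcases N2.zp h.d2 (pr_eq_one.1 ((map_pow _ g _).trans (congrArg Subtype.val hn))) with e | e <;> rw [e]
      exacts [mul_one _, h.d2]
    have t3 : ∀ g : cz d, pr d g ∈ pCore 2 (Yq d) → ψ g ^ 3 = 1 → ψ g = 1 := fun g hg e => by
      obtain ⟨n, hn⟩ := two g hg
      exact N2.one_of_cop e (by rw [← map_pow, hn, map_one]) ((by decide : Nat.Coprime 3 2).pow_right n)
    have k := (ψ1 g).1 (N2.s5 _ _ ψα (t3 g hg) (by
      have := t3 (g * ⟨α, mem_cz.2 h.αd⟩ * g⁻¹ * (⟨α, mem_cz.2 h.αd⟩ : cz d)⁻¹) (by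
        simpa only [map_mul, map_inv, mul_assoc] using mul_mem hg (Normal.conj_mem inferInstance _ (inv_mem hg) _))
      simpa only [map_mul, map_inv] using this))
    refine ⟨mem_cz.1 k.1, mem_cz.1 k.2, φi (⟨g, k⟩ ^ 4) fun l => ?_⟩
    obtain ⟨n, hn⟩ := two g hg
    rw [map_pow]
    exact N2.one_of_cop (m := 3) (n := 2 ^ n) (by rw [pow_right_comm]; exact (N2.s2 _).1)
      (by rw [pow_right_comm, e k (congrArg Subtype.val hn), one_pow]) ((by decide : Nat.Coprime 3 2).pow_right n)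
  · rintro ⟨h1, h2, h3⟩
    let D : Subgroup (cz d) :=
      { carrier := {g | (g : X) ∈ KK i j ∧ (g : X) ^ 4 = 1}
        one_mem' := ⟨one_mem _, by simp⟩
        inv_mem' := fun k => ⟨inv_mem k.1, by simp [k.2]⟩
        mul_mem' := fun {x y} k l => ⟨mul_mem k.1 l.1, φi ((⟨x, k.1⟩ * ⟨y, l.1⟩) ^ 4) fun m => by
          rw [map_pow, map_mul]; exact N2.s1 _ (e _ k.2 m) _ (e _ l.2 m)⟩ }
    have : D.Normal := ⟨fun x k y => ⟨(ψ1 _).1 (by simp [(ψ1 x).2 k.1]), by simp [conj_pow, k.2]⟩⟩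
    have := this.map (pr d) (QuotientGroup.mk'_surjective _)
    exact le_pCore (IsPGroup.map (H := D) (fun x => ⟨2, Subtype.ext (Subtype.ext x.2.2)⟩) (pr d))
      ⟨g, ⟨⟨mem_cz.2 h1, mem_cz.2 h2⟩, h3⟩, rfl⟩

theorem Cx.dc [Finite X] (h : Cx ω σ R ζ J α τ i j d π) (t3 : π τ ∈ L3 (π τ)) :
    Dc ω σ d ![Ev σ (i 1 * i 2) (j 1 * j 2) 1, Ev σ (i 1 * i 2) (j 1 * j 2) 2,
      Ev σ (i 1 * i 2) (j 1 * j 2) 3] := by
  obtain ⟨φ, φi, φ1, φ2⟩ := h.exists_φ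
  have hU : ![Ev σ (i 1 * i 2) (j 1 * j 2) 1, Ev σ (i 1 * i 2) (j 1 * j 2) 2, Ev σ (i 1 * i 2) (j 1 * j 2) 3] =
      fun k : Fin 3 => Ev σ (i 1 * i 2) (j 1 * j 2) k.succ := funext fun k => by fin_cases k <;> rfl
  have oR : ∀ {c}, c ∈ R → c ∈ KK i j → ∃ hc : c ∈ cz d, pr d ⟨c, hc⟩ ∈ pCore 2 (Yq d) := fun hc k =>
    ⟨mem_cz.2 ((h.memR hc).2 ⟨mem_cz.1 k.1, mem_cz.1 k.2⟩), (h.mem_o2 _).2 ⟨mem_cz.1 k.1, mem_cz.1 k.2, by
      rw [show 4 = 2 * 2 from rfl, pow_mul, pow_two, pow_two]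
      rcases h.ex.sq _ hc with e | e <;> simp [e, h.ex.z2]⟩⟩
  have aR := R.mul_mem (h.fm.iR 1) (h.fm.iR 2)
  have bR := R.mul_mem (h.fm.jR 1) (h.fm.jR 2)
  have aK : i 1 * i 2 ∈ KK i j := ⟨mem_cz.2 rfl, mem_cz.2 h.ab⟩
  have bK : j 1 * j 2 ∈ KK i j := ⟨mem_cz.2 h.ab.symm, mem_cz.2 rfl⟩
  have zK : ζ ∈ KK i j := ⟨mem_cz.2 (h.ex.zc _).symm, mem_cz.2 (h.ex.zc _).symm⟩
  have iK : i 0 ∈ KK i j := ⟨mem_cz.2 (Commute.mul_right (h.fm.cii 0 1) (h.fm.cii 0 2)),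
    mem_cz.2 (Commute.mul_right (h.fm.cij 0 1 (by decide)) (h.fm.cij 0 2 (by decide)))⟩
  have jK : j 0 ∈ KK i j := ⟨mem_cz.2 (Commute.mul_right (h.fm.cij 1 0 (by decide)).symm (h.fm.cij 2 0 (by decide)).symm),
    mem_cz.2 (Commute.mul_right (h.fm.cjj 0 1) (h.fm.cjj 0 2))⟩
  rw [hU]
  refine ⟨h.d2, h.d1, fun k => h.ei.dim _, fun k l n => h.ei.orth _ _ (mt Fin.succ_inj.1 n), fun k => h.ei.nd _,
    h.fix, fun g => h.ker, eq_bot_iff.2 fun n hn => ?_, fun g hg k => ?_, fun k => ?_,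
    h.mem_L3 rfl (h.πd ▸ t3), h.nwc⟩
  · obtain ⟨n, rfl⟩ := QuotientGroup.mk'_surjective (zd d) n
    have cm : ∀ {c}, c ∈ R → c ∈ KK i j → (n : X) * c = c * n := fun {c} hc k => by
      obtain ⟨hc', k'⟩ := oR hc k
      have : pr d (n * ⟨c, hc'⟩ * n⁻¹ * (⟨c, hc'⟩ : cz d)⁻¹) = 1 := mem_bot.1
        ((IsPGroup.disjoint_of_ne 3 2 (by decide) _ _ (isPGroup_pCore 3 _) (isPGroup_pCore 2 _)).le_bot (mem_inf.2 ⟨by
          simpa only [map_mul, map_inv, mul_assoc] using mul_mem hn (Normal.conj_mem inferInstance _ (inv_mem hn) _), by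
          simpa only [map_mul, map_inv] using mul_mem (Normal.conj_mem inferInstance _ k' _) (inv_mem k')⟩))
      exact commutatorElement_eq_one_iff_mul_comm.1 ((N2.zp h.d2 (pr_eq_one.1 this)).resolve_right fun e =>
        h.dR (e ▸ R.mul_mem (h.ex.nR.conj_mem _ hc _) (R.inv_mem hc)))
    have nK : (n : X) ∈ KK i j := ⟨mem_cz.2 (cm aR aK), mem_cz.2 (cm bR bK)⟩
    have z : ∀ l, φ l ⟨ζ, zK⟩ = -1 := fun l => (φ2 _ l).1 fun v _ => h.ei.neg v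
    have n2 : n ^ 2 = 1 := Subtype.ext (φi (⟨n, nK⟩ ^ 2) fun l => by
      rw [map_pow]
      refine N2.s3 (φ l ⟨_, iK⟩) ?_ (φ l ⟨_, jK⟩) ?_ ?_ _ ?_ ?_ <;> simp only [← z l, ← map_mul] <;>
        refine congrArg _ (Subtype.ext ?_)
      exacts [h.fm.ii 0, h.fm.jj 0, h.fm.ij 0, cm (h.fm.iR 0) iK, cm (h.fm.jR 0) jK])
    obtain ⟨k, hk⟩ := isPGroup_pCore 3 _ ⟨_, hn⟩
    exact N2.one_of_cop (m := 2) (by rw [← map_pow, n2, map_one]) (congrArg Subtype.val hk)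
      ((by decide : Nat.Coprime 2 3).pow_right k)
  · obtain ⟨h1, h2, h3⟩ := (h.mem_o2 g).1 hg
    have gK : (g : X) ∈ KK i j := ⟨mem_cz.2 h1, mem_cz.2 h2⟩
    exact ⟨fun v => N2.pres gK _, fun v _ => by simp [h3], fun e => ((N2.s2 (φ k.succ ⟨g, gK⟩)).2 (by
      rw [← map_pow]; exact (φ1 _ _).1 e)).imp (φ1 _ _).2 (φ2 _ _).2⟩
  · have m : ∀ x y v, σ (x * y) v = σ x (σ y v) := fun x y v => by rw [map_mul]; rfl
    fin_cases k
    · obtain ⟨hc, k⟩ := oR (R.mul_mem h.ex.zR aR) (mul_mem zK aK)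
      refine ⟨_, k, fun v hv => ?_, fun l n v hv => ?_⟩
      · simp [-map_mul, m ζ, h.ei.neg, hv.1]
      · fin_cases l <;> first | exact absurd rfl n | simp [-map_mul, m ζ, h.ei.neg, hv.1]
    · obtain ⟨hc, k⟩ := oR (R.mul_mem h.ex.zR bR) (mul_mem zK bK)
      refine ⟨_, k, fun v hv => ?_, fun l n v hv => ?_⟩
      · simp [-map_mul, m ζ, h.ei.neg, hv.2]
      · fin_cases l <;> first | exact absurd rfl n | simp [-map_mul, m ζ, h.ei.neg, hv.2]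
    · obtain ⟨hc, k⟩ := oR (R.mul_mem h.ex.zR (R.mul_mem aR bR)) (mul_mem zK (mul_mem aK bK))
      refine ⟨_, k, fun v hv => ?_, fun l n v hv => ?_⟩
      · simp [-map_mul, m ζ, m (i 1 * i 2), h.ei.neg, hv.1, hv.2]
      · fin_cases l <;> first | exact absurd rfl n | simp [-map_mul, m ζ, m (i 1 * i 2), h.ei.neg, hv.1, hv.2]

end CL.B3
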