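import Cfsg.Agent.SPOR.B3.Defs
import Cfsg.Agent.SPOR.B3.N2

/-!
The order and structure of `O₂(C_X(d)/<d>)`.

`N = C(d)`, `K = C(a) ⊓ C(b) ≤ N`, `D` = preimage in `N` of `O₂(Y)` `= {g ∈ K | g^4 = 1}` (`mem_o2`), a 2-group of order
`2 |O₂(Y)|`.  `|K : D|` is a power of 3 (`(g^3)^4 = 1` for `g ∈ K` by `exists_sl2` on the four planes, so `K/D` has exponent 3).
`N` permutes `{a, b, ab}` with kernel `K` (`nrm`), so `|N : K|` divides 6.  `|N| = 32 |C(t)|` (`cardN`).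
* `d23`: `π α` is central, so `g α g⁻¹ α⁻¹ ∈ R ⊓ N ≤ K` (`memR`) for `g ∈ N`: the permutation of `g` commutes with the 3-cycle of `α`,
  so `g ∈ K ∪ α K ∪ α² K` and `|N : K|` is odd.  Hence `|D|` is the 2-part `32 * 8` of `|N|`.  The second part is `mem_L3`
  (`π g ∈ C(t)` by `πd`).
* `dB`: `Φ = (φ 1, φ 2, φ 3) : K → SL₂(3)³` has kernel `{1, d}` (`ker`, `fix`) and maps `D` into `Q³`, `Q = {m | m^4 = 1} ≅ Q₈`
  (8 elements).  So `|D| ≤ 1024`; `2^11 ∣ |N|` gives `2^10 ∣ |D|`.  So `Φ D = Q³` and `O₂(Y) ≅ D/<d> ≅ Q³`.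
-/

set_option autoImplicit false
open Subgroup Cfsg

namespace CL.B3

variable {X T V : Type*} [Group X] [Group T] [AddCommGroup V] [Module F3 V]
  {ω : V →ₗ[F3] V →ₗ[F3] F3} {σ : X →* V →ₗ[F3] V} {R J : Subgroup X} {ζ α τ d : X} {i j : Fin 3 → X}
  {π : X →* T}

namespace N3
open scoped MatrixGroups
set_option maxRecDepth 100000

theorem s6 : ∀ p : Equiv.Perm (Fin 3), p * finRotate 3 * p⁻¹ * (finRotate 3)⁻¹ = 1 → p ^ 3 ^ 1 = 1 := by decide +kernel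

/-- the quaternion group in `SL₂(3)` -/
def q8 : QuaternionGroup 2 →* SL(2, F3) := MonoidHom.mk' (fun
  | .a k => ⟨!![0, 2; 1, 0], by decide⟩ ^ k.val
  | .xa k => ⟨!![1, 1; 1, 2], by decide⟩ * ⟨!![0, 2; 1, 0], by decide⟩ ^ k.val) (by decide +kernel)

theorem q8_inj : Function.Injective q8 := by decide +kernel
theorem q8_surj : ∀ m, m ^ 4 = 1 → ∃ x, q8 x = m := by decide +kernel

end N3

theorem Cx.card_N [Finite X] (h : Cx ω σ R ζ J α τ i j d π) {ψ : cz d →* Equiv.Perm (Fin 3)}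
    (ψ1 : ∀ g, ψ g = 1 ↔ (g : X) ∈ KK i j) : ∃ m k, Nat.card (pCore 2 (Yq d)) = 2 ^ m ∧
      Nat.card (cz d) = 2 ^ (m + 1) * 3 ^ k * Nat.card ψ.range := by
  obtain ⟨φ, φi, -⟩ := h.exists_φ
  obtain ⟨m, hm⟩ := (isPGroup_pCore 2 (Yq d)).exists_card_eq
  have le : (pCore 2 (Yq d)).comap (pr d) ≤ ψ.ker := fun g hg =>
    (ψ1 g).2 ⟨mem_cz.2 ((h.mem_o2 _).1 hg).1, mem_cz.2 ((h.mem_o2 _).1 hg).2.1⟩
  have : IsPGroup 3 (ψ.ker ⧸ ((pCore 2 (Yq d)).comap (pr d)).subgroupOf ψ.ker) := fun g => by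
    obtain ⟨g, rfl⟩ := QuotientGroup.mk_surjective g
    have k := (ψ1 _).1 (pow_mem g.2 3)
    exact ⟨1, (QuotientGroup.eq_one_iff (g ^ 3)).2 ((h.mem_o2 _).2 ⟨mem_cz.1 k.1, mem_cz.1 k.2,
      φi ((⟨_, (ψ1 _).1 g.2⟩ ^ 3) ^ 4) fun l => by rw [map_pow, map_pow]; exact (N2.s2 _).1⟩)⟩
  obtain ⟨k, hk⟩ := this.exists_card_eq
  have c2 : Nat.card (zd d) = 2 := by
    rw [Nat.card_congr (subgroupOfEquivOfLe (zpowers_le.2 (mem_cz.2 rfl))).toEquiv, Nat.card_zpowers,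
      orderOf_eq_prime ((pow_two d).trans h.d2) h.d1]
  refine ⟨m, k, hm, ?_⟩
  rw [card_eq_card_quotient_mul_card_subgroup (zd d), c2, ← (pCore 2 (Yq d)).card_mul_index, hm,
    ← index_comap_of_surjective _ (QuotientGroup.mk'_surjective (zd d)), ← relIndex_mul_index le, index_ker,
    show relIndex _ _ = _ from hk]
  ring

theorem Cx.d23 [Finite X] (h : Cx ω σ R ζ J α τ i j d π) (hP : P23 (π α) (π τ)) : D23 d := by
  obtain ⟨ψ, -, ψ1, ψα⟩ := h.exists_ψ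
  obtain ⟨m, k, h1, h2⟩ := h.card_N ψ1
  obtain ⟨hc, hL, ⟨c, h8⟩, h16⟩ := hP
  have : IsPGroup 3 ψ.range := by
    rintro ⟨_, g, rfl⟩
    have e : (g * ⟨α, mem_cz.2 h.αd⟩ * g⁻¹ * (⟨α, mem_cz.2 h.αd⟩ : cz d)⁻¹ : cz d).1 ∈ R := (h.πk _).1 (by simp [hc])
    have := (ψ1 _).2 (((h.memR e).1 (mem_cz.1 (Subtype.prop _))).imp mem_cz.2 mem_cz.2)
    exact ⟨1, Subtype.ext (N3.s6 _ (by simpa only [map_mul, map_inv, ψα] using this))⟩
  obtain ⟨l, hl⟩ := this.exists_card_eq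
  rw [h.cardN, h8, hl, mul_assoc, ← pow_add, ← mul_assoc, show 32 * 8 = 2 ^ 8 from rfl] at h2
  have c2 : Nat.Coprime 2 c := (Nat.Prime.coprime_iff_not_dvd Nat.prime_two).2 fun ⟨e, he⟩ => h16 ⟨e, by rw [h8, he]; ring⟩
  refine ⟨?_, fun g hg => h.mem_L3 (mem_cz.1 hg) (hL (mem_cz.2 (by rw [← h.πd, ← map_mul, ← map_mul, mem_cz.1 hg])))⟩
  have := (Nat.pow_dvd_pow_iff_le_right one_lt_two).1 (((by decide : Nat.Coprime 2 3).pow 8 _).dvd_of_dvd_mul_right ⟨c, h2.symm⟩)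
  have := (Nat.pow_dvd_pow_iff_le_right one_lt_two).1 ((c2.pow_left (m + 1)).dvd_of_dvd_mul_right ⟨_, h2⟩)
  rw [h1, show m = 7 by omega]

theorem Cx.dB [Finite X] (h : Cx ω σ R ζ J α τ i j d π) (hP : PB (π α) (π τ)) : DB d := by
  obtain ⟨ψ, -, ψ1, -⟩ := h.exists_ψ
  obtain ⟨φ, -, φ1, -⟩ := h.exists_φ
  obtain ⟨m, k, h1, h2⟩ := h.card_N ψ1
  have hm : 11 ≤ m + 2 := by
    have h6 : Nat.card ψ.range ∣ 6 := by simpa [Fintype.card_perm, Nat.factorial] using card_subgroup_dvd_card ψ.range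
    refine (Nat.pow_dvd_pow_iff_le_right one_lt_two).1 (((by decide : Nat.Coprime 2 3).pow 11 (k + 1)).dvd_of_dvd_mul_right ?_)
    rw [show 2 ^ (m + 2) * 3 ^ (k + 1) = 2 ^ (m + 1) * 3 ^ k * 6 by ring]
    exact ((h2 ▸ h.cardN ▸ Nat.mul_dvd_mul_left 32 hP :) : 32 * 64 ∣ _).trans (Nat.mul_dvd_mul_left _ h6)
  let D := (pCore 2 (Yq d)).comap (pr d)
  have DK : ∀ g : D, (g.1 : X) ∈ KK i j := fun g =>
    ⟨mem_cz.2 ((h.mem_o2 _).1 g.2).1, mem_cz.2 ((h.mem_o2 _).1 g.2).2.1⟩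
  let ι : D →* KK i j := ((cz d).subtype.comp D.subtype).codRestrict _ DK
  have : ∀ l, ∃ θ : D →* QuaternionGroup 2, ∀ g, N3.q8 (θ g) = φ l (ι g) := fun l =>
    ⟨(MonoidHom.ofInjective N3.q8_inj).symm.toMonoidHom.comp (((φ l).comp ι).codRestrict _ fun g => N3.q8_surj _ (by
      rw [← map_pow]
      exact (congrArg (φ l) (Subtype.ext ((h.mem_o2 _).1 g.2).2.2)).trans (map_one _))),
      fun g => MonoidHom.apply_ofInjective_symm N3.q8_inj _⟩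
  choose θ hθ using this
  have θ1 : ∀ l g, θ l g = 1 ↔ ∀ v ∈ Ev σ (i 1 * i 2) (j 1 * j 2) l, σ g.1 v = v := fun l g => by
    rw [← N3.q8_inj.eq_iff, hθ, map_one, ← φ1]; rfl
  have hs := (pr d).subgroupComap_surjective_of_surjective (pCore 2 (Yq d)) (QuotientGroup.mk'_surjective _)
  have hk : ((pr d).subgroupComap _).ker = ((θ 1).prod ((θ 2).prod (θ 3))).ker := Subgroup.ext fun g => by
    simp only [MonoidHom.mem_ker, MonoidHom.prod_apply, Prod.mk_eq_one, θ1, Subtype.ext_iff]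
    refine pr_eq_one.trans ⟨fun e => ?_, fun ⟨e1, e2, e3⟩ => ?_⟩
    · rcases N2.zp h.d2 e with e | e <;> rw [e]
      · simp
      · exact ⟨h.ei.dk 1 (by decide), h.ei.dk 2 (by decide), h.ei.dk 3 (by decide)⟩
    · rcases h.ker (mem_cz.1 g.1.2) fun v hv => (sup_le (sup_le e1 e2) e3 :
        _ ≤ LinearMap.eqLocus (σ g.1) LinearMap.id) ((h.fix v).1 hv) with e | e <;> simp [e]
  let f := ((pr d).subgroupComap _).liftOfRightInverse _ (Function.rightInverse_surjInv hs) ⟨_, hk.le⟩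
  have fi : Function.Injective f := (injective_iff_map_eq_one f).2 fun y hy => by
    obtain ⟨x, rfl⟩ := hs y
    exact hk.ge ((MonoidHom.liftOfRightInverse_comp_apply ..).symm.trans hy)
  refine ⟨MulEquiv.ofBijective f ((Nat.bijective_iff_injective_and_card f).2
    ⟨fi, (Nat.card_le_card_of_injective f fi).antisymm ?_⟩)⟩
  rw [h1]
  simpa [QuaternionGroup.card] using Nat.pow_le_pow_right two_pos (show 9 ≤ m by omega)

end CL.B3
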