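import Cfsg.Agent.SPOR.B3.Cd

/-!
(S2914/S2915): passage to `C(d)/<d>`.

`lift_cz`: `n z n⁻¹ ∈ {z, z d}` and `(z d)³ = d ≠ 1` unless `d = 1`.
`lift_c`: `p m = 1 ↔ m ∈ Q` (`faith`, `ker`, `ρ_Q`).  For a lift `m₀` of `n`, `m₀ e m₀⁻¹ = q e` with `q ∈ Q`, and
`conj_of_cube` gives `q⁻¹ e q = q e`, so `m = q m₀` commutes with `e`.
`quot`: `W = U 0 ⊔ U 1 ⊔ U 2` is the fixed space of `ρ e` (`D.fix`), of dimension 6 (`dim`, `orth`, `nd`), nondegenerate.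
`f' c v = pr e ⟨f c v, fix_inv⟩`, `Q'` = the set of these (image of `Q ⊓ C(e)`), injective as `Q ⊓ <e> = 1`.
For `m` commuting with `z'` choose a lift `n ∈ C(e) ⊓ C(z)` (`lift_cz`); `ρ n` preserves `W`, and its restriction does not depend on
the lift (`ρ e = 1` on `W`): `ρ' m`.  `ker`: `D.ker` gives `p n ∈ {1, p e}`, so `n` or `e n` lies in `Q ⊓ C(e)`.
`μ m = pr (p e) ⟨p n, _⟩` (e.g. via `θ : C(e) ⊓ C(z) →* C(z')` onto with kernel `<e>` and `MonoidHom.liftOfSurjective`),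
onto by `lift_c`.  `U' k = (U k).comap W.subtype`.
-/

set_option autoImplicit false
open Subgroup Cfsg

namespace CL.B3

namespace Qt

theorem zp2 {G : Type*} [Group G] {d x : G} (d2 : d * d = 1) (hx : x ∈ zpowers d) : x = 1 ∨ x = d := by
  obtain ⟨k, rfl⟩ := mem_zpowers_iff.1 hx
  have h2 : d ^ (2 : ℤ) = 1 := by rw [zpow_two, d2]
  rcases Int.even_or_odd' k with ⟨j, rfl | rfl⟩
  · left; rw [zpow_mul, h2, one_zpow]
  · right; rw [zpow_add, zpow_mul, h2, one_zpow, one_mul, zpow_one]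

variable {V : Type*} [AddCommGroup V] [Module F3 V] {ω : V →ₗ[F3] V →ₗ[F3] F3} {U : Fin 3 → Submodule F3 V}

theorem dec {v : V} (hv : v ∈ U 0 ⊔ U 1 ⊔ U 2) : ∃ a ∈ U 0, ∃ b ∈ U 1, ∃ c ∈ U 2, v = a + b + c := by
  obtain ⟨x, hx, c, hc, rfl⟩ := Submodule.mem_sup.1 hv
  obtain ⟨a, ha, b, hb, rfl⟩ := Submodule.mem_sup.1 hx
  exact ⟨a, ha, b, hb, c, hc, rfl⟩

theorem le (k : Fin 3) : U k ≤ U 0 ⊔ U 1 ⊔ U 2 := by
  fin_cases k
  · exact le_sup_of_le_left le_sup_left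
  · exact le_sup_of_le_left le_sup_right
  · exact le_sup_right

theorem ndW (orth : ∀ k l, k ≠ l → ∀ v ∈ U k, ∀ w ∈ U l, ω v w = 0)
    (nd : ∀ k, ∀ v ∈ U k, (∀ w ∈ U k, ω v w = 0) → v = 0) {v : V} (hv : v ∈ U 0 ⊔ U 1 ⊔ U 2)
    (h : ∀ w ∈ U 0 ⊔ U 1 ⊔ U 2, ω v w = 0) : v = 0 := by
  obtain ⟨a, ha, b, hb, c, hc, rfl⟩ := dec hv
  have h0 : a = 0 := nd 0 a ha fun w hw => by
    simpa [orth 1 0 (by decide) b hb w hw, orth 2 0 (by decide) c hc w hw] using h w (le 0 hw)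
  have h1 : b = 0 := nd 1 b hb fun w hw => by
    simpa [orth 0 1 (by decide) a ha w hw, orth 2 1 (by decide) c hc w hw] using h w (le 1 hw)
  have h2 : c = 0 := nd 2 c hc fun w hw => by
    simpa [orth 0 2 (by decide) a ha w hw, orth 1 2 (by decide) b hb w hw] using h w (le 2 hw)
  rw [h0, h1, h2, add_zero, add_zero]

theorem dimW [Module.Finite F3 V] (dim : ∀ k, Module.finrank F3 (U k) = 2)
    (orth : ∀ k l, k ≠ l → ∀ v ∈ U k, ∀ w ∈ U l, ω v w = 0)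
    (nd : ∀ k, ∀ v ∈ U k, (∀ w ∈ U k, ω v w = 0) → v = 0) :
    Module.finrank F3 ↥(U 0 ⊔ U 1 ⊔ U 2) = 6 := by
  have a : U 0 ⊓ U 1 = ⊥ := eq_bot_iff.2 fun v hv =>
    nd 1 v hv.2 fun w hw => orth 0 1 (by decide) v hv.1 w hw
  have b : (U 0 ⊔ U 1) ⊓ U 2 = ⊥ := eq_bot_iff.2 fun v hv => nd 2 v hv.2 fun w hw => by
    obtain ⟨x, hx, y, hy, rfl⟩ := Submodule.mem_sup.1 hv.1
    simp [orth 0 2 (by decide) x hx w hw, orth 1 2 (by decide) y hy w hw]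
  have c := Submodule.finrank_sup_add_finrank_inf_eq (U 0) (U 1)
  have d := Submodule.finrank_sup_add_finrank_inf_eq (U 0 ⊔ U 1) (U 2)
  rw [a, finrank_bot, dim, dim] at c
  rw [b, finrank_bot, dim] at d
  omega

end Qt

open Qt

variable {G X V : Type*} [Group G] [Finite G] [Group X] [AddCommGroup V] [Module F3 V] {z : G}
  {Q : Subgroup G} {ω : V →ₗ[F3] V →ₗ[F3] F3} {f : F3 → V → G} {ρ : G → V →ₗ[F3] V} {p : cz z →* X}
  {σ : X →* V →ₗ[F3] V}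

omit [Finite G] in
theorem lift_cz {d : G} (d2 : d * d = 1) (z3 : z ^ 3 = 1) (hz : z ∈ cz d) {n : cz d}
    (h : pr d n * pr d ⟨z, hz⟩ = pr d ⟨z, hz⟩ * pr d n) : (n : G) * z = z * n := by
  have hc : ((n * ⟨z, hz⟩ * n⁻¹ * ⟨z, hz⟩⁻¹ : cz d) : G) ∈ zpowers d := pr_eq_one.1 (by
    rw [map_mul, map_mul, map_mul, h, map_inv, map_inv]; group)
  simp only [coe_mul, coe_inv] at hc
  have c : Commute d z := (mem_cz.1 hz).symm
  rcases zp2 d2 hc with e | e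
  · rwa [mul_inv_eq_one, mul_inv_eq_iff_eq_mul] at e
  · have e1 : (n : G) * z * (n : G)⁻¹ = d * z := mul_inv_eq_iff_eq_mul.1 e
    have e3 : (d * z) ^ 3 = 1 := by rw [← e1, conj_pow, z3]; group
    rw [c.mul_pow, z3, mul_one, pow_three', d2, one_mul] at e3
    exact mul_inv_eq_iff_eq_mul.1 (e1.trans (by rw [e3, one_mul]))

omit [Finite G] in
theorem Cd.p_eq_one (h : Cd z Q ω f ρ) (L : Lin ω σ) (pρ : ∀ m : cz z, σ (p m) = ρ m) (m : cz z) :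
    p m = 1 ↔ (m : G) ∈ Q := by
  refine ⟨fun e => h.ker m (mem_cz.1 m.2) fun v => ?_, fun hm => L.faith _ fun v => ?_⟩
  · rw [← pρ, e, map_one]; rfl
  · rw [pρ, h.ρ_Q hm]

omit [Finite G] in
theorem Cd.lift_c (h : Cd z Q ω f ρ) (L : Lin ω σ) (ps : Function.Surjective p)
    (pρ : ∀ m : cz z, σ (p m) = ρ m) {e : cz z} (e2 : e * e = 1) {n : X} (hn : n * p e = p e * n) :
    ∃ m : cz z, p m = n ∧ m * e = e * m := by
  obtain ⟨m, rfl⟩ := ps n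
  have p1 : p (m * e * m⁻¹ * e⁻¹) = 1 := by rw [map_mul, map_mul, map_mul, hn, map_inv, map_inv]; group
  have q3 : (m * e * m⁻¹ * e⁻¹) ^ 3 = 1 := Subtype.ext (h.cube ((h.p_eq_one L pρ _).1 p1))
  obtain ⟨q, hq⟩ : ∃ q, q = m * e * m⁻¹ * e⁻¹ := ⟨_, rfl⟩
  rw [← hq] at p1 q3
  have e1 : q * e = m * e * m⁻¹ := by rw [hq]; group
  have k := conj_of_cube q3 e2 (by
    rw [e1]
    calc _ = m * (e * e) * m⁻¹ := by group
      _ = 1 := by rw [e2]; group)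
  refine ⟨q * m, by rw [map_mul, p1, one_mul], ?_⟩
  calc q * m * e = q * (m * e * m⁻¹) * m := by group
    _ = _ := by rw [← e1, ← k]; group

theorem Cd.quot (h : Cd z Q ω f ρ) (L : Lin ω σ) (ps : Function.Surjective p)
    (pρ : ∀ m : cz z, σ (p m) = ρ m) {e : cz z} (e2 : e * e = 1) {U : Fin 3 → Submodule F3 V}
    (D : Dc ω σ (p e) U) (hz : z ∈ cz (e : G)) :
    ∃ (Q' : Subgroup (Yq (e : G))) (ω' : ↥(U 0 ⊔ U 1 ⊔ U 2) →ₗ[F3] ↥(U 0 ⊔ U 1 ⊔ U 2) →ₗ[F3] F3)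
      (f' : F3 → ↥(U 0 ⊔ U 1 ⊔ U 2) → Yq (e : G))
      (ρ' : Yq (e : G) → ↥(U 0 ⊔ U 1 ⊔ U 2) →ₗ[F3] ↥(U 0 ⊔ U 1 ⊔ U 2))
      (μ : cz (pr (e : G) ⟨z, hz⟩) →* Yq (p e)) (U' : Fin 3 → Submodule F3 ↥(U 0 ⊔ U 1 ⊔ U 2)),
      C6 (pr (e : G) ⟨z, hz⟩) Q' ω' f' ρ' μ U' := by
  classical
  have := h.finite
  have : Module.Finite F3 V := Module.Finite.of_finite
  have d2 : (e : G) * e = 1 := congrArg Subtype.val e2
  have dz : (e : G) * z = z * e := mem_cz.1 e.2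
  have hW : ∀ v, v ∈ U 0 ⊔ U 1 ⊔ U 2 ↔ ρ e v = v := fun v => by rw [← D.fix, pρ]
  let ι : cz e →* cz (e : G) := ((cz z).subtype.comp (cz e).subtype).codRestrict _ fun n =>
    mem_cz.2 (congrArg Subtype.val (mem_cz.1 n.2))
  let θ : cz e →* cz (pr (e : G) ⟨z, hz⟩) := ((pr (e : G)).comp ι).codRestrict _ fun n => mem_cz.2 (by
    rw [MonoidHom.comp_apply, ← map_mul, ← map_mul]
    exact congrArg _ (Subtype.ext (mem_cz.1 n.1.2)))
  have θv : ∀ n, (θ n : Yq (e : G)) = pr (e : G) (ι n) := fun _ => rfl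
  have θs : Function.Surjective θ := fun ⟨m, hm⟩ => by
    obtain ⟨n, rfl⟩ := QuotientGroup.mk'_surjective _ m
    exact ⟨⟨⟨n, mem_cz.2 (lift_cz d2 h.z3 hz (mem_cz.1 hm))⟩, mem_cz.2 (Subtype.ext (mem_cz.1 n.2))⟩, rfl⟩
  let e' : cz e := ⟨e, mem_cz.2 rfl⟩
  have θk : ∀ n, θ n = 1 → n = 1 ∨ n = e' := fun n hn =>
    (zp2 d2 (pr_eq_one.1 (congrArg Subtype.val hn))).imp (fun k => Subtype.ext (Subtype.ext k))
      fun k => Subtype.ext (Subtype.ext k)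
  have θe : θ e' = 1 := Subtype.ext (pr_eq_one.2 (mem_zpowers _))
  let p' : cz e →* cz (p e) := (p.comp (cz e).subtype).codRestrict _ fun n => mem_cz.2 (by
    rw [MonoidHom.comp_apply, ← map_mul, ← map_mul]
    exact congrArg _ (mem_cz.1 n.2))
  have p'v : ∀ n, (p' n : X) = p n := fun _ => rfl
  have p's : Function.Surjective p' := fun ⟨x, hx⟩ => by
    obtain ⟨m, rfl, hm⟩ := h.lift_c L ps pρ e2 (mem_cz.1 hx)
    exact ⟨⟨m, mem_cz.2 hm⟩, rfl⟩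
  have kk : θ.ker ≤ ((pr (p e)).comp p').ker := fun n hn => by
    rcases θk n hn with rfl | rfl
    · exact one_mem _
    · exact pr_eq_one.2 (mem_zpowers _)
  let μ : cz (pr (e : G) ⟨z, hz⟩) →* Yq (p e) := θ.liftOfSurjective θs ⟨_, kk⟩
  have hμ : ∀ n, μ (θ n) = pr (p e) (p' n) := fun n =>
    θ.liftOfRightInverse_comp_apply _ (Function.rightInverse_surjInv θs) ⟨_, kk⟩ n
  have app : ∀ x y v, σ (x * y) v = σ x (σ y v) := fun x y v => by rw [map_mul]; rfl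
  have pres : ∀ n : cz e, ∀ v ∈ U 0 ⊔ U 1 ⊔ U 2, σ (p' n) v ∈ U 0 ⊔ U 1 ⊔ U 2 := fun n v hv => by
    rw [← D.fix] at hv ⊢
    rw [← app, ← mem_cz.1 (p' n).2, app, hv]
  let ρ' : Yq (e : G) → ↥(U 0 ⊔ U 1 ⊔ U 2) →ₗ[F3] ↥(U 0 ⊔ U 1 ⊔ U 2) := fun m =>
    if k : ∃ n, (θ n : Yq (e : G)) = m then (σ (p' k.choose)).restrict (pres _) else 1
  have hρ : ∀ n v, (ρ' (θ n) v : V) = σ (p' n) v := fun n v => by
    have k : ∃ n', (θ n' : Yq (e : G)) = θ n := ⟨n, rfl⟩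
    have k1 : θ (k.choose⁻¹ * n) = 1 := by rw [map_mul, map_inv, Subtype.ext k.choose_spec, inv_mul_cancel]
    simp only [ρ', dif_pos k, LinearMap.coe_restrict_apply]
    generalize k.choose = n' at k1
    rcases θk _ k1 with k2 | k2
    · rw [inv_mul_eq_one.1 k2]
    · rw [inv_mul_eq_iff_eq_mul.1 k2, map_mul, coe_mul, app]
      exact congrArg _ ((D.fix _).2 v.2).symm
  have fm : ∀ (c : F3) (v : ↥(U 0 ⊔ U 1 ⊔ U 2)), f c v ∈ cz (e : G) := fun c v =>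
    mem_cz.2 (h.fix_inv dz d2 ((hW _).1 v.2) c).symm
  let Q' : Subgroup (Yq (e : G)) := (Q.subgroupOf (cz (e : G))).map (pr (e : G))
  have inQ : ∀ n, (p' n : X) = 1 ∨ (p' n : X) = p e → (θ n : Yq (e : G)) ∈ Q' := fun n hn => by
    rcases hn with k | k
    · exact ⟨ι n, (h.p_eq_one L pρ _).1 k, rfl⟩
    · have k1 : p (n * e' : cz e) = 1 := by
        rw [coe_mul, map_mul, ← p'v, k]; exact D.d2
      refine ⟨ι (n * e'), (h.p_eq_one L pρ _).1 k1, ?_⟩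
      rw [← θv, map_mul, θe, mul_one]
  refine ⟨Q', ω.domRestrict₁₂ _ _, fun c v => pr (e : G) ⟨f c v, fm c v⟩, ρ', μ,
    fun k => (U k).comap (Submodule.subtype _),
    ⟨fun v => h.alt v, fun v hv => Subtype.ext (ndW D.orth D.nd v.2 fun w hw => hv ⟨w, hw⟩),
      fun c v a w => ?_, fun {c v a w} k => ?_, fun g => ⟨?_, ?_⟩, ?_, fun m hm => ?_, fun m hm k => ?_⟩,
    dimW D.dim D.orth D.nd, fun y => ?_, fun m => ?_, fun k => ?_, fun k l n v hv w hw => D.orth k l n v hv w hw,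
    fun k v hv hw => Subtype.ext (D.nd k v hv fun w kw => hw ⟨w, le k kw⟩ kw), ?_, D.o3, fun g hg k => ?_,
    fun k => ?_⟩
  · rw [← map_mul]
    exact congrArg _ (Subtype.ext (h.mul ..))
  · have k1 : (f c v)⁻¹ * f a w ∈ zpowers (e : G) := mem_subgroupOf.1 (QuotientGroup.eq.1 k)
    rcases zp2 d2 k1 with k2 | k2
    · exact (h.inj (inv_mul_eq_one.1 k2)).imp_right Subtype.ext
    · exact absurd ((h.p_eq_one L pρ e).2 (k2 ▸ mul_mem (inv_mem (h.mQ ..)) (h.mQ ..))) D.d1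
  · rintro ⟨q, hq, rfl⟩
    obtain ⟨c, v, k⟩ := (h.mem _).1 (mem_subgroupOf.1 hq)
    exact ⟨c, ⟨v, (hW v).2 (h.ρ_fix dz (k ▸ (mem_cz.1 q.2).symm))⟩, congrArg _ (Subtype.ext k)⟩
  · rintro ⟨c, v, rfl⟩
    exact ⟨_, h.mQ c v, rfl⟩
  · exact congrArg _ (Subtype.ext h.fz)
  · obtain ⟨n, k⟩ := θs ⟨m, mem_cz.2 hm⟩
    obtain rfl : (θ n : Yq (e : G)) = m := congrArg Subtype.val k
    obtain ⟨δ, hδ⟩ := h.act (n : cz z) (mem_cz.1 n.1.2)
    refine ⟨fun v => δ v, fun c v => ?_⟩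
    rw [θv, ← map_mul, ← map_inv, ← map_mul]
    refine congrArg _ (Subtype.ext ((hδ c v).trans ?_))
    rw [← pρ, ← p'v, ← hρ]; rfl
  · obtain ⟨n, k'⟩ := θs ⟨m, mem_cz.2 hm⟩
    obtain rfl : (θ n : Yq (e : G)) = m := congrArg Subtype.val k'
    exact inQ n (D.ker _ (mem_cz.1 (p' n).2) fun v hv =>
      (hρ n ⟨v, (D.fix v).1 hv⟩).symm.trans (congrArg Subtype.val (k _)))
  · obtain ⟨x, rfl⟩ := QuotientGroup.mk'_surjective _ y
    obtain ⟨n, rfl⟩ := p's x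
    exact ⟨θ n, hμ n⟩
  · obtain ⟨n, rfl⟩ := θs m
    refine ⟨fun k => inQ n (zp2 D.d2 (pr_eq_one.1 ((hμ n).symm.trans k))), ?_⟩
    rintro ⟨q, hq, k⟩
    have hq' : (q : G) ∈ Q := hq
    let q' : cz e := ⟨⟨q, mem_cz.2 (h.Qz hq')⟩, mem_cz.2 (Subtype.ext (mem_cz.1 q.2))⟩
    have k1 : θ q' = θ n := Subtype.ext k
    have k2 : p' q' = 1 := Subtype.ext ((h.p_eq_one L pρ _).2 hq')
    rw [← k1, hμ, k2, map_one]
  · rw [(Submodule.comapSubtypeEquivOfLe (le k)).finrank_eq, D.dim]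
  · refine eq_top_iff.2 fun v _ => ?_
    obtain ⟨a, ha, b, hb, c, hc, k⟩ := dec v.2
    have : v = ⟨a, le 0 ha⟩ + ⟨b, le 1 hb⟩ + ⟨c, le 2 hc⟩ := Subtype.ext k
    rw [this]
    exact Submodule.add_mem_sup (Submodule.add_mem_sup ha hb) hc
  · obtain ⟨n, rfl⟩ := θs g
    obtain ⟨k1, k2, k3⟩ := D.o2 (p' n) (hμ n ▸ hg) k
    refine ⟨fun v hv => ?_, fun v hv => Subtype.ext ?_, fun k4 => ?_⟩
    · rw [Submodule.mem_comap, Submodule.subtype_apply, hρ]; exact k1 _ hv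
    · rw [← map_pow, hρ, map_pow]; exact k2 _ hv
    · refine (k3 fun v hv => ?_).imp (fun k5 v hv => Subtype.ext ((hρ n v).trans (k5 _ hv)))
        fun k5 v hv => Subtype.ext ((hρ n v).trans (k5 _ hv))
      have := congrArg Subtype.val (k4 ⟨v, le k hv⟩ hv)
      rwa [← map_pow, hρ, map_pow] at this
  · obtain ⟨g, k1, k2, k3⟩ := D.inv k
    obtain ⟨n, rfl⟩ := p's g
    exact ⟨θ n, hμ n ▸ k1, fun v hv => Subtype.ext ((hρ n v).trans (k2 _ hv)),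
      fun l hl v hv => Subtype.ext ((hρ n v).trans (k3 l hl _ hv))⟩

end CL.B3
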