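import Cfsg.Agent.SPOR.B3.Irr
import Cfsg.Agent.PLOC.ESForm
import Cfsg.Agent.SPOR.ES2
import Cfsg.Agent.SIG.FStar

/-!
(S2914/S2915): from the hypotheses of the statements to `St`.

`Z = zpowers z`, `M = centralizer Z = cz z` (transport `p` along `MulEquiv.subgroupCongr`), `Q₀ = F*(M)`, `C_M(Q₀) ≤ Q₀`
(library: centralizer of `generalizedFittingSubgroup`), so `z ∈ Q₀` is central and `ES.zdata_of_isExtraspecial` gives
`d : ZData 3 Q₀ ⟨z,_⟩`, `V = d.V` (dimension 8), `ω = d.B`.  `M` acts on `V` (conjugation descends; additive maps are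
`ZMod 3`-linear: `AddMonoidHom.toZModLinearMap`), preserving `ω`.  An element acting trivially on `V` acts on `Q₀` as an inner
automorphism (`d.functional` is `ω w ·` by nondegeneracy; cf. `C3.inner`), so it lies in `Q₀`: `σ` on `X = M ⧸ Q₀` is faithful.
`Ex`: `LX.exists_es_of_isExtraspecial`, `C_X(F*(X)) ≤ F*(X)`, `ζ` central as `Z(R) = {1, ζ}` is normal.  `Lin.neg`: `σ ζ = -1`.
`r = r₀³` for a lift `r₀` of `ζ` (`r₀² ∈ Q₀`).  Every coset `q <z>` contains an element `s v` inverted by `r`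
(`r q r⁻¹ = q⁻¹ z^m`, take `q z^m`); `f c v = z^c * s v`.  If `s v * s w = z^c s (v + w)`, conjugating by `r` and inverting gives
`s w * s v = z^(-c) s (v + w)`, so `2 c = ω v w`, `c = 2 ω v w`.  `ρ m = σ (p ⟨m, _⟩)` if `m` commutes with `z`, else `1`.
-/

set_option autoImplicit false
open Subgroup Cfsg

namespace CL.B3

universe u

namespace Setup
open CL.ES
open scoped commutatorElement

section
variable {E : Type*} [Group E] {z : E}

theorem lin (d : ZData 3 E z) (φ : E →* E) (hφ : φ z = z) :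
    ∃ L : d.V →ₗ[F3] d.V, ∀ x, L (d.pr x) = d.pr (φ x) := by
  have := d.normal
  let g : E ⧸ zpowers z →* E ⧸ zpowers z := QuotientGroup.map _ _ φ (by
    rw [zpowers_le, mem_comap, hφ]; exact mem_zpowers z)
  exact ⟨AddMonoidHom.toZModLinearMap 3 (MonoidHom.toAdditive g : d.V →+ d.V), fun x => rfl⟩

theorem fixz {φ : E →* E} (hφ : φ z = z) {c : E} (hc : c ∈ zpowers z) : φ c = c := by
  obtain ⟨k, rfl⟩ := mem_zpowers_iff.1 hc
  rw [map_zpow, hφ]

theorem cen (d : ZData 3 E z) {c : E} (hc : c ∈ zpowers z) (x : E) : x * c = c * x :=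
  mem_center_iff.1 (d.le_center hc) x

theorem sec (d : ZData 3 E z) (ψ : E →* E) (hψ : ψ z = z) (hn : ∀ x, d.pr (ψ x) = - d.pr x) :
    ∃ s : d.V → E, (∀ v, d.pr (s v) = v) ∧ (∀ v, ψ (s v) = s (-v)) ∧ s 0 = 1 ∧
      ∀ v w, s v * s w = zpw z (2 * d.B v w) * s (v + w) := by
  have ex : ∀ v, ∃ x, d.pr x = v ∧ ψ x = x⁻¹ := fun v => by
    obtain ⟨x, rfl⟩ := d.pr_surjective v
    have hc : ψ x * x ∈ zpowers z := d.pr_eq_zero_iff.1 (by rw [d.pr_mul, hn, neg_add_cancel])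
    obtain ⟨c, e⟩ : ∃ c, c = ψ x * x := ⟨_, rfl⟩
    rw [← e] at hc
    have c3 := d.pow_eq_one hc
    refine ⟨x * c, by rw [d.pr_mul, d.pr_eq_zero_iff.2 hc, add_zero], ?_⟩
    have e1 : ψ x = c * x⁻¹ := by rw [e]; group
    rw [map_mul, fixz hψ hc, e1, mul_assoc, cen d hc x⁻¹, mul_inv_rev, ← mul_assoc]
    congr 1
    rw [eq_inv_iff_mul_eq_one, ← c3, pow_three']
  have un : ∀ x y, d.pr x = d.pr y → ψ x = x⁻¹ → ψ y = y⁻¹ → x = y := fun x y e hx hy => by
    have hc := d.pr_eq_iff.1 e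
    obtain ⟨c, rfl⟩ : ∃ c, y = x * c := ⟨x⁻¹ * y, by group⟩
    rw [inv_mul_cancel_left] at hc
    have c3 := d.pow_eq_one hc
    rw [map_mul, fixz hψ hc, hx, cen d hc x⁻¹, mul_inv_rev, mul_left_inj] at hy
    have : c = 1 := by
      rw [pow_three'] at c3
      nth_rewrite 1 [hy] at c3
      rwa [inv_mul_cancel, one_mul] at c3
    rw [this, mul_one]
  choose s h1 h2 using ex
  refine ⟨s, h1, fun v => ?_, un _ _ (by rw [h1, d.pr_one]) (h2 _) (by simp), fun v w => ?_⟩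
  · rw [h2]
    exact un _ _ (by rw [d.pr_inv, h1, h1]) (by rw [map_inv, h2]) (h2 _)
  · have hb := d.zpw_B (s v) (s w)
    rw [h1, h1] at hb
    have hc := d.comm_mem (s v) (s w)
    have e : s v * s w = ⁅s v, s w⁆ * (s w * s v) := by rw [commutatorElement_def]; group
    rw [two_mul, zpw_add d.order, hb]
    generalize ⁅s v, s w⁆ = c at hc e
    have c3 := d.pow_eq_one hc
    rw [pow_three'] at c3
    have k : c * (s v * s w) = s (v + w) := by
      refine un _ _ (by rw [d.pr_mul, d.pr_mul, d.pr_eq_zero_iff.2 hc, h1, h1, h1, zero_add]) ?_ (h2 _)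
      rw [map_mul, map_mul, fixz hψ hc, h2, h2, e, ← mul_inv_rev, ← cen d hc, ← mul_assoc c c,
        mul_inv_rev (c * c)]
      congr 1
      rw [eq_inv_iff_mul_eq_one, ← mul_assoc, c3]
    rw [← k, ← mul_assoc, c3, one_mul]

end

theorem ex {X : Type*} [Group X] [Finite X] {R : Subgroup X} (hFR : generalizedFittingSubgroup X = R)
    (hR : IsExtraspecial 2 R) (hRcard : Nat.card R = 2 ^ 7) [hRn : R.Normal] : ∃ ζ, Ex R ζ := by
  obtain ⟨ζ, h⟩ := LX.exists_es_of_isExtraspecial hR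
  refine ⟨ζ, hRn, hRcard, fun g hg => ?_, h.z_mem, h.z_ne, h.z_sq, fun g => ?_, fun a ha b hb => ?_, h.sq,
    h.cent⟩
  · rw [← hFR] at hg ⊢
    exact Comp.centralizer_fstar_le (mem_centralizer_iff.2 fun a ha => (hg a ha).symm)
  · rcases h.cent _ (hRn.conj_mem _ h.z_mem g) (fun y hy => by
      have := h.z_comm _ (hRn.conj_mem _ hy g⁻¹)
      calc g * ζ * g⁻¹ * y = g * (ζ * (g⁻¹ * y * g⁻¹⁻¹)) * g⁻¹ := by group
        _ = y * (g * ζ * g⁻¹) := by rw [← this]; group) with e | e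
    · exact absurd (by simpa using e) h.z_ne
    · exact mul_inv_eq_iff_eq_mul.1 e
  · rcases h.comm a ha b hb with e | e
    · exact Or.inl e
    · exact Or.inr (by rw [e, h.z_comm _ (mul_mem hb ha)])

theorem core {G : Type u} {X T : Type*} [Group G] [Finite G] [Group X] [Group T] {z : G} (hz : orderOf z = 3)
    (Q : Subgroup (cz z)) [Q.Normal] (hQ : IsExtraspecial 3 Q) (hc : Nat.card Q = 3 ^ 9)
    (hexp : ∀ x ∈ Q, x ^ 3 = 1) (hC : centralizer (Q : Set (cz z)) ≤ Q) (p : cz z →* X)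
    (ps : Function.Surjective p) (pk : ∀ m, p m = 1 ↔ m ∈ Q) {R : Subgroup X} {ζ : X} (E : Ex R ζ)
    (π : X →* T) (πs : Function.Surjective π) (πk : ∀ g, π g = 1 ↔ g ∈ R) {P : T → T → Prop} (tf : TF T P) :
    ∃ (V : Type u) (_ : AddCommGroup V) (_ : Module F3 V)
      (ω : V →ₗ[F3] V →ₗ[F3] F3) (f : F3 → V → G) (ρ : G → V →ₗ[F3] V) (r : G)
      (σ : X →* V →ₗ[F3] V), St z (Q.map (cz z).subtype) ω f ρ r p σ R ζ π P := by
  classical
  have : Fact (Nat.Prime 3) := ⟨Nat.prime_three⟩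
  let z1 : cz z := ⟨z, mem_cz.2 rfl⟩
  have z1c : ∀ m : cz z, m * z1 = z1 * m := fun m => Subtype.ext (mem_cz.1 m.2)
  have z1Q : z1 ∈ Q := hC (mem_centralizer_iff.2 fun a _ => z1c a)
  let z0 : Q := ⟨z1, z1Q⟩
  have zne : z0 ≠ 1 := fun e => by
    have : z = 1 := congrArg (fun x : Q => ((x : cz z) : G)) e
    rw [this, orderOf_one] at hz; omega
  obtain ⟨d, hcen, -⟩ := zdata_of_isExtraspecial (z := z0) hQ
    (mem_center_iff.2 fun a => Subtype.ext (z1c a)) zne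
  let cj : cz z → Q →* Q := fun m => (MulAut.conjNormal m : MulAut Q).toMonoidHom
  have cjv : ∀ m x, (cj m x : cz z) = m * x * m⁻¹ := fun _ _ => rfl
  have cjz : ∀ m, cj m z0 = z0 := fun m => Subtype.ext (by
    rw [cjv]; exact mul_inv_eq_iff_eq_mul.2 (z1c m))
  choose t ht using fun m => lin d (cj m) (cjz m)
  let τ : cz z →* d.V →ₗ[F3] d.V :=
    { toFun := t
      map_one' := LinearMap.ext fun v => by
        obtain ⟨x, rfl⟩ := d.pr_surjective v
        rw [ht]; exact congrArg d.pr (Subtype.ext (by rw [cjv]; simp))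
      map_mul' := fun m n => LinearMap.ext fun v => by
        obtain ⟨x, rfl⟩ := d.pr_surjective v
        rw [Module.End.mul_apply, ht, ht, ht]
        exact congrArg d.pr (Subtype.ext (by simp only [cjv]; group)) }
  have hτ : ∀ m x, τ m (d.pr x) = d.pr (cj m x) := ht
  have kτ : p.ker ≤ τ.ker := fun m hm => LinearMap.ext fun v => by
    obtain ⟨x, rfl⟩ := d.pr_surjective v
    have hm' := (pk m).1 hm
    have : cj m x = ⟨m, hm'⟩ * x * ⟨m, hm'⟩⁻¹ := Subtype.ext (cjv _ _)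
    rw [hτ, this, d.pr_mul, d.pr_mul, d.pr_inv, Module.End.one_apply]; abel
  let σ : X →* d.V →ₗ[F3] d.V := (Units.coeHom _).comp
    (p.liftOfSurjective ps ⟨τ.toHomUnits, fun m hm => Units.ext (kτ hm)⟩)
  have hσ : ∀ m, σ (p m) = τ m := fun m =>
    congrArg Units.val (p.liftOfRightInverse_comp_apply _ (Function.rightInverse_surjInv ps)
      ⟨τ.toHomUnits, fun m hm => Units.ext (kτ hm)⟩ m)
  have kk : ∀ m, (∀ v, τ m v = v) → m ∈ Q := fun m hm => by
    have h1 : ∀ x, cj m x * x⁻¹ ∈ zpowers z0 := fun x =>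
      d.pr_eq_zero_iff.1 (by rw [d.pr_mul, d.pr_inv, ← hτ, hm, add_neg_cancel])
    obtain ⟨e, he⟩ := d.exists_eq_commutator hcen (fun x => cj m x * x⁻¹) h1 (fun x y => by
      rw [map_mul, mul_inv_rev, mul_assoc (cj m x) x⁻¹, cen d (h1 y) x⁻¹]; group) (by simp [cjz])
    have : (e : cz z)⁻¹ * m ∈ Q := hC (mem_centralizer_iff.2 fun a ha => by
      have h2 := congrArg Subtype.val (he ⟨a, ha⟩)
      simp only [commutatorElement_def, coe_mul, coe_inv, cjv, mul_left_inj] at h2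
      calc a * ((e : cz z)⁻¹ * m) = (e : cz z)⁻¹ * (e * a * (e : cz z)⁻¹) * m := by group
        _ = _ := by rw [← h2]; group)
    simpa using mul_mem e.2 this
  have L : Lin d.B σ := by
    refine ⟨d.finrank_eq_of_card hc, d.B_isAlt, d.separatingLeft_iff.2 hcen, fun g v w => ?_, fun g hg => ?_⟩
    · obtain ⟨m, rfl⟩ := ps g
      obtain ⟨x, rfl⟩ := d.pr_surjective v
      obtain ⟨y, rfl⟩ := d.pr_surjective w
      rw [hσ, hτ, hτ, d.B_pr, d.B_pr, ← map_commutatorElement, fixz (cjz m) (d.comm_mem x y)]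
    · obtain ⟨m, rfl⟩ := ps g
      exact (pk m).2 (kk m (hσ m ▸ hg))
  obtain ⟨r0, hr0⟩ := ps ζ
  have r2 : r0 ^ 3 * r0 ^ 3 = 1 := by
    have := hexp (r0 * r0) ((pk _).1 (by rw [map_mul, hr0, E.z2]))
    rwa [(Commute.refl r0).mul_pow] at this
  have pr3 : p (r0 ^ 3) = ζ := by rw [map_pow, hr0, pow_three', E.z2, one_mul]
  generalize r0 ^ 3 = r at r2 pr3
  obtain ⟨s, s1, s2, s3, s4⟩ := sec d (cj r) (cjz r) fun x => by rw [← hτ, ← hσ, pr3, L.neg E]
  let ι : Q →* G := (cz z).subtype.comp Q.subtype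
  have ιi : Function.Injective ι := (subtype_injective _).comp (subtype_injective _)
  have ιc : ∀ (m : cz z) x, (m : G) * ι x * (m : G)⁻¹ = ι (cj m x) := fun _ _ => rfl
  have dec : ∀ x v, d.pr x = v → ∃ c : F3, x = zpw z0 c * s v := fun x v e => by
    obtain ⟨c, hc⟩ := exists_zpw_eq d.order (x := x * (s v)⁻¹)
      (d.pr_eq_zero_iff.1 (by rw [d.pr_mul, d.pr_inv, s1, e, add_neg_cancel]))
    exact ⟨c, by rw [hc]; group⟩
  refine ⟨d.V, inferInstance, inferInstance, d.B, fun c v => ι (zpw z0 c * s v),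
    fun m => if h : m * z = z * m then τ ⟨m, mem_cz.2 h⟩ else 1, r, σ,
    ⟨L.alt, L.nd, fun c v e w => ?_, fun {c v e w} h => ?_, fun g => ⟨?_, ?_⟩, ?_, fun m hm => ?_,
      fun m hm h => ?_⟩, mem_cz.1 r.2, congrArg Subtype.val r2, fun c v => ?_, L, E, ps, fun m => ?_,
      πs, πk, tf⟩
  · rw [← map_mul, zpw_add d.order, zpw_add d.order, mul_assoc (_ * _), ← s4, mul_assoc, mul_assoc,
      ← mul_assoc (s v), cen d (zpw_mem e) (s v), mul_assoc]
  · have h1 := ιi h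
    have h2 := congrArg d.pr h1
    rw [d.pr_mul, d.pr_mul, d.pr_eq_zero_iff.2 (zpw_mem c), d.pr_eq_zero_iff.2 (zpw_mem e), s1, s1, zero_add,
      zero_add] at h2
    subst h2
    exact ⟨zpw_injective d.order (mul_right_cancel h1), rfl⟩
  · rintro ⟨x, hx, rfl⟩
    obtain ⟨c, hc⟩ := dec ⟨x, hx⟩ _ rfl
    exact ⟨c, _, congrArg ι hc.symm⟩
  · rintro ⟨c, v, rfl⟩
    exact ⟨_, (zpw z0 c * s v).2, rfl⟩
  · show ι (zpw z0 (1 : F3) * s 0) = z
    rw [zpw_one d.order, s3, mul_one]; rfl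
  · simp only [dif_pos hm]
    choose δ hδ using fun v => dec (cj ⟨m, mem_cz.2 hm⟩ (s v)) (τ ⟨m, mem_cz.2 hm⟩ v) (by rw [← hτ, s1])
    refine ⟨δ, fun c v => (ιc ⟨m, mem_cz.2 hm⟩ _).trans ?_⟩
    rw [map_mul (cj _), fixz (cjz _) (zpw_mem c), hδ, zpw_add d.order, mul_assoc]
  · simp only [dif_pos hm] at h
    exact ⟨_, kk _ h, rfl⟩
  · refine (ιc r _).trans ?_
    rw [map_mul (cj _), fixz (cjz _) (zpw_mem c), s2]
  · simp only [dif_pos (mem_cz.1 m.2)]
    exact hσ m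

theorem sub {G : Type u} [Group G] [Finite G] {z : G} (hz : orderOf z = 3) (M : Subgroup G) (hM : M = cz z)
    (hQ : IsExtraspecial 3 (generalizedFittingSubgroup M))
    (hQcard : Nat.card (generalizedFittingSubgroup M) = 3 ^ 9)
    [hQn : (generalizedFittingSubgroup M).Normal]
    (hexp : ∀ x ∈ generalizedFittingSubgroup M, x ^ 3 = 1)
    (R : Subgroup (M ⧸ generalizedFittingSubgroup M))
    (hFR : generalizedFittingSubgroup (M ⧸ generalizedFittingSubgroup M) = R)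
    (hR : IsExtraspecial 2 R) (hRcard : Nat.card R = 2 ^ 7) [hRn : R.Normal]
    {P : _ → _ → Prop} (tf : TF ((M ⧸ generalizedFittingSubgroup M) ⧸ R) P) :
    ∃ (Q : Subgroup G) (V : Type u) (_ : AddCommGroup V) (_ : Module F3 V)
      (ω : V →ₗ[F3] V →ₗ[F3] F3) (f : F3 → V → G) (ρ : G → V →ₗ[F3] V) (r : G) (p : cz z →* _)
      (σ : _ →* V →ₗ[F3] V) (ζ : _), St z Q ω f ρ r p σ R ζ (QuotientGroup.mk' R) P := by
  subst hM
  obtain ⟨ζ, E⟩ := ex hFR hR hRcard
  obtain ⟨V, i1, i2, ω, f, ρ, r, σ, h⟩ := core hz _ hQ hQcard hexp Comp.centralizer_fstar_le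
    (QuotientGroup.mk' _) (QuotientGroup.mk'_surjective _) (fun m => QuotientGroup.eq_one_iff m) E
    (QuotientGroup.mk' R) (QuotientGroup.mk'_surjective _) (fun m => QuotientGroup.eq_one_iff m) tf
  exact ⟨_, V, i1, i2, ω, f, ρ, r, _, σ, ζ, h⟩

end Setup

theorem setup {G : Type u} [Group G] [Finite G] (Z : Subgroup G) (hZ : Nat.card Z = 3)
    (hQ : IsExtraspecial 3 (generalizedFittingSubgroup (centralizer (Z : Set G))))
    (hQcard : Nat.card (generalizedFittingSubgroup (centralizer (Z : Set G))) = 3 ^ 9)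
    [hQn : (generalizedFittingSubgroup (centralizer (Z : Set G))).Normal]
    (hexp : ∀ x ∈ generalizedFittingSubgroup (centralizer (Z : Set G)), x ^ 3 = 1)
    (R : Subgroup (centralizer (Z : Set G) ⧸ generalizedFittingSubgroup (centralizer (Z : Set G))))
    (hFR : generalizedFittingSubgroup
      (centralizer (Z : Set G) ⧸ generalizedFittingSubgroup (centralizer (Z : Set G))) = R)
    (hR : IsExtraspecial 2 R) (hRcard : Nat.card R = 2 ^ 7) [hRn : R.Normal]
    {P : _ → _ → Prop} (tf : TF ((centralizer (Z : Set G) ⧸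
      generalizedFittingSubgroup (centralizer (Z : Set G))) ⧸ R) P) :
    ∃ (z : G) (Q : Subgroup G) (V : Type u) (_ : AddCommGroup V) (_ : Module F3 V)
      (ω : V →ₗ[F3] V →ₗ[F3] F3) (f : F3 → V → G) (ρ : G → V →ₗ[F3] V) (r : G) (p : cz z →* _)
      (σ : _ →* V →ₗ[F3] V) (ζ : _), Z = zpowers z ∧ St z Q ω f ρ r p σ R ζ (QuotientGroup.mk' R) P := by
  have : Fact (Nat.Prime 3) := ⟨Nat.prime_three⟩
  have := isCyclic_of_prime_card hZ
  obtain ⟨z, rfl⟩ := (Subgroup.isCyclic_iff_exists_zpowers_eq_top Z).1 inferInstance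
  rw [Nat.card_zpowers] at hZ
  have hM : centralizer (zpowers z : Set G) = cz z := by
    ext g
    rw [mem_cz, mem_centralizer_iff]
    refine ⟨fun h => (h z (mem_zpowers z)).symm, fun h a ha => ?_⟩
    obtain ⟨k, rfl⟩ := mem_zpowers_iff.1 ha
    exact ((show Commute g z from h).zpow_right k).symm
  obtain ⟨Q, V, i1, i2, ω, f, ρ, r, p, σ, ζ, h⟩ := Setup.sub hZ _ hM hQ hQcard hexp R hFR hR hRcard tf
  exact ⟨z, Q, V, i1, i2, ω, f, ρ, r, p, σ, ζ, rfl, h⟩

end CL.B3
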