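import Cfsg.Agent.SPOR.B3.Defs
import Cfsg.Agent.PERM.C3.Mod
import Cfsg.Agent.SPOR.W6.Cls

/-! The facts used about `PSp₄(3)` and about the centralizer of a 3-central element, read off the
coded model `W6.G0`. -/

set_option autoImplicit false
set_option maxRecDepth 100000
open Subgroup Cfsg

namespace CL.B3

namespace TFa

open CL.K CL.CG CL.F2M CL.MSS CL.W6
open CL.C3 (prodL mem_of_prodL lst_spec complete_of_nodup mem3 cls_spec LG mem_LG)
open CL.F24 (memB memB_iff nodupB nodup_of_nodupB)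

section Map

variable {T T' : Type*} [Group T] [Group T'] (e : T ≃* T')

theorem card_tr {J : Subgroup T} {J' : Subgroup T'} (h : ∀ g, e g ∈ J' ↔ g ∈ J) :
    Nat.card J = Nat.card J' :=
  Nat.card_congr (e.toEquiv.subtypeEquiv fun g => (h g).symm)

theorem cz_tr (t g : T) : e g ∈ cz (e t) ↔ g ∈ cz t := by
  rw [mem_cz, mem_cz, ← map_mul, ← map_mul, e.injective.eq_iff]

theorem L3_tr {t g : T} (h : g ∈ L3 t) : e g ∈ L3 (e t) :=
  (closure_le ((L3 (e t)).comap e.toMonoidHom)).2 (fun a ha => ha.1.elim fun k h1 =>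
    mem_L3 (k := k) ((map_pow e a _).symm.trans (by rw [h1, map_one]))
      (mem_cz.1 ((cz_tr e t a).2 (mem_cz.2 ha.2)))) h

theorem e27_tr {J : Subgroup T} {J' : Subgroup T'} (hJ : ∀ g, e g ∈ J' ↔ g ∈ J) (h : E27 J') : E27 J where
  card := (card_tr e hJ).trans h.card
  exp a ha := e.injective (by rw [map_pow, h.exp _ ((hJ a).2 ha), map_one])
  comm a ha b hb := e.injective (by rw [map_mul, map_mul, h.comm _ ((hJ a).2 ha) _ ((hJ b).2 hb)])

theorem fr_tr {J : Subgroup T} {J' : Subgroup T'} (hJ : ∀ g, e g ∈ J' ↔ g ∈ J) {x y u t : T}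
    (h : Fr J x y u t) : Fr J' (e x) (e y) (e u) (e t) where
  xJ := (hJ x).2 h.xJ
  yJ := (hJ y).2 h.yJ
  x1 := by simpa using h.x1
  yu := by rw [← map_mul, h.yu, map_mul, map_mul]
  xu := by rw [← map_mul, h.xu, map_mul]
  t2 := by rw [← map_mul, h.t2, map_one]
  tx := by rw [← map_mul, h.tx, map_mul]
  ty := by rw [← map_mul, ← map_mul, h.ty, map_inv]
  tJ j hj := by
    obtain ⟨j, rfl⟩ := e.surjective j
    rw [← map_mul, ← map_mul, hJ]
    exact h.tJ j ((hJ j).1 hj)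
  t3 := L3_tr e h.t3

theorem pB_tr {x t : T} (h : PB x t) : PB (e x) (e t) := by
  rw [PB, ← card_tr e (cz_tr e t)]; exact h

theorem p23_tr {x t : T} (h : P23 x t) : P23 (e x) (e t) := by
  rw [P23, ← card_tr e (cz_tr e t)]
  refine ⟨fun g => ?_, fun g hg => ?_, h.2.2⟩ <;> obtain ⟨g, rfl⟩ := e.surjective g
  · rw [← map_mul, h.1, map_mul]
  · exact L3_tr e (h.2.1 ((cz_tr e t g).1 hg))

theorem tf_tr {P : T → T → Prop} {P' : T' → T' → Prop} (hP : ∀ x t, P x t → P' (e x) (e t))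
    (h : TF T P) : TF T' P' where
  exp B hB := (card_tr e (J := B.comap e.toMonoidHom) fun _ => Iff.rfl) ▸
    h.exp _ fun b hb => e.injective (by rw [map_pow, map_one]; exact hB _ hb)
  fr J hJ := by
    obtain ⟨x, y, u, t, h1, h2⟩ := h.fr (J.comap e.toMonoidHom) (e27_tr e (fun _ => Iff.rfl) hJ)
    exact ⟨_, _, _, _, fr_tr e (fun _ => Iff.rfl) h1, hP _ _ h2⟩

end Map

/-- generators of `3³` -/
def LJ : List ℕ := [0x810345084, 0x430e04081, 0x810284a41]
/-- generators of a Sylow 3-subgroup -/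
def LP : List ℕ := 0xa9990060 :: LJ
/-- generators of the centralizer of its centre -/
def LX : List ℕ := 0x6a6f883b7 :: LP
/-- generators of the centralizer of the involution -/
def LM : List ℕ := [0x430fc5a44, 0x810284a41, 0x6a6f883b7]
/-- a quaternion group -/
def LQ : List ℕ := [0xccd5ca9dc, 0x6a6c084f7, 0x141f30090]
/-- the powers of an element of order 3 -/
noncomputable def tri (a : ℕ) : List ℕ := [c1, a, mm a a]
/-- the elements of `3³` -/
noncomputable def PJ : List ℕ := prodL mm (tri 0x810345084) (prodL mm (tri 0x430e04081) (tri 0x810284a41))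
/-- the elements of the Sylow 3-subgroup -/
noncomputable def PP : List ℕ := prodL mm (tri 0xa9990060) PJ
/-- the elements of the centralizer of the involution -/
noncomputable def PM : List ℕ := prodL mm (tri 0x430fc5a44) (prodL mm (tri 0x810284a41) (pl mm c1 LQ))

section Code

variable {T : Type*} [Group T] {φ : T → ℕ} (C : IsCode φ mm c1)
include C

theorem mem_tri {H : Subgroup T} {a : ℕ} (h : Mem φ H a) : ∀ c ∈ tri a, Mem φ H c := by
  simp only [tri, List.forall_mem_cons, List.not_mem_nil, IsEmpty.forall_iff, implies_true, and_true]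
  exact ⟨C.mem_one _, h, C.mem_mul h h⟩

theorem mem_PJ {H : Subgroup T} (h : ∀ c ∈ LJ, Mem φ H c) : ∀ c ∈ PJ, Mem φ H c :=
  mem_of_prodL C (mem_tri C (h _ (by simp [LJ])))
    (mem_of_prodL C (mem_tri C (h _ (by simp [LJ]))) (mem_tri C (h _ (by simp [LJ]))))

theorem mem_PP {H : Subgroup T} (h : ∀ c ∈ LP, Mem φ H c) : ∀ c ∈ PP, Mem φ H c :=
  mem_of_prodL C (mem_tri C (h _ List.mem_cons_self)) (mem_PJ C fun c hc => h c (List.mem_cons_of_mem _ hc))

theorem mem_LQ {H : Subgroup T} (h : ∀ c ∈ LM, Mem φ H c) : ∀ c ∈ LQ, Mem φ H c :=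
  C.mem_of_wordsB h (W := [(0xccd5ca9dc, [1, 2]), (0x6a6c084f7, [2, 1]), (0x141f30090, [1, 2, 1, 2])])
    (by decide +kernel)

theorem mem_PM {H : Subgroup T} (h : ∀ c ∈ LM, Mem φ H c) : ∀ c ∈ PM, Mem φ H c :=
  mem_of_prodL C (mem_tri C (h _ (by simp [LM])))
    (mem_of_prodL C (mem_tri C (h _ (by simp [LM]))) (mem_of_pl C (mem_LQ C h)))

variable (hL : ∀ c ∈ LX, Mem φ ⊤ c)
include hL

omit C in
theorem mem_LP : ∀ c ∈ LP, Mem φ ⊤ c := fun c hc => hL c (List.mem_cons_of_mem _ hc)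
omit C in
theorem mem_LJ : ∀ c ∈ LJ, Mem φ ⊤ c := fun c hc => mem_LP hL c (List.mem_cons_of_mem _ hc)

theorem mem_LM : ∀ c ∈ LM, Mem φ ⊤ c :=
  C.mem_of_wordsB hL (W := [(0x430fc5a44, [2, 3, 4]), (0x810284a41, [4]), (0x6a6f883b7, [0])])
    (by decide +kernel)

theorem ex : φ (elt φ 0x430fc5a44) = 0x430fc5a44 := (mem_LM C hL _ (by simp [LM])).code_elt
theorem et : φ (elt φ 0x141f30090) = 0x141f30090 := (mem_LQ C (mem_LM C hL) _ (by simp [LQ])).code_elt

theorem LM_le : gen φ LM ≤ L3 (elt φ 0x141f30090) := C.gen_le fun c hc => by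
  have key : lall (fun c => Nat.beq (mm (mm c c) c) c1 && Nat.beq (mm c 0x141f30090) (mm 0x141f30090 c)) LM =
      true := by decide +kernel
  obtain ⟨g, -, rfl⟩ := mem_LM C hL c hc
  have := lall_iff.1 key _ hc
  rw [Bool.and_eq_true, ← et C hL] at this
  simp only [C.map_mul, Nat.beq_eq, ← C.map_one, C.inj.eq_iff] at this
  exact mem_code (mem_L3 (k := 1) (by rw [pow_one, pow_three', this.1]) this.2)

variable [Finite T]

theorem J_spec : (∀ g, g ∈ gen φ LJ ↔ φ g ∈ PJ) ∧ Nat.card (gen φ LJ) = 27 :=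
  (show PJ.length = 27 from rfl) ▸ lst_spec C (mem_PJ C (mem_gen (mem_LJ hL))) (by decide +kernel)

theorem P_spec : (∀ g, g ∈ gen φ LP ↔ φ g ∈ PP) ∧ Nat.card (gen φ LP) = 81 :=
  (show PP.length = 81 from rfl) ▸ lst_spec C (mem_PP C (mem_gen (mem_LP hL))) (by decide +kernel)

theorem M_spec : (∀ g, g ∈ gen φ LM ↔ φ g ∈ PM) ∧ Nat.card (gen φ LM) = 72 :=
  (show PM.length = 72 from rfl) ▸ lst_spec C (mem_PM C (mem_gen (mem_LM C hL))) (by decide +kernel)

theorem syl (h3 : ¬ 243 ∣ Nat.card T) : SylIn 3 (gen φ LP) ⊤ := by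
  refine sylIn_of_not_dvd_relIndex (IsPGroup.of_card (n := 4) (P_spec C hL).2) le_top fun ⟨k, hk⟩ => h3 ⟨k, ?_⟩
  rw [relIndex_top_right] at hk
  rw [← (gen φ LP).card_mul_index, (P_spec C hL).2, hk]; omega

theorem fr0 : ∃ y u, Fr (gen φ LJ) (elt φ 0x430fc5a44) y u (elt φ 0x141f30090) := by
  have key : forceL PJ (fun P => memB 0x430fc5a44 P && memB 0xc20745084 P &&
      lall (fun c => force (mm (mm 0x141f30090 c) 0x141f30090) fun d => memB d P) P) = true := by decide +kernel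
  simp only [forceL_eq, force_eq, Bool.and_eq_true, memB_iff, lall_iff] at key
  obtain ⟨y, hy, ey⟩ := mem_PJ C (mem_gen (mem_LJ hL)) _ key.1.2
  obtain ⟨u, -, eu⟩ := mem_LP hL _ List.mem_cons_self
  have e1 := ex C hL
  have e2 := et C hL
  refine ⟨y, u, ((J_spec C hL).1 _).2 (e1.symm ▸ key.1.1), hy, ?_, ?_, ?_, ?_, ?_,
    eq_inv_of_mul_eq_one_left ?_, fun j hj => ((J_spec C hL).1 _).2 ?_,
    LM_le C hL (C.elt_mem (mem_LQ C (mem_gen (mem_LM C hL)) _ (by simp [LQ])))⟩
  any_goals simp only [← C.inj.eq_iff, ne_eq, ← C.map_mul, C.map_one, e1, e2, ey, eu]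
  any_goals decide +kernel
  exact key.2 _ (((J_spec C hL).1 j).1 hj)

theorem core (h3 : ¬ 243 ∣ Nat.card T) {P : T → T → Prop}
    (hP : ∀ (e : T ≃* T) x t, P x t → P (e x) (e t)) (h0 : P (elt φ 0x430fc5a44) (elt φ 0x141f30090)) :
    TF T P := by
  have key : forceL PP (fun P => forceL PJ fun J =>
      Nat.ble (llen (lfilter (fun c => Nat.beq (mm (mm c c) c) c1) P)) 45 && lall (fun a => memB a J ||
        Nat.ble (llen (lfilter (fun c => Nat.beq (mm a c) (mm c a)) P)) 9) P) = true := by decide +kernel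
  simp only [forceL_eq, Bool.and_eq_true, Bool.or_eq_true, memB_iff, lall_iff, llen_eq, lfilter_eq,
    Nat.ble_eq] at key
  have cj : ∀ B : Subgroup T, (∀ b ∈ B, b ^ 3 = 1) → ∃ e : T ≃* T, B.comap e.toMonoidHom ≤ gen φ LP :=
    fun B hB => by
      obtain ⟨g, -, hg⟩ := (syl C hL h3).exists_conj_le (R := B)
        (fun b => ⟨1, Subtype.ext (hB b b.2)⟩) le_top
      exact ⟨(MulAut.conj g).symm, fun a ha => hg (mem_cj.2 ha)⟩
  refine ⟨fun B hB => ?_, fun J hJ => ?_⟩
  · obtain ⟨e, he⟩ := cj B hB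
    have h1 := card_dvd_of_le he
    have h2 := (card_le_length C (K := B.comap e.toMonoidHom) fun g hg => List.mem_filter.2
      ⟨((P_spec C hL).1 g).1 (he hg), by
        rw [C.map_mul, C.map_mul, ← pow_three', e.injective ((map_pow e g 3).trans
          ((hB _ hg).trans (map_one e).symm)), C.map_one, Nat.beq_refl]⟩).trans key.1
    rw [(P_spec C hL).2, card_tr e (J' := B) fun _ => Iff.rfl] at h1
    rw [card_tr e (J' := B) fun _ => Iff.rfl] at h2
    by_contra h
    generalize Nat.card B = n at *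
    have h4 : 27 < n := by omega
    interval_cases n <;> simp at h1
  · obtain ⟨e, he⟩ := cj J hJ.exp
    have h1 : E27 (J.comap e.toMonoidHom) := e27_tr e (fun _ => Iff.rfl) hJ
    have h2 : J.comap e.toMonoidHom ≤ gen φ LJ := fun a ha => ((J_spec C hL).1 a).2
      ((key.2 _ (((P_spec C hL).1 a).1 (he ha))).resolve_right fun h => by
        have := (card_le_length C (K := J.comap e.toMonoidHom) fun g hg => List.mem_filter.2
          ⟨((P_spec C hL).1 g).1 (he hg), by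
            rw [C.map_mul, C.map_mul, h1.comm a ha g hg, Nat.beq_refl]⟩).trans h
        rw [h1.card] at this; omega)
    have h4 := eq_of_le_of_card_ge h2 (by rw [h1.card, (J_spec C hL).2])
    obtain ⟨y, u, h5⟩ := fr0 C hL
    exact ⟨_, _, _, _, fr_tr e (fun _ => Iff.rfl) (h4.symm ▸ h5), hP e _ _ h0⟩

theorem p23 (h : Nat.card T ≤ 648) : P23 (elt φ 0x430fc5a44) (elt φ 0x141f30090) := by
  have key : forceL (prodL mm PP (pl mm c1 LQ)) (fun P => forceL PM fun M => nodupB P &&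
      Nat.beq (llen P) 648 && lall (fun c => Nat.beq (mm c 0x430fc5a44) (mm 0x430fc5a44 c) &&
        (!Nat.beq (mm c 0x141f30090) (mm 0x141f30090 c) || memB c M)) P) = true := by decide +kernel
  simp only [forceL_eq, Bool.and_eq_true, Bool.or_eq_true, memB_iff, lall_iff, llen_eq, Nat.beq_eq,
    Bool.not_eq_true', ← Bool.not_eq_true] at key
  have h1 := fun g => key.2 _ (complete_of_nodup C (mem_of_prodL C (mem_PP C (mem_LP hL))
    (mem_of_pl C (mem_LQ C (mem_LM C hL)))) (nodup_of_nodupB key.1.1) (by rw [card_top, key.1.2]; exact h)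
    g trivial)
  rw [← ex C hL, ← et C hL] at h1
  simp only [C.map_mul, C.inj.eq_iff] at h1
  have h2 : cz (elt φ 0x141f30090) ≤ gen φ LM := fun g hg =>
    ((M_spec C hL).1 g).2 ((h1 g).2.resolve_left (not_not.2 (mem_cz.1 hg)))
  have h3 := le_antisymm h2 ((LM_le C hL).trans (L3_le _))
  refine ⟨fun g => (h1 g).1, h2.trans (LM_le C hL), ?_⟩
  rw [h3, (M_spec C hL).2]; decide

theorem cen (h3 : ¬ 243 ∣ Nat.card T) {x : T} (hx : orderOf x = 3) (h : gen φ LP ≤ cz x) :
    cz x = cz (elt φ 0x430fc5a44) := by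
  have key : lall (fun c => force c fun c => Nat.beq c c1 || Nat.beq c 0x430fc5a44 ||
      Nat.beq (mm c 0x430fc5a44) c1 || !commB mm LP c) PP = true := by decide +kernel
  have h1 : x ∈ gen φ LP := (syl C hL h3).le_of_normalizes (R := zpowers x)
    (IsPGroup.of_card (n := 1) (by rw [Nat.card_zpowers, hx]; rfl)) le_top
    ((zpowers_le.2 (centralizer_le_normalizer _ fun g hg => mem_cz.1 (h hg)))) (mem_zpowers x)
  have h2 := lall_iff.1 key _ (((P_spec C hL).1 x).1 h1)
  have h4 : commB mm LP (φ x) = true := lall_iff.2 fun c hc => by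
    obtain ⟨g, hg, rfl⟩ := mem_gen (mem_LP hL) c hc
    rw [C.map_mul, C.map_mul, mem_cz.1 (h hg), Nat.beq_refl]
  rw [force_eq, h4, ← ex C hL, C.map_mul, ← C.map_one] at h2
  simp only [Bool.or_eq_true, Nat.beq_eq, C.inj.eq_iff, Bool.not_true, Bool.false_eq_true, or_false] at h2
  rcases h2 with (h2 | h2) | h2
  · rw [h2, orderOf_one] at hx; omega
  · rw [h2]
  · rw [eq_inv_of_mul_eq_one_left h2]
    ext g
    rw [mem_cz, mem_cz]
    exact Commute.inv_right_iff

end Code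

attribute [local irreducible] gcode vcode wc

theorem up {L : List ℕ} (h : ∀ c ∈ L, Mem wc G0 c) : ∀ c ∈ L, Mem w0 ⊤ c := fun c hc =>
  let ⟨g, hg, e⟩ := h c hc
  ⟨⟨g, hg⟩, trivial, e⟩

theorem mem_LX : ∀ c ∈ LX, Mem w0 ⊤ c := up fun c hc =>
  mem3 (s := mm c c) (lall_iff.1 (show lall (fun c => sqB c (mm c c) c) LX = true by decide +kernel) c hc)

theorem n243 : ¬ 243 ∣ Nat.card G0 := by rw [card_G0]; decide

theorem tfG : TF G0 PB := by
  refine core C0 mem_LX n243 (fun e _ _ => pB_tr e) ?_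
  have h1 := C0.mem_of_wordsB (up mem_LG) (W := [(0x61cf30d8d, [3, 9, 2]), (0x69e230d8f, [1, 2, 3, 9, 6]),
    (0x141f30090, [1, 0, 1, 0, 4, 3, 1, 2, 0, 1, 4, 3, 1, 5, 3, 1]), (0x8d0696081, [0, 1, 0, 8, 1, 2, 8, 0]),
    (0x290cff4c1, [3, 0, 1, 0, 1, 0, 9, 6, 2, 0, 4, 3, 1]),
    (0x21083d4c1, [1, 0, 4, 1, 0, 1, 0, 4, 6, 2, 0, 4, 3, 1])]) (by decide +kernel)
  have h2 := (pl_spec C0 h1 (by decide +kernel)).2
  exact (Dvd.intro 1 h2.symm).trans <| card_dvd_of_le fun g hg => mem_cz.2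
    (C0.comm_of_commB h1 (h1 _ (by simp)) (by decide +kernel) g hg)

theorem tfC : TF (cz (elt w0 0x430fc5a44)) P23 := by
  have C1 := C0.comp (cz (elt w0 0x430fc5a44)).subtype Subtype.val_injective
  have e1 := ex C0 mem_LX
  have hL : ∀ c ∈ LX, Mem (fun k => w0 ((cz (elt w0 0x430fc5a44)).subtype k)) ⊤ c := fun c hc => by
    obtain ⟨g, hg, e⟩ := mem_gen mem_LX c hc
    exact ⟨⟨g, mem_cz.2 (C0.comm_of_commB mem_LX ⟨_, trivial, e1⟩ (by decide +kernel) g hg)⟩, trivial, e⟩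
  refine core C1 hL (fun h => n243 (h.trans (card_subgroup_dvd_card _))) (fun e _ _ => p23_tr e)
    (p23 C1 hL ?_)
  have h1 := cls_spec (x := (elt w0 0x430fc5a44).1) (N := 80)
    (A := 0xb2cb6d96d95d760b15b65760745aec162b11aec162b11b118ec4638cc640)
    (P := 0xfc3e0f03b0e4350cc310c02d0a82809c25090220882108421080200801e0701b06c1906418060180581505414048120441104410040100380e0380e0300c02c0b02c0a0280a020080200801806018060140500c0300c030080200401004000000000000)
    (S := 0x883d124380583212c450e836134460a41d0f82e068260ec2c0341308c170fc4c0d01f0bc441082b138481283703c0901007078330c0400a839060240b43c06c270542102c1108014028100380800c060301910c4f048250a041070350c4470000101402)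
    (by rw [show wc (elt w0 0x430fc5a44).1 = _ from e1]; decide +kernel)
  have h2 := Nat.card_le_card_of_injective (fun g : cz (elt w0 0x430fc5a44) =>
    (⟨g.1.1, mem_cz.2 (congrArg Subtype.val (mem_cz.1 g.2))⟩ : cz (elt w0 0x430fc5a44).1))
    fun a b e => Subtype.ext (Subtype.ext (Subtype.mk.inj e))
  change 80 * Nat.card (cz _) ≤ _ at h1
  omega

end TFa

open TFa

theorem tfB {F : Type} [Field F] [Fintype F] (hF : Fintype.card F = 3) {T : Type*} [Group T]
    (e : T ≃* PSp 2 F) : TF T PB :=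
  tf_tr ((W6.facts.2 F hF).some.trans e.symm) (fun _ _ => pB_tr _) tfG

theorem tf23 {F : Type} [Field F] [Fintype F] (hF : Fintype.card F = 3) (x : PSp 2 F)
    (hx : orderOf x = 3) (P : Sylow 3 (PSp 2 F))
    (hP : (P : Subgroup (PSp 2 F)) ≤ centralizer ({x} : Set (PSp 2 F))) {T : Type*} [Group T]
    (e : T ≃* centralizer ({x} : Set (PSp 2 F))) : TF T P23 := by
  obtain ⟨f⟩ := W6.facts.2 F hF
  have := Finite.of_equiv _ f.toEquiv
  have h1 := (MSS.sylIn_top P).map f.symm.toMonoidHom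
  rw [map_top_of_surjective _ f.symm.surjective] at h1
  obtain ⟨g, -, hg⟩ := h1.exists_conj (syl W6.C0 mem_LX n243)
  let ψ := f.symm.trans (MulAut.conj g)
  have h2 := cen W6.C0 mem_LX n243 (x := ψ x) ((ψ.orderOf_eq x).trans hx) (by
    rw [← hg]
    rintro _ ⟨_, ⟨a, ha, rfl⟩, rfl⟩
    exact (cz_tr ψ x a).2 (hP ha))
  let χ : cz x ≃* cz (ψ x) :=
    { ψ.toEquiv.subtypeEquiv fun a => (cz_tr ψ x a).symm with
      map_mul' := fun a b => Subtype.ext (map_mul ψ a.1 b.1) }
  exact tf_tr ((e.trans χ).trans (MulEquiv.subgroupCongr h2)).symm (fun _ _ => p23_tr _) tfC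

end CL.B3
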